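import Cfsg.Agent.H42.PcDefs

/-! Project PC, piece CENT: an outer element centralising `T / Sq T`. -/

set_option autoImplicit false

namespace Cfsg.Agent.H7.PcCent

open Subgroup Cfsg.Agent.H42.Pc

universe u

theorem cent (ab : AbStmt.{u}) (pick : PickStmt.{u}) (fix : FixStmt.{u}) (cv1 : Cv1Stmt.{u})
    (cv2 : Cv2Stmt.{u}) : CentStmt.{u} := by
  intro G _ _ T U cf hev
  have := cf.nU
  obtain ⟨P⟩ : Nonempty (Sylow 2 G) := inferInstance
  obtain ⟨t, -, htU, htt, hP⟩ := pick G U P hev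
  refine ⟨t, htU, htt, ?_⟩
  by_cases h : ∃ a ∈ U, a⁻¹ * (t * a * t⁻¹) ∉ T
  · obtain ⟨a, ha, haT, hz⟩ := fix G T U P t cf P.2 hP h
    have hzU : a⁻¹ * (t * a * t⁻¹) ∈ U := mul_mem (inv_mem ha) (cf.nU.conj_mem a ha t)
    refine ⟨cv1 G T U P t _ cf hP hzU haT hz ?_, Or.inl h⟩
    have h1 := mul_mem (cf.sq _ (inv_mem hzU)) ((ab G T U cf).2.2 a ha _ htt)
    convert h1 using 1
    group
  · have h' : ∀ a ∈ U, a⁻¹ * (t * a * t⁻¹) ∈ T := fun a ha => by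
      by_contra hn
      exact h ⟨a, ha, hn⟩
    obtain ⟨h1, h2⟩ := cv2 G T U P t cf htU htt hP h'
    refine ⟨cv1 G T U P t _ cf hP htt (fun q => htU ((cf.mem t).mpr q)) h1 ?_, Or.inr h2⟩
    rw [show (t * t)⁻¹ * (t * (t * t) * t⁻¹) = 1 by group]
    exact one_mem _

end Cfsg.Agent.H7.PcCent
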