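import Cfsg.Agent.H35.S4Defs
import Cfsg.Agent.H4.CoprimeAction
import Cfsg.Agent.H86.U3G

/-! The piece `HAT1` of project S4. -/

set_option autoImplicit false

namespace Cfsg.Agent.H7.S4

open Cfsg Cfsg.Agent.H63 Cfsg.Agent.H63.SL Cfsg.Agent.H35.S4 Subgroup
open scoped commutatorElement

universe u v

section Gen

variable {G : Type u} [Group G]

theorem one_of_odd {a : G} (h : Is2 a) (ho : Odd (orderOf a)) : a = 1 := by
  obtain ⟨k, hk⟩ := h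
  exact (pow_eq_one_iff_of_coprime ((Nat.coprime_two_left.2 ho).pow_left k)).1
    ⟨hk, pow_orderOf_eq_one a⟩

theorem is2_mul {a b : G} (c : Commute a b) (ha : Is2 a) (hb : Is2 b) : Is2 (a * b) := by
  obtain ⟨i, hi⟩ := ha
  obtain ⟨j, hj⟩ := hb
  exact ⟨i + j, by rw [c.mul_pow, pow_add, pow_mul, hi, one_pow, mul_comm (2 ^ i), pow_mul, hj,
    one_pow, one_mul]⟩

theorem odd2 {a o : G} (c : Commute a o) (ha : Is2 a) (ho : Odd (orderOf o))
    (h : Odd (orderOf (a * o))) : a = 1 := by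
  refine one_of_odd ha ((h.mul ho).of_dvd_nat ?_)
  have := ((c.mul_left (Commute.refl o)).inv_right).orderOf_mul_dvd_mul_orderOf
  rwa [mul_inv_cancel_right, orderOf_inv] at this

theorem odd_pow [Finite G] (g : G) : ∃ m, Odd m ∧ Is2 (g ^ m) := by
  obtain ⟨k, m, hm, e⟩ := Nat.exists_eq_two_pow_mul_odd (orderOf_pos g).ne'
  exact ⟨m, hm, k, by rw [← pow_mul, mul_comm, ← e, pow_orderOf_eq_one]⟩

theorem conj_odd {g t : G} (h : Commute (g * g) t) {m : ℕ} (hm : Odd m) :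
    g ^ m * t * (g ^ m)⁻¹ = g * t * g⁻¹ := by
  obtain ⟨k, rfl⟩ := hm
  have : (g * g) ^ k * t * ((g * g) ^ k)⁻¹ = t := by rw [(h.pow_left k).eq, mul_inv_cancel_right]
  rw [pow_succ', pow_mul, sq]
  calc _ = g * ((g * g) ^ k * t * ((g * g) ^ k)⁻¹) * g⁻¹ := by group
    _ = _ := by rw [this]

end Gen

section Pin

variable {F : Type v} [Field F] {G : Type u} [Group G] {x : ZMod 8 → F → G}

theorem x0 (p : Pin2 x) (i : ZMod 8) : x i 0 = 1 := by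
  have := p.add i 0 0
  rw [add_zero] at this
  exact left_eq_mul.1 this

theorem xsq (p : Pin2 x) (i : ZMod 8) (a : F) : x i a * x i a = 1 := by
  rw [← p.add, ← two_mul, p.two, zero_mul, x0 p]

theorem xinv (p : Pin2 x) (i : ZMod 8) (a : F) : (x i a)⁻¹ = x i a :=
  inv_eq_of_mul_eq_one_right (xsq p i a)

theorem xcom (p : Pin2 x) (i : ZMod 8) (a b : F) : Commute (x i a) (x i b) := by
  change _ * _ = _ * _
  rw [← p.add, ← p.add, add_comm]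

theorem xmem (i : ZMod 8) (a : F) : x i a ∈ XR x i := subset_closure ⟨a, rfl⟩

theorem x3Z (a : F) : x 3 a ∈ Zp x := mem_sup_right (xmem 3 a)

theorem x2Z (a : F) : x 2 a ∈ Zp x := mem_sup_left (xmem 2 a)

/-- The elements moving `t` along `X₃`. -/
def N3 (p : Pin2 x) (t : G) : Subgroup G where
  carrier := {g | g ∈ C[Zp x] ∧ (∀ u ∈ Up x, ⁅g, u⁆ ∈ Zp x) ∧ ∃ a, g * t * g⁻¹ = t * x 3 a}
  one_mem' := ⟨one_mem _, fun u _ => by simp, 0, by simp [x0 p]⟩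
  mul_mem' := by
    rintro g h ⟨g1, g2, a, ga⟩ ⟨h1, h2, b, hb⟩
    refine ⟨mul_mem g1 h1, fun u hu => ?_, a + b, ?_⟩
    · rw [show ⁅g * h, u⁆ = g * ⁅h, u⁆ * g⁻¹ * ⁅g, u⁆ by simp only [commutatorElement_def]; group,
        ← g1 _ (h2 u hu), mul_inv_cancel_right]
      exact mul_mem (h2 u hu) (g2 u hu)
    · calc g * h * t * (g * h)⁻¹ = g * (h * t * h⁻¹) * g⁻¹ := by group
        _ = g * t * g⁻¹ * (g * x 3 b * g⁻¹) := by rw [hb]; group
        _ = _ := by rw [ga, ← g1 _ (x3Z b), mul_inv_cancel_right, p.add, mul_assoc]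
  inv_mem' := by
    rintro g ⟨g1, g2, a, ga⟩
    refine ⟨inv_mem g1, fun u hu => ?_, a, ?_⟩
    · rw [show ⁅g⁻¹, u⁆ = g⁻¹ * (⁅g, u⁆⁻¹ * g) by simp only [commutatorElement_def]; group,
        g1 _ (inv_mem (g2 u hu)), inv_mul_cancel_left]
      exact inv_mem (g2 u hu)
    · calc g⁻¹ * t * g⁻¹⁻¹ = g⁻¹ * (t * x 3 a) * (x 3 a * g) := by
            rw [mul_assoc g⁻¹ (t * _), mul_assoc t, ← mul_assoc (x 3 a), xsq p]; group
        _ = _ := by rw [g1 _ (x3Z a)]; (conv_lhs => rw [← ga]); group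

theorem lam_mul (p : Pin2 x) {t g h : G} {a b : F} (g1 : g ∈ C[Zp x])
    (ga : g * t * g⁻¹ = t * x 3 a) (hb : h * t * h⁻¹ = t * x 3 b) :
    g * h * t * (g * h)⁻¹ = t * x 3 (a + b) :=
  calc g * h * t * (g * h)⁻¹ = g * (h * t * h⁻¹) * g⁻¹ := by group
    _ = g * t * g⁻¹ * (g * x 3 b * g⁻¹) := by rw [hb]; group
    _ = _ := by rw [ga, ← g1 _ (x3Z b), mul_inv_cancel_right, p.add, mul_assoc]

theorem lam_inv (p : Pin2 x) {t g : G} {a : F} (g1 : g ∈ C[Zp x])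
    (ga : g * t * g⁻¹ = t * x 3 a) : g⁻¹ * t * g⁻¹⁻¹ = t * x 3 a :=
  calc g⁻¹ * t * g⁻¹⁻¹ = g⁻¹ * (t * x 3 a) * (x 3 a * g) := by
        rw [mul_assoc g⁻¹ (t * _), mul_assoc t, ← mul_assoc (x 3 a), xsq p]; group
    _ = _ := by rw [g1 _ (x3Z a)]; (conv_lhs => rw [← ga]); group

end Pin

theorem hat1 : Hat1Stmt.{u, v} := by
  intro F _ _ G _ _ L x t hC mv
  have p := hC.mod.pin
  have kp := hC.kp
  have kb := hC.kb
  have two : ∀ a : F, a + a = 0 := fun a => by rw [← two_mul, p.two, zero_mul]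
  obtain ⟨O, hO⟩ := kb.od
  have mO : ∀ o, o ∈ O ↔ o ∈ Od L t := fun o => by rw [← hO]; rfl
  have UL : Up x ≤ L := kp.syl.le
  have ZL : Zp x ≤ L := kp.der ▸ (commutator_le_self _).trans UL
  have tt : t * t = 1 := by rw [← pow_two, ← hC.tc.t2, pow_orderOf_eq_one]
  have fix : ∀ {g : G}, g * t * g⁻¹ = t * x 3 0 → Commute g t := fun h => by
    rw [x0 p, mul_one] at h
    exact mul_inv_eq_iff_eq_mul.1 h
  have odO : ∀ g ∈ N3 p t, Commute g t → Odd (orderOf g) → g ∈ O := fun g hg c ho => by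
    obtain ⟨u, hu, o, oo, e⟩ := kb.cU g c hg.1 hg.2.1
    have uo : Commute u o := oo.1 u (UL hu)
    have u2 : Is2 u := by
      obtain ⟨k, hk⟩ := kp.syl.isPGroup ⟨u, hu⟩
      exact ⟨k, congrArg Subtype.val hk⟩
    rcases e with rfl | rfl
    · rw [odd2 uo u2 oo.2.2 ho, one_mul]
      exact (mO o).2 oo
    · rw [odd2 (oo.2.1.symm.mul_left uo) (is2_mul (kb.tL u (UL hu)) ⟨1, by simpa [sq] using tt⟩ u2)
        oo.2.2 ho, one_mul]
      exact (mO o).2 oo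
  have ON : ∀ g ∈ N3 p t, ∀ o ∈ O, g * o * g⁻¹ ∈ O := fun g hg o ho => by
    have oo := (mO o).1 ho
    have o1 : o * t * o⁻¹ = t * x 3 0 := by rw [x0 p, mul_one, oo.2.1.eq, mul_inv_cancel_right]
    have oN : o ∈ N3 p t := ⟨fun z hz => oo.1 z (ZL hz), fun u hu => by
      rw [commutatorElement_eq_one_iff_mul_comm.2 (oo.1 u (UL hu)).symm]; exact one_mem _, 0, o1⟩
    obtain ⟨a, ga⟩ := hg.2.2
    refine odO _ (mul_mem (mul_mem hg oN) (inv_mem hg)) (fix ?_) ?_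
    · have := lam_mul p (mul_mem hg oN).1 (lam_mul p hg.1 ga o1) (lam_inv p hg.1 ga)
      rwa [add_zero, two] at this
    · rw [show g * o * g⁻¹ = MulAut.conj g o from rfl, MulEquiv.orderOf_eq]
      exact oo.2.2
  have HL : HH x L ≤ L := inf_le_left
  have hx : ∀ h ∈ HH x L, ∀ i a, ∃ b, h * x i a * h⁻¹ = x i b := fun h hh i a => by
    obtain ⟨α, β, e⟩ := kp.memH h hh
    exact ⟨_, e i a⟩
  have hZ : ∀ h ∈ HH x L, ∀ z ∈ Zp x, h * z * h⁻¹ ∈ Zp x := fun h hh z hz => by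
    obtain ⟨b, c, rfl⟩ := (kp.memZ z).1 hz
    obtain ⟨b', e⟩ := hx h hh 2 b
    obtain ⟨c', e'⟩ := hx h hh 3 c
    exact (kp.memZ _).2 ⟨b', c', by rw [← e, ← e']; group⟩
  have hU : ∀ h ∈ HH x L, ∀ z ∈ Up x, h * z * h⁻¹ ∈ Up x := fun h hh z hz => by
    obtain ⟨a, b, c, d, rfl⟩ := (kp.memU z).1 hz
    obtain ⟨a', e1⟩ := hx h hh 1 a
    obtain ⟨b', e2⟩ := hx h hh 2 b
    obtain ⟨c', e3⟩ := hx h hh 3 c
    obtain ⟨d', e4⟩ := hx h hh 4 d
    exact (kp.memU _).2 ⟨a', b', c', d', by rw [← e1, ← e2, ← e3, ← e4]; group⟩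
  have hl : ∀ h ∈ HH x L, ∀ g a b, g * t * g⁻¹ = t * x 3 a → h * x 3 a * h⁻¹ = x 3 b →
      h * g * h⁻¹ * t * (h * g * h⁻¹)⁻¹ = t * x 3 b := fun h hh g a b ga e => by
    have c := kb.tL h (HL hh)
    calc _ = h * (g * (h⁻¹ * t * h) * g⁻¹) * h⁻¹ := by group
      _ = h * t * h⁻¹ * (h * x 3 a * h⁻¹) := by
        rw [mul_assoc h⁻¹, c.eq, inv_mul_cancel_left, ga]; group
      _ = _ := by rw [e, ← c.eq, mul_inv_cancel_right]
  have hN : ∀ h ∈ HH x L, ∀ g ∈ N3 p t, h * g * h⁻¹ ∈ N3 p t := by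
    rintro h hh g ⟨g1, g2, a, ga⟩
    obtain ⟨b, e⟩ := hx h hh 3 a
    refine ⟨fun z hz => ?_, fun u hu => ?_, b, hl h hh g a b ga e⟩
    · have := g1 _ (hZ _ (inv_mem hh) z hz)
      calc z * (h * g * h⁻¹) = h * (h⁻¹ * z * h⁻¹⁻¹ * g) * h⁻¹ := by group
        _ = _ := by rw [this]; group
    · have := hZ h hh _ (g2 _ (hU _ (inv_mem hh) u hu))
      convert this using 1
      simp only [commutatorElement_def]; group
  obtain ⟨Q, hQ⟩ := H86.U3.two_closed (N := N3 p t ⊓ C[O]) fun o ho oo g hg => by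
    obtain ⟨a, oa⟩ := ho.1.2.2
    have c2 : Commute (o * o) t := fix (two a ▸ lam_mul p ho.1.1 oa oa)
    have c1 : Commute o t := by
      have := conj_odd c2 oo
      rw [pow_orderOf_eq_one, one_mul, inv_one, mul_one] at this
      exact mul_inv_eq_iff_eq_mul.1 this.symm
    exact hg.2 o (odO o ho.1 c1 oo)
  have Q2 : IsPGroup 2 Q := fun g => by
    obtain ⟨k, hk⟩ := ((hQ g).1 g.2).2
    exact ⟨k, Subtype.ext hk⟩
  have hC1 : ∀ h ∈ HH x L, ∀ g ∈ N3 p t ⊓ C[O], h * g * h⁻¹ ∈ N3 p t ⊓ C[O] :=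
    fun h hh g hg => ⟨hN h hh g hg.1, by
      have : h ∈ C[O] := fun o ho => (((mO o).1 ho).1 h (HL hh)).symm
      exact Subgroup.mul_mem _ (Subgroup.mul_mem _ this hg.2) (Subgroup.inv_mem _ this)⟩
  have hQn : ∀ h ∈ HH x L, ∀ g ∈ Q, h * g * h⁻¹ ∈ Q := fun h hh g hg => by
    obtain ⟨g1, k, hk⟩ := (hQ g).1 hg
    exact (hQ _).2 ⟨hC1 h hh g g1, k, by rw [conj_pow, hk, mul_one, mul_inv_cancel]⟩
  have TH : TT x L 3 ≤ HH x L := inf_le_left
  have HT : HH x L ≤ C[TT x L 3] := fun h hh k hk => kb.comH k (TH hk) h hh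
  refine ⟨Q ⊓ C[TT x L 3], Q2.to_le inf_le_left, ?_, fun g hg => ⟨((hQ g).1 hg.1).1.1.1, hg.2⟩,
    fun g hg => ((hQ g).1 hg.1).1.1.2.1, fun k k1 k2 k3 g hg =>
      ((hQ g).1 hg.1).1.2 k ((mO k).2 ⟨k1, k2, k3⟩), fun h hh => ?_,
    fun g hg => ((hQ g).1 hg.1).1.1.2.2, fun a => ?_⟩
  · intro g hg
    obtain ⟨a, rfl⟩ := (kp.memX 3 g).1 hg
    have cu : ∀ u ∈ Up x, Commute (x 3 a) u := fun u hu => by
      obtain ⟨b, c, d, e, rfl⟩ := (kp.memU u).1 hu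
      exact (((p.c2 1 b a).symm.mul_right (p.c1 2 c a).symm).mul_right (xcom p 3 a d)).mul_right
        (p.c1 3 a e)
    refine ⟨(hQ _).2 ⟨⟨⟨fun z hz => (cu z (kp.der ▸ commutator_le_self _ <| hz)).symm,
      fun u hu => ?_, 0, ?_⟩, fun o ho => (((mO o).1 ho).1 _ (kb.xL 3 a)).symm⟩, 1, ?_⟩,
      fun h hh => (hh.2 _ (xmem 3 a)).symm⟩
    · rw [commutatorElement_eq_one_iff_commute.2 (cu u hu)]; exact one_mem _
    · rw [x0 p, mul_one, ← (kb.tL _ (kb.xL 3 a)).eq, mul_inv_cancel_right]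
    · rw [pow_one, sq, xsq p]
  · exact mem_normalizer_fintype fun g hg => ⟨hQn h hh g hg.1,
      Subgroup.mul_mem _ (Subgroup.mul_mem _ (HT hh) hg.2) (Subgroup.inv_mem _ (HT hh))⟩
  · obtain ⟨γ, γ1, -⟩ := kb.ne1
    obtain ⟨h, hh, α, β, th, wγ⟩ := kb.wtH 3 γ
    have γ2 : (γ : F) + 1 ≠ 0 := fun e => γ1 (Units.ext (by
      rw [eq_neg_of_add_eq_zero_left e, neg_eq_of_add_eq_zero_left (two 1)]; rfl))
    obtain ⟨g, g1, g2, ga⟩ := mv (a / (γ + 1))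
    have gN : g ∈ N3 p t := ⟨g1, g2, _, ga⟩
    have k1 : h * g * h⁻¹ * g⁻¹ ∈ N3 p t ⊓ C[O] := by
      refine ⟨Subgroup.mul_mem _ (hN h hh g gN) (Subgroup.inv_mem _ gN), fun o ho => ?_⟩
      have e1 := ((mO o).1 ho).1 h (HL hh)
      have e2 := ((mO _).1 (ON _ (inv_mem gN) o ho)).1 _ (HL (inv_mem hh))
      calc o * (h * g * h⁻¹ * g⁻¹) = h * g * (g⁻¹ * o * g⁻¹⁻¹ * h⁻¹) * g⁻¹ := by
            rw [← mul_assoc, ← mul_assoc, ← mul_assoc, ← e1]; group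
        _ = _ := by rw [← e2]; group
    have k2 := lam_mul p (hN h hh g gN).1 (hl h hh g _ _ ga (th 3 _)) (lam_inv p g1 ga)
    rw [wγ, show γ * (a / (γ + 1)) + a / (γ + 1) = a by field_simp] at k2
    generalize h * g * h⁻¹ * g⁻¹ = r at k1 k2
    obtain ⟨m, mo, m2⟩ := odd_pow r
    have k3 := (conj_odd (fix (two a ▸ lam_mul p k1.1.1 k2 k2)) mo).trans k2
    have k4 : r ^ m ∈ Q := (hQ _).2 ⟨pow_mem k1 m, m2⟩
    generalize r ^ m = s at k3 k4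
    have sN := ((hQ s).1 k4).1.1
    obtain ⟨n, hn, e⟩ := H4.exists_centralizer_of_fixed_mod (A := TT x L 3) (N := Q ⊓ C1[t])
      (fun k hk => mem_normalizer_fintype fun g hg => ⟨hQn k (TH hk) g hg.1, by
        have : k ∈ C1[t] := mem_centralizer_singleton_iff.2 (kb.tL k (HL (TH hk))).symm
        exact Subgroup.mul_mem _ (Subgroup.mul_mem _ this hg.2) (Subgroup.inv_mem _ this)⟩)
      (H4.coprime_card_of_isPGroup (Nat.coprime_two_right.2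
        (kb.oddH.of_dvd_nat (card_dvd_of_le TH))) (Q2.to_le inf_le_left))
      (.inr (by have := (Q2.to_le (inf_le_left : Q ⊓ C1[t] ≤ Q)).isNilpotent; infer_instance))
      (k := s) fun k hk => ⟨Q.mul_mem (hQn k (TH hk) s k4) (Q.inv_mem k4),
        mem_centralizer_singleton_iff.2 (fix (two a ▸ lam_mul p (hN k (TH hk) s sN).1
          (hl k (TH hk) s a a k3 (by rw [← hk.2 _ (xmem 3 a), mul_inv_cancel_right]))
          (lam_inv p sN.1 k3))).eq⟩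
    refine ⟨n * s, ⟨mul_mem hn.1 k4, e⟩, ?_⟩
    have := lam_mul p (a := 0) ((hQ n).1 hn.1).1.1.1 (by
      rw [x0 p, mul_one, mem_centralizer_singleton_iff.1 hn.2, mul_inv_cancel_right]) k3
    rwa [zero_add] at this

end Cfsg.Agent.H7.S4
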