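import Cfsg.Agent.H7.S4Hat1

/-! The piece `HAT2` of project S4. -/

set_option autoImplicit false

namespace Cfsg.Agent.H7.S4

open Cfsg Cfsg.Agent.H63 Cfsg.Agent.H63.SL Cfsg.Agent.H35.S4 Subgroup
open scoped commutatorElement

universe u v

theorem add_one_ne {F : Type v} [Field F] (two : (2 : F) = 0) {γ : Fˣ} (h : γ ≠ 1) :
    (γ : F) + 1 ≠ 0 := fun e => h (Units.ext (by
  rw [eq_neg_of_add_eq_zero_left e, neg_eq_of_add_eq_zero_left (one_add_one_eq_two.trans two)]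
  rfl))

theorem hat2 : Hat2Stmt.{u, v} := by
  intro F _ _ G _ _ L x t hC P hP g hg
  have p := hC.mod.pin
  have kp := hC.kp
  have kb := hC.kb
  have two : ∀ a : F, a + a = 0 := fun a => by rw [← two_mul, p.two, zero_mul]
  have gZ := (hP.cen hg).1
  have key : ∀ u, x 4 u * g = g * x 4 u := fun u => by
    by_cases u0 : u = 0
    · rw [u0, x0 p, one_mul, mul_one]
    obtain ⟨γ, γ1, -⟩ := kb.ne1
    obtain ⟨h, hh, th⟩ := kp.tor γ⁻¹ γ
    have hT : h ∈ TT x L 3 := (kb.memT 3 h).2 ⟨hh.1, _, _, th, inv_mul_cancel γ⟩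
    have hg' : h * g = g * h := (hP.cen hg).2 h hT
    have γ2 := add_one_ne p.two γ1
    obtain ⟨v, rfl⟩ : ∃ v, u = γ * v + v := ⟨u / (γ + 1), by field_simp⟩
    obtain ⟨b, c, e⟩ := (kp.memZ _).1 (hP.cU g hg (x 4 v)
      ((kp.memU _).2 ⟨0, 0, 0, v, by simp [x0 p]⟩))
    have e1 : g * x 4 v * g⁻¹ = x 2 b * x 3 c * x 4 v := by
      rw [← e, commutatorElement_def, inv_mul_cancel_right]
    obtain ⟨b', hb'⟩ : ∃ b', h * x 2 b * h⁻¹ = x 2 b' := ⟨_, th 2 b⟩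
    have e2 : g * x 4 (γ * v) * g⁻¹ = x 2 b' * x 3 c * x 4 (γ * v) := by
      have h4 : h * x 4 v * h⁻¹ = x 4 (γ * v) := th 4 v
      have h3 : h * x 3 c * h⁻¹ = x 3 c := by rw [← hT.2 _ (xmem 3 c), mul_inv_cancel_right]
      calc _ = g * h * x 4 v * (g * h)⁻¹ := by rw [← h4]; group
        _ = h * (g * x 4 v * g⁻¹) * h⁻¹ := by rw [← hg']; group
        _ = _ := by rw [e1, ← hb', ← h4]; conv_rhs => rw [← h3]
                    group
    have e3 : g * x 4 (γ * v + v) * g⁻¹ = x 2 (b' + b) * x 4 (γ * v + v) := by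
      have c1 : Commute (x 2 b) (x 4 (γ * v)) := p.c2 2 _ _
      have c2 : Commute (x 3 c) (x 4 (γ * v)) := p.c1 3 _ _
      have c3 : Commute (x 2 b) (x 3 c) := p.c1 2 _ _
      calc _ = g * x 4 (γ * v) * g⁻¹ * (g * x 4 v * g⁻¹) := by rw [p.add]; group
        _ = x 2 b' * (x 3 c * (x 4 (γ * v) * (x 2 b * x 3 c))) * x 4 v := by rw [e1, e2]; group
        _ = _ := by
          rw [← (c1.mul_left c2).eq, c3.eq, ← mul_assoc (x 3 c), ← mul_assoc (x 3 c), xsq p, p.add,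
            p.add]
          group
    generalize γ * v + v = u at u0 e3
    obtain ⟨a, ga⟩ := hP.mov g hg
    have n4 : n2 x 1 * x 2 u * (n2 x 1)⁻¹ = x 4 u := kp.nn 1 2 u
    have n3 : n2 x 1 * x 3 a * (n2 x 1)⁻¹ = x 3 a := kp.nn 1 3 a
    have nt := (kb.tL _ (kb.nL 1)).eq
    have c1 : g * (n2 x 1 * g⁻¹ * (n2 x 1)⁻¹) ∈ N[L] := by
      refine hC.tc.cN (mem_centralizer_singleton_iff.2 (mul_inv_eq_iff_eq_mul.1 ?_))
      have := lam_mul p gZ ga (h := n2 x 1 * g⁻¹ * (n2 x 1)⁻¹) (b := a) (by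
        calc _ = n2 x 1 * (g⁻¹ * ((n2 x 1)⁻¹ * (t * n2 x 1)) * g⁻¹⁻¹) * (n2 x 1)⁻¹ := by group
          _ = n2 x 1 * t * (n2 x 1)⁻¹ * (n2 x 1 * x 3 a * (n2 x 1)⁻¹) := by
            rw [nt, inv_mul_cancel_left, lam_inv p gZ ga]; group
          _ = _ := by rw [n3, ← nt, mul_inv_cancel_right])
      rwa [two, x0 p, mul_one] at this
    have c2 := hC.kn.rt _ c1 (x 4 u) (.inr ⟨_, kb.nL 1, _, xmem 2 u,
      fun e => u0 (p.inj 2 u e), n4.symm⟩)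
    have c3 : g * (n2 x 1 * g⁻¹ * (n2 x 1)⁻¹) * x 4 u * (g * (n2 x 1 * g⁻¹ * (n2 x 1)⁻¹))⁻¹ =
        x 2 (b' + b) * x 4 u := by
      rw [← e3, ← n4]
      calc _ = g * (n2 x 1 * (g⁻¹ * (x 2 u * g)) * (n2 x 1)⁻¹) * g⁻¹ := by group
        _ = _ := by rw [gZ _ (x2Z u), inv_mul_cancel_left]
    rw [c3] at c2
    have b0 : b' + b = 0 := by
      by_contra hb
      exact hC.kn.mix2 2 _ u hb u0 c2
    rw [b0, x0 p, one_mul] at e3
    exact (mul_inv_eq_iff_eq_mul.1 e3).symm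
  intro w hw
  obtain ⟨a, b, c, rfl⟩ := (kp.memA 3 w).1 hw
  exact ((Commute.mul_left (gZ _ (x2Z a)) (gZ _ (x3Z b))).mul_left (key c)).eq

end Cfsg.Agent.H7.S4
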