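import Cfsg.Agent.H7.S4Hat1
import Cfsg.Agent.H71.PRel

/-! The piece `PAR` of project S4. -/

set_option autoImplicit false

namespace Cfsg.Agent.H7.S4

open Cfsg Cfsg.Agent.H63 Cfsg.Agent.H63.SL Cfsg.Agent.H35.S4 Subgroup
open scoped commutatorElement

universe u v

theorem par : ParStmt.{u, v} := by
  intro F _ _ G _ _ L x t hC i V mem le surj fix
  have p := hC.mod.pin
  have kp := hC.kp
  have kb := hC.kb
  have : Fact (Nat.Prime 2) := ⟨Nat.prime_two⟩
  have sq : ∀ g ∈ V, g * g = 1 := fun g hg => by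
    obtain ⟨-, -, ⟨a, -, e⟩, -⟩ := (mem g).1 hg
    rw [e, zero_mul, x0 p]
  have cm : ∀ g ∈ V, ∀ h ∈ V, g * h = h * g := fun g hg h hh => by
    rw [← inv_eq_of_mul_eq_one_right (sq _ (V.mul_mem hg hh)), mul_inv_rev,
      inv_eq_of_mul_eq_one_right (sq g hg), inv_eq_of_mul_eq_one_right (sq h hh)]
  have XV : XR x i ≤ V := fun g hg => by
    obtain ⟨a, rfl⟩ := (kp.memX i g).1 hg
    exact le a
  obtain ⟨W, WV, nW, hi, hs⟩ := H71.maschke_elem (p := 2) (V := V) (U := XR x i) (A := HH x L)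
    ⟨⟨⟨fun a b => Subtype.ext (cm _ a.2 _ b.2)⟩⟩, fun g hg => (pow_two g).trans (sq g hg)⟩ XV
    (Nat.coprime_two_right.2 kb.oddH)
    (fun h hh => mem_normalizer_fintype fun g hg => (mem _).2 (kb.hatH h hh 0 i g ((mem g).1 hg)))
    (inf_le_right.trans (iInf_le _ i))
  have ex : ∀ b, ∃ w ∈ W, w * t * w⁻¹ = t * x i b := fun b => by
    obtain ⟨g, hg, e⟩ := surj b
    rw [← hs] at hg
    obtain ⟨u, hu, w, hw, rfl⟩ := (H52.mem_sup_of_commutator_eq_bot
      (commutator_eq_bot_iff_le_centralizer.2 fun a ha b hb => cm _ (WV hb) _ (XV ha))).1 hg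
    obtain ⟨a, rfl⟩ := (kp.memX i u).1 hu
    refine ⟨w, hw, ?_⟩
    calc w * t * w⁻¹ = (x i a)⁻¹ * (x i a * w * t * (x i a * w)⁻¹) * x i a := by group
      _ = _ := by
        rw [e, mul_assoc, mul_assoc, (xcom p i b a).eq, ← mul_assoc t, (kb.tL _ (kb.xL i a)).eq]
        group
  have un : ∀ w ∈ W, ∀ w' ∈ W, w * t * w⁻¹ = w' * t * w'⁻¹ → w = w' := fun w hw w' hw' e => by
    have m := W.mul_mem (W.inv_mem hw') hw
    obtain ⟨a, ha⟩ := fix _ (WV m) (by
      change _ * t = t * _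
      calc w'⁻¹ * w * t = w'⁻¹ * (w * t * w⁻¹) * w := by group
        _ = _ := by rw [e]; group)
    exact (inv_mul_eq_one.1 (hi.le ⟨ha ▸ xmem i a, m⟩)).symm
  choose q hq mv using ex
  refine ⟨q, fun b => (mem _).1 (WV (hq b)), fun b b' => un _ (hq _) _ (W.mul_mem (hq b) (hq b')) ?_,
    mv, fun h hL α β th b => un _ ((mem_normalizer_iff.1 (nW (kb.torH h hL α β th)) _).1 (hq b)) _
      (hq _) ?_⟩
  · calc _ = q b * t * (q b)⁻¹ * (q b * x i b' * (q b)⁻¹) := by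
          rw [mv, mv, cm _ (WV (hq b)) _ (le b'), mul_inv_cancel_right, p.add, mul_assoc]
      _ = q b * (t * x i b') * (q b)⁻¹ := by group
      _ = _ := by rw [← mv b']; group
  · have c := (kb.tL h hL).eq
    calc _ = h * (q b * (h⁻¹ * (t * h)) * (q b)⁻¹) * h⁻¹ := by group
      _ = h * t * h⁻¹ * (h * x i b * h⁻¹) := by rw [c, inv_mul_cancel_left, mv]; group
      _ = _ := by rw [th, mv, ← c, mul_inv_cancel_right]

end Cfsg.Agent.H7.S4
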