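import Cfsg.Agent.H42.FvDefs
import Cfsg.Agent.H49.KgSub

/-! Correcting a Weyl group element by the Weyl group of a subsystem. -/

set_option autoImplicit false

namespace Cfsg.Agent.H7.FvPos

open Equiv Cfsg.Lie H37 H40 H34 H29 Module H50.E83 Cfsg.Agent.H42.Fv
open scoped Matrix

theorem pos : PosStmt := by
  intro h w hw hp
  obtain ⟨n, T, hT⟩ := H49.KgSub.sub _ _ C8.R C8.wtv_inj (fun r => r ∈ Psi h)
    (fun r hr => by
      show al (C8.R.neg r) h = 0
      rw [al_neg, show al r h = 0 from hr, neg_zero])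
    (fun r s hr hs => by
      show al (C8.R.τ r s) h = 0
      rw [al_of_rc (r := s) (s := r) (a := 1) (b := -C8.R.pair r s)
        (by rw [C8.R.rc_τ, one_smul, neg_smul, sub_eq_add_neg]),
        show al r h = 0 from hr, show al s h = 0 from hs, mul_zero, mul_zero, add_zero])
  have hP : T.Pres w := fun r => by
    rw [hT, hT]
    refine ⟨fun e => ?_, hp r⟩
    have hm : Set.MapsTo w (Psi h) (Psi h) := hp
    obtain ⟨s, hs, e'⟩ := ((Set.toFinite (Psi h)).injOn_iff_bijOn_of_mapsTo hm).1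
      w.injective.injOn |>.surjOn e
    exact w.injective e' ▸ hs
  obtain ⟨w', h1, h2⟩ := (H75.EX.IsSym.of_W (R := C8.R) hw).exists_pos C8.wtv_inj hP
  obtain ⟨m, m1, m2, m3⟩ := H75.EX.exists_liftU (P := P8) (T := T) w' h1
  have e : {r | T.Ψ r} = Psi h := Set.ext hT
  refine ⟨m, m1, e ▸ m2, fun r hr => ?_, fun r hr => ?_⟩
  · rw [m3]
    exact (hT _).1 ((T.pres_W' w' h1 r).2 ((hT r).2 hr))
  · rw [m3]
    exact h2 r ((hT r).2 hr.2) hr.1

end Cfsg.Agent.H7.FvPos
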