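import Cfsg.Agent.H53.AhKit
import Cfsg.Agent.H9.Taussky
import Cfsg.Agent.H9.InvCount
import Cfsg.Agent.H3.Fitting
import Cfsg.Agent.H3.Primitive
import Cfsg.Agent.H29.SmallGroups

/-!
Rational solvable groups of order `2^a 3^b` with a centralizer of order four.
-/

set_option autoImplicit false

namespace Cfsg.Agent.H7.AhQ

open Subgroup Cfsg.Agent.H53.AH Cfsg.Agent.H9

universe u

variable {G : Type*} [Group G] [Finite G]

theorem two_elt {g a c : G} (h1 : g * a * g⁻¹ = c) (h2 : g * c * g⁻¹ = a) :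
    ∃ w : G, IsPGroup 2 (zpowers w) ∧ w * a * w⁻¹ = c := by
  have h0 := (orderOf_pos g).ne'
  obtain ⟨j, hj⟩ : Odd (ordCompl[2] (orderOf g)) :=
    Nat.coprime_two_left.1 (Nat.coprime_ordCompl Nat.prime_two h0)
  have hc : (g ^ 2) ^ j ∈ centralizer ({a} : Set G) := by
    refine pow_mem (H9.mem_centralizer_singleton.2 ?_) _
    calc g ^ 2 * a * (g ^ 2)⁻¹ = g * (g * a * g⁻¹) * g⁻¹ := by rw [pow_two]; group
      _ = a := by rw [h1, h2]
  refine ⟨g ^ ordCompl[2] (orderOf g), ?_, ?_⟩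
  · have : (g ^ ordCompl[2] (orderOf g)) ^ 2 ^ (orderOf g).factorization 2 = 1 := by
      rw [← pow_mul, mul_comm, Nat.ordProj_mul_ordCompl_eq_self, pow_orderOf_eq_one]
    obtain ⟨k, -, hk⟩ := (Nat.dvd_prime_pow Nat.prime_two).1 (orderOf_dvd_of_pow_eq_one this)
    exact IsPGroup.of_card (by rw [Nat.card_zpowers, hk])
  · rw [hj, pow_succ', pow_mul]
    calc g * (g ^ 2) ^ j * a * (g * (g ^ 2) ^ j)⁻¹
        = g * ((g ^ 2) ^ j * a * ((g ^ 2) ^ j)⁻¹) * g⁻¹ := by group
      _ = c := by rw [H9.mem_centralizer_singleton.1 hc, h1]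

theorem pgrp {H : Type*} [Group H] [Finite H] {p : ℕ} [Fact p.Prime]
    (h : ∀ q : ℕ, q.Prime → q ∣ Nat.card H → q = p) : IsPGroup p H :=
  IsPGroup.of_card (Nat.eq_prime_pow_of_unique_prime_dvd Nat.card_pos.ne' fun hq hd => h _ hq hd)

theorem syl (hR : Rat G) {x : G} (hx : cc x = 4) (P : Sylow 2 G) :
    Nat.card P = 4 ∨ Nat.card P = 8 := by
  obtain ⟨P0, hP0⟩ := (IsPGroup.of_card (p := 2) (n := 2) hx).exists_le_sylow
  have hxP : x ∈ P0 := hP0 (mem_centralizer_singleton_iff.2 rfl)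
  have hc : Nat.card (centralizer ({⟨x, hxP⟩} : Set P0)) = 4 := by
    have : centralizer ({⟨x, hxP⟩} : Set P0) = (centralizer {x}).subgroupOf (P0 : Subgroup G) := by
      ext y
      rw [mem_subgroupOf, mem_centralizer_singleton_iff, mem_centralizer_singleton_iff,
        Subtype.ext_iff]
      rfl
    rw [this, Nat.card_congr (subgroupOfEquivOfLe hP0).toEquiv]
    exact hx
  rw [← Nat.card_congr (Sylow.equiv P0 P).toEquiv]
  rcases MC_of_card_centralizer P0.isPGroup' hc with h | ⟨a0, b0, n, h0⟩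
  · exact Or.inl h
  right
  have hall : ∀ Q : Sylow 2 G, ∃ a b : G, MC (Q : Subgroup G) a b n := fun Q => by
    have := h0.map (f := (Sylow.equiv P0 Q).toMonoidHom) (Sylow.equiv P0 Q).injective
    rw [map_top_of_surjective _ (Sylow.equiv P0 Q).surjective] at this
    exact ⟨_, _, this.of_top⟩
  by_contra h8
  have hn : 2 ≤ n := by
    by_contra hn
    have : n = 1 := by have := h0.one_le; omega
    subst this
    exact h8 h0.card_top
  obtain ⟨a, b, h⟩ := hall P0
  have h4 : a ^ 4 ≠ 1 := fun e => by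
    have := Nat.le_of_dvd (by norm_num) (orderOf_dvd_of_pow_eq_one e)
    rw [h.ord] at this
    have : 2 ^ 3 ≤ 2 ^ (n + 1) := Nat.pow_le_pow_right (by norm_num) (by omega)
    omega
  set z := a ^ 2 ^ n with hz
  have hzz : z * z = 1 := h.z_mul_z
  have haz : Commute z a := h.commute_z h.a_mem
  have hzp : zpowers a = zpowers (a * z) := by
    have hc : IsCoprime (1 + (2 : ℤ) ^ n) ((2 ^ (n + 1) : ℕ) : ℤ) := by
      push_cast
      refine IsCoprime.pow_right ?_
      obtain ⟨q, -, hq⟩ := h.two_pow_eq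
      exact ⟨1, -q, by rw [hq]; ring⟩
    rw [← zpowers_zpow_eq_of_isCoprime h.ord hc, zpow_add, zpow_one, hz, MC.z_eq]
  obtain ⟨g, hg⟩ := isConj_iff.1 (hR _ _ hzp)
  have hgz : g * z * g⁻¹ = z := by
    obtain ⟨m, rfl⟩ : ∃ m, n = m + 1 := ⟨n - 1, by omega⟩
    rw [hz, ← conj_pow, hg, haz.symm.mul_pow, ← hz, pow_succ', pow_mul, pow_two, hzz, one_pow,
      mul_one]
  obtain ⟨w, hw, hwa⟩ := two_elt hg (by
    calc g * (a * z) * g⁻¹ = (g * a * g⁻¹) * (g * z * g⁻¹) := by group
      _ = a := by rw [hg, hgz, mul_assoc, hzz, mul_one])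
  have ha2 : IsPGroup 2 (zpowers a) := IsPGroup.of_card (by rw [Nat.card_zpowers, h.ord])
  have hn' : zpowers w ≤ normalizer (zpowers a : Set G) := by
    rw [zpowers_le]
    apply mem_normalizer_fintype
    rintro _ ⟨k, rfl⟩
    simp only
    rw [← conj_zpow, hwa]
    exact zpow_mem (hzp ▸ mem_zpowers _) k
  obtain ⟨Q, hQ⟩ := (IsPGroup.to_sup_of_normal_left' ha2 hw hn').exists_le_sylow
  obtain ⟨a1, b1, h1⟩ := hall Q
  have haQ : a ∈ Q := hQ (mem_sup_left (mem_zpowers a))
  have hwQ : w ∈ Q := hQ (mem_sup_right (mem_zpowers w))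
  have ha1 : a ∈ zpowers a1 := by
    by_contra hn
    exact h4 (h1.of_mem haQ hn).b_pow_four
  obtain ⟨i, hi⟩ := mem_zpowers_iff.1 ha1
  by_cases hw1 : w ∈ zpowers a1
  · obtain ⟨j, rfl⟩ := mem_zpowers_iff.1 hw1
    have : a1 ^ j * a * (a1 ^ j)⁻¹ = a := by rw [← hi]; group
    rw [this] at hwa
    exact h.z_ne_one (mul_left_cancel (a := a) (by rw [mul_one]; exact hwa.symm))
  · have hc : Commute (a1 ^ 2 ^ n) z := h1.commute_z (pow_mem haQ _)
    rcases (h1.of_mem hwQ hw1).conj_zpow_cases i with e | e <;>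
      rw [zpow_neg, hi, hwa] at e <;> apply h4
    · have : a * a = z⁻¹ := by
        rw [eq_inv_iff_mul_eq_one, mul_assoc, e, mul_inv_cancel]
      calc a ^ 4 = (a * a) * (a * a) := by simp only [pow_succ, pow_zero, one_mul, mul_assoc]
        _ = 1 := by rw [this, ← mul_inv_rev, hzz, inv_one]
    · have : a * a = a1 ^ 2 ^ n * z := by
        calc a * a = a * (a * z) * z := by rw [mul_assoc, mul_assoc, hzz, mul_one]
          _ = _ := by rw [e, mul_inv_cancel_left]
      calc a ^ 4 = (a * a) * (a * a) := by simp only [pow_succ, pow_zero, one_mul, mul_assoc]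
        _ = 1 := by rw [this, ← pow_two, hc.mul_pow, pow_two, pow_two, hzz, h1.z_mul_z, mul_one]

instance f3 : Fact (Nat.Prime 3) := ⟨Nat.prime_three⟩

theorem s4 [Group.IsSolvable G] (hR : Rat G) (hT : T23 (Nat.card G)) (hO : pPrimeCore 2 G = ⊥)
    (hP : ∀ P : Sylow 2 G, Nat.card P = 4 ∨ Nat.card P = 8) (h3 : 3 ∣ Nat.card G) :
    Nonempty (G ≃* Equiv.Perm (Fin 4)) := by
  set R := pCore 2 G with hRd
  have hC : centralizer (R : Set G) ≤ R := H3.centralizer_pCore_le hO
  have hR2 : IsPGroup 2 R := H3.pCore_isPGroup 2 G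
  have hnot : ∀ u : G, orderOf u = 3 → u ∉ R := fun u hu hm => by
    obtain ⟨k, hk⟩ := IsPGroup.iff_orderOf.1 hR2 ⟨u, hm⟩
    rw [orderOf_mk, hu] at hk
    have := (Nat.prime_dvd_prime_iff_eq Nat.prime_three Nat.prime_two).1
      (Nat.prime_three.dvd_of_dvd_pow hk.dvd)
    omega
  obtain ⟨u0, hu0⟩ := exists_prime_orderOf_dvd_card' 3 h3
  obtain ⟨P, hlt⟩ : ∃ P : Sylow 2 G, R < P := by
    obtain ⟨g, hg⟩ := isConj_iff.1 (hR.real u0)
    obtain ⟨w, hw, hwu⟩ := two_elt hg (by rw [← conj_inv, hg, inv_inv])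
    obtain ⟨P, hP⟩ := hw.exists_le_sylow
    refine ⟨P, lt_of_le_of_ne (H3.pCore_le_sylow P) fun e => hnot (u0 ^ 2) ?_ ?_⟩
    · rw [orderOf_pow' _ two_ne_zero, hu0]; rfl
    · have hwR : w ∈ R := by rw [e]; exact hP (mem_zpowers w)
      have : u0 ^ 2 = (u0 * w * u0⁻¹) * w⁻¹ := by
        calc u0 ^ 2 = u0 * (w * u0 * w⁻¹)⁻¹ := by rw [hwu, inv_inv, pow_two]
          _ = _ := by group
      rw [this]
      exact mul_mem (Normal.conj_mem inferInstance _ hwR _) (inv_mem hwR)
  have hRlt : Nat.card R < Nat.card P := by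
    refine lt_of_le_of_ne (card_le_of_le hlt.le) fun e => hlt.ne ?_
    exact eq_of_le_of_card_ge hlt.le e.ge
  have hRdv : Nat.card R ∣ Nat.card P := card_dvd_of_le hlt.le
  have key : ∀ u : G, orderOf u = 3 →
      Nat.card R = 4 ∧ R ⊓ centralizer (zpowers u : Set G) = ⊥ := fun u hu => by
    have hm := H3.card_modEq_card_inf_centralizer (q := 3) (Q := zpowers u) (L := R)
      (IsPGroup.of_card (n := 1) (by rw [Nat.card_zpowers, hu]; rfl))
      (by rw [normalizer_eq_top]; exact le_top)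
    have hne : Nat.card ↥(R ⊓ centralizer (zpowers u : Set G)) ≠ Nat.card R := fun e => by
      have := eq_of_le_of_card_ge (inf_le_left : R ⊓ centralizer (zpowers u : Set G) ≤ R) e.ge
      refine hnot u hu (hC (mem_centralizer_iff.2 fun r hr => ?_))
      have hr' : r ∈ R ⊓ centralizer (zpowers u : Set G) := by rw [this]; exact hr
      exact (mem_centralizer_iff.1 hr'.2 u (mem_zpowers u)).symm
    have hd := card_dvd_of_le (inf_le_left : R ⊓ centralizer (zpowers u : Set G) ≤ R)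
    rw [← card_eq_one]
    generalize Nat.card ↥(R ⊓ centralizer (zpowers u : Set G)) = c at *
    have hr8 : Nat.card R ∣ 8 := by
      rcases hP P with e | e <;> rw [e] at hRdv
      · exact hRdv.trans (by norm_num)
      · exact hRdv
    have hr7 : Nat.card R < 8 := by rcases hP P with e | e <;> omega
    generalize Nat.card R = r at *
    have hc : c ≤ 8 := Nat.le_of_dvd (by norm_num) (hd.trans hr8)
    unfold Nat.ModEq at hm
    interval_cases r <;> interval_cases c <;> simp_all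
  have hR4 := (key u0 hu0).1
  have hP8 : Nat.card P = 8 := by rcases hP P with e | e <;> omega
  have hfix : ∀ u r : G, orderOf u = 3 → r ∈ R → Commute u r → r = 1 := fun u r hu hr hc => by
    rw [← mem_bot, ← (key u hu).2]
    refine ⟨hr, mem_centralizer_iff.2 ?_⟩
    rintro _ ⟨k, rfl⟩
    exact (hc.zpow_left k).eq
  have h24 : Nat.card G = 24 := by
    haveI : Nontrivial R := Finite.one_lt_card_iff_nontrivial.1 (by omega)
    obtain ⟨⟨r, hr⟩, hr1⟩ := exists_ne (1 : R)
    have hr1' : r ≠ 1 := fun e => hr1 (Subtype.ext e)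
    have hc2 : IsPGroup 2 (centralizer ({r} : Set G)) := pgrp fun q hq hd => by
      rcases hT q hq (hd.trans (card_subgroup_dvd_card _)) with e | rfl
      · exact e
      obtain ⟨⟨u, hu⟩, ho⟩ := exists_prime_orderOf_dvd_card' 3 hd
      rw [orderOf_mk] at ho
      exact absurd (hfix u r ho hr (mem_centralizer_singleton_iff.1 hu)) hr1'
    have hc8 : Nat.card (centralizer ({r} : Set G)) ≤ 8 := by
      obtain ⟨Q, hQ⟩ := hc2.exists_le_sylow
      have := card_le_of_le hQ
      rcases hP Q with e | e <;> omega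
    have hcl : Nat.card {y : G // IsConj r y} ≤ 3 := by
      have h1 := card_subtype_add_one (p := fun y : G => y ∈ R) R.one_mem
      have h2 := card_subtype_le_of_imp (p := fun y : G => IsConj r y)
        (q := fun y : G => y ∈ R ∧ y ≠ 1) fun y hy => by
          obtain ⟨g, rfl⟩ := isConj_iff.1 hy
          exact ⟨Normal.conj_mem inferInstance _ hr _, by simpa using hr1'⟩
      change _ = Nat.card R at h1
      omega
    have hle : Nat.card G ≤ 24 := by
      rw [← card_isConj_mul_card_centralizer r]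
      exact Nat.mul_le_mul hcl hc8
    have h8 : 8 ∣ Nat.card G := hP8 ▸ card_subgroup_dvd_card (P : Subgroup G)
    have := Nat.card_pos (α := G)
    omega
  refine H29.nonempty_mulEquiv_S4 h24 fun g hg => ?_
  have hu : orderOf (g ^ 2) = 3 := by rw [orderOf_pow' _ two_ne_zero, hg]; rfl
  have hi : orderOf (g ^ 3) = 2 := by rw [orderOf_pow' _ three_ne_zero, hg]; rfl
  set D := R ⊓ centralizer (zpowers (g ^ 3) : Set G) with hD
  have h2 := H3.card_modEq_card_inf_centralizer (q := 2) (Q := zpowers (g ^ 3)) (L := R)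
    (IsPGroup.of_card (n := 1) (by rw [Nat.card_zpowers, hi]; rfl))
    (by rw [normalizer_eq_top]; exact le_top)
  have h3' := H3.card_modEq_card_inf_centralizer (q := 3) (Q := zpowers (g ^ 2)) (L := D)
    (IsPGroup.of_card (n := 1) (by rw [Nat.card_zpowers, hu]; rfl)) (by
      rw [zpowers_le]
      apply mem_normalizer_fintype
      rintro r ⟨hr, hc⟩
      refine ⟨Normal.conj_mem inferInstance _ hr _, mem_centralizer_iff.2 ?_⟩
      rintro _ ⟨k, rfl⟩
      have := mem_centralizer_iff.1 hc _ (zpow_mem (mem_zpowers (g ^ 3)) k)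
      simp only
      calc (g ^ 3) ^ k * (g ^ 2 * r * (g ^ 2)⁻¹) = g ^ 2 * ((g ^ 3) ^ k * r) * (g ^ 2)⁻¹ := by group
        _ = _ := by rw [this]; group)
  have hb : D ⊓ centralizer (zpowers (g ^ 2) : Set G) = ⊥ :=
    le_bot_iff.1 ((key _ hu).2 ▸ inf_le_inf_right _ inf_le_left)
  rw [hb, card_bot] at h3'
  rw [← hD, hR4] at h2
  have hle : Nat.card D ≤ 4 := hR4 ▸ card_le_of_le inf_le_left
  have hD4 : Nat.card D = 4 := by
    unfold Nat.ModEq at h2 h3'
    omega
  have hDR : D = R := eq_of_le_of_card_ge inf_le_left (by omega)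
  have hiR : g ^ 3 ∈ R := hC (mem_centralizer_iff.2 fun r hr => by
    have hr' : r ∈ D := by rw [hDR]; exact hr
    exact (mem_centralizer_iff.1 hr'.2 _ (mem_zpowers _)).symm)
  have := hfix _ _ hu hiR (Commute.pow_pow_self g 2 3)
  rw [this, orderOf_one] at hi
  omega

theorem dvd_cc {X : Type*} [Group X] (φ : G →* X) (hk : (Nat.card φ.ker).Coprime 2) (y : G)
    {k : ℕ} (h : 2 ^ k ∣ cc y) : 2 ^ k ∣ cc (φ y) := by
  set f := φ.comp (centralizer ({y} : Set G)).subtype
  have h1 : Nat.card f.ker * Nat.card f.range = cc y := by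
    rw [← index_ker, card_mul_index]
  have h2 : (2 ^ k).Coprime (Nat.card f.ker) := by
    refine Nat.Coprime.pow_left _ (Nat.Coprime.coprime_dvd_right ?_ hk.symm)
    rw [← H3.card_map_subtype]
    refine card_dvd_of_le ?_
    rintro _ ⟨a, ha, rfl⟩
    exact ha
  refine (h2.dvd_of_dvd_mul_left (h1 ▸ h)).trans (card_dvd_of_le ?_)
  rintro _ ⟨⟨a, ha⟩, rfl⟩
  rw [mem_centralizer_singleton_iff] at ha ⊢
  simpa [f] using congrArg φ ha

theorem quo : QuoStmt.{u} := by
  intro G _ _ _ hR hT x hx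
  set O := pPrimeCore 2 G with hO
  set π := QuotientGroup.mk' O with hπ
  have hs : Function.Surjective π := QuotientGroup.mk'_surjective O
  have hker : π.ker = O := QuotientGroup.ker_mk' O
  have hcop : (Nat.card π.ker).Coprime 2 := by rw [hker]; exact H3.pPrimeCore_coprime 2 G
  have hRX := hR.map π hs
  have hTX : T23 (Nat.card (G ⧸ O)) := fun q hq hd => hT q hq (hd.trans (card_quotient_dvd_card O))
  have hxX : cc (π x) = 4 := by
    have h1 : cc (π x) ≤ 4 := hx ▸ card_centralizer_quotient_le O x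
    have h2 : 2 ^ 2 ∣ cc (π x) := dvd_cc π hcop x (by rw [hx]; rfl)
    have h3 : 0 < cc (π x) := Nat.card_pos
    omega
  have hP := syl hRX hxX
  by_cases h3 : 3 ∣ Nat.card (G ⧸ O)
  · obtain ⟨e⟩ := s4 hRX hTX (H3.pPrimeCore_quotient_pPrimeCore 2 G) hP h3
    refine Or.inr ⟨e.toMonoidHom.comp π, e.surjective.comp hs, ?_⟩
    have : (e.toMonoidHom.comp π).ker = O := by
      refine Eq.trans ?_ hker
      ext g
      simp [MonoidHom.mem_ker]
    rw [this]
    refine pgrp fun q hq hd => (hT q hq (hd.trans (card_subgroup_dvd_card _))).resolve_left ?_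
    rintro rfl
    exact H3.not_dvd_card_pPrimeCore 2 G hd
  left
  have hX : IsPGroup 2 (G ⧸ O) := pgrp fun q hq hd => (hTX q hq hd).resolve_right fun e => h3 (e ▸ hd)
  have hev : ∀ y : G, π y ≠ 1 → 2 ∣ cc y := fun y hy => by
    obtain ⟨k, hk⟩ := IsPGroup.iff_orderOf.1 hX (π y)
    have hk0 : k ≠ 0 := by
      rintro rfl
      exact hy (orderOf_eq_one_iff.1 hk)
    refine ((dvd_pow_self 2 hk0).trans (hk ▸ orderOf_map_dvd π y)).trans ?_
    exact orderOf_dvd_natCard _ (mem_centralizer_singleton_iff.2 rfl)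
  have h8 : ∀ y : G, 8 ∣ cc y → 8 ∣ cc (π y) := fun y hy => dvd_cc π hcop y (k := 3) hy
  rcases MC_of_card_centralizer hX hxX with h4 | ⟨a, b, n, h⟩
  · refine ⟨O, inferInstance, h4, fun y hy => ⟨hev y fun e => hy (hker ▸ e), fun hd => ?_⟩⟩
    have := (h8 y hd).trans (card_subgroup_dvd_card _)
    rw [h4] at this
    omega
  · have hc : Nat.card (G ⧸ O) = 8 := by
      obtain ⟨P, hPt⟩ := (hX.to_subgroup ⊤).exists_le_sylow
      have h1 := hP P
      rw [top_le_iff.1 hPt, card_top] at h1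
      have h2 := h.card_top
      have : 2 ^ 3 ≤ 2 ^ (n + 2) := Nat.pow_le_pow_right (by norm_num) (by have := h.one_le; omega)
      omega
    refine ⟨(center (G ⧸ O)).comap π, inferInstance, ?_, fun y hy =>
      ⟨hev y fun e => hy (by rw [mem_comap, e]; exact one_mem _), fun hd => hy ?_⟩⟩
    · rw [index_comap_of_surjective _ hs]
      have := card_mul_index (center (G ⧸ O))
      rw [h.center_eq, Nat.card_zpowers, h.orderOf_z, hc] at this
      rw [h.center_eq]
      omega
    · have h1 : centralizer ({π y} : Set (G ⧸ O)) = ⊤ :=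
        eq_top_of_le_card _ (hc ▸ Nat.le_of_dvd Nat.card_pos (h8 y hd))
      rw [mem_comap, mem_center_iff]
      intro g
      exact mem_centralizer_singleton_iff.1 (h1 ▸ mem_top g)

end Cfsg.Agent.H7.AhQ
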