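import Cfsg.Agent.H50.E72Defs

/-! An elementary abelian subgroup of order 81 of `Ω₇(3)` made of Siegel transformations. -/

set_option autoImplicit false

namespace Cfsg.Agent.H7.E72O

open Cfsg Cfsg.Agent.H50.E72 Multiplicative
open scoped Matrix

abbrev I : Type := Unit ⊕ (Fin 3 ⊕ Fin 3)
abbrev V : Type := I → ZMod 3
abbrev Q : V → ZMod 3 := Cfsg.quadFormOdd 3 (ZMod 3)
abbrev O : Type := Cfsg.isometryGroup (ZMod 3) Q

def B (v w : V) : ZMod 3 := Q (v + w) - Q v - Q w

theorem Q_eq (v : V) : Q v = v (.inl ()) ^ 2 + (v (.inr (.inl 0)) * v (.inr (.inr 0)) +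
    v (.inr (.inl 1)) * v (.inr (.inr 1)) + v (.inr (.inl 2)) * v (.inr (.inr 2))) := by
  simp only [Q, quadFormOdd, Fin.sum_univ_three]

theorem B_eq (v w : V) : B v w = 2 * v (.inl ()) * w (.inl ()) +
    (v (.inr (.inl 0)) * w (.inr (.inr 0)) + v (.inr (.inr 0)) * w (.inr (.inl 0))) +
    (v (.inr (.inl 1)) * w (.inr (.inr 1)) + v (.inr (.inr 1)) * w (.inr (.inl 1))) +
    (v (.inr (.inl 2)) * w (.inr (.inr 2)) + v (.inr (.inr 2)) * w (.inr (.inl 2))) := by
  simp only [B, Q_eq, Pi.add_apply]; ring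

theorem B_add (v v' w : V) : B (v + v') w = B v w + B v' w := by
  simp only [B_eq, Pi.add_apply]; ring
theorem B_sub (v v' w : V) : B (v - v') w = B v w - B v' w := by
  simp only [B_eq, Pi.sub_apply]; ring
theorem B_smul (c : ZMod 3) (v w : V) : B (c • v) w = c * B v w := by
  simp only [B_eq, Pi.smul_apply, smul_eq_mul]; ring
theorem B_add' (v w w' : V) : B v (w + w') = B v w + B v w' := by
  simp only [B_eq, Pi.add_apply]; ring
theorem B_neg' (v w : V) : B v (-w) = -B v w := by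
  simp only [B_eq, Pi.neg_apply]; ring
theorem B_comm (v w : V) : B v w = B w v := by
  simp only [B_eq]; ring
theorem B_self (v : V) : B v v = 2 * Q v := by
  simp only [B_eq, Q_eq]; ring
theorem Q_add (v w : V) : Q (v + w) = Q v + Q w + B v w := by
  simp only [B]; ring
theorem Q_neg (v : V) : Q (-v) = Q v := by
  simp only [Q_eq, Pi.neg_apply]; ring
theorem Q_comb (w u v : V) (c d : ZMod 3) : Q (w + c • u - d • v) =
    Q w + c ^ 2 * Q u + d ^ 2 * Q v + c * B w u - d * B w v - c * d * B v u := by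
  simp only [B_eq, Q_eq, Pi.add_apply, Pi.sub_apply, Pi.smul_apply, smul_eq_mul]; ring

/-- The action on vectors. -/
def act (g : O) (w : V) : V := (g.1 : Matrix I I (ZMod 3)) *ᵥ w

theorem act_mul (g h : O) (w : V) : act (g * h) w = act g (act h w) := by
  simp [act, Matrix.mulVec_mulVec]

theorem act_one (w : V) : act 1 w = w := by simp [act]

theorem act_comb (g : O) (w u v : V) (c d : ZMod 3) :
    act g (w + c • u - d • v) = act g w + c • act g u - d • act g v := by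
  simp only [act, Matrix.mulVec_sub, Matrix.mulVec_add, Matrix.mulVec_smul]

theorem Q_act (g : O) (w : V) : Q (act g w) = Q w := g.2 w w

theorem B_act (g : O) (v w : V) : B (act g v) (act g w) = B v w := by
  have : act g v + act g w = act g (v + w) := by simp only [act, Matrix.mulVec_add]
  simp only [B, this, Q_act]

theorem act_ext {g h : O} (e : ∀ w, act g w = act h w) : g = h := by
  apply Subtype.ext
  apply Units.ext
  apply Matrix.toLin'.injective
  exact LinearMap.ext fun w => by simpa [act] using e w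

/-- An isometry from a pair of inverse linear maps. -/
noncomputable def mk (f g : V →ₗ[ZMod 3] V) (h1 : ∀ w, f (g w) = w) (h2 : ∀ w, g (f w) = w)
    (hQ : ∀ w, Q (f w) = Q w) : O :=
  ⟨⟨LinearMap.toMatrix' f, LinearMap.toMatrix' g, by
      rw [← LinearMap.toMatrix'_comp, show f ∘ₗ g = LinearMap.id from LinearMap.ext h1,
        LinearMap.toMatrix'_id], by
      rw [← LinearMap.toMatrix'_comp, show g ∘ₗ f = LinearMap.id from LinearMap.ext h2,
        LinearMap.toMatrix'_id]⟩, fun u _ => by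
    show Q (LinearMap.toMatrix' f *ᵥ u) = Q u
    rw [LinearMap.toMatrix'_mulVec, hQ]⟩

theorem act_mk (f g : V →ₗ[ZMod 3] V) (h1 : ∀ w, f (g w) = w) (h2 : ∀ w, g (f w) = w)
    (hQ : ∀ w, Q (f w) = Q w) (w : V) : act (mk f g h1 h2 hQ) w = f w :=
  LinearMap.toMatrix'_mulVec f w

/-- The Siegel transformation. -/
def sg (u v : V) : V →ₗ[ZMod 3] V where
  toFun w := w + (B w v - Q v * B w u) • u - B w u • v
  map_add' w w' := by simp only [B_add]; module
  map_smul' c w := by simp only [B_smul, RingHom.id_apply]; module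

theorem sg_apply (u v w : V) : sg u v w = w + (B w v - Q v * B w u) • u - B w u • v := rfl

theorem sg_sg {u v v' : V} (hu : Q u = 0) (hv : B v u = 0) (hv' : B v' u = 0) (w : V) :
    sg u v (sg u v' w) = sg u (v + v') w := by
  have h1 : B u u = 0 := by rw [B_self, hu, mul_zero]
  have h2 : B u v = 0 := by rw [B_comm, hv]
  simp only [sg_apply, B_sub, B_add, B_smul, B_add', Q_add, h1, h2, hv', B_comm v' v]
  module

theorem sg_zero (u w : V) : sg u 0 w = w := by
  have h1 : B w 0 = 0 := by simp [B_eq]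
  have h2 : Q 0 = 0 := by simp [Q_eq]
  simp [sg_apply, h1, h2]

theorem Q_sg {u v : V} (hu : Q u = 0) (hv : B v u = 0) (w : V) : Q (sg u v w) = Q w := by
  rw [sg_apply, Q_comb, hu, hv]; ring

theorem B_neg (v w : V) : B (-v) w = -B v w := by rw [B_comm, B_neg', B_comm]

open Classical in
noncomputable def S (u v : V) : O :=
  if h : Q u = 0 ∧ B v u = 0 then
    mk (sg u v) (sg u (-v))
      (fun w => by rw [sg_sg h.1 h.2 (by rw [B_neg, h.2, neg_zero]), add_neg_cancel, sg_zero])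
      (fun w => by rw [sg_sg h.1 (by rw [B_neg, h.2, neg_zero]) h.2, neg_add_cancel, sg_zero])
      (Q_sg h.1 h.2)
  else 1

theorem act_S {u v : V} (hu : Q u = 0) (hv : B v u = 0) (w : V) : act (S u v) w = sg u v w := by
  rw [S, dif_pos ⟨hu, hv⟩, act_mk]

theorem S_mul {u v v' : V} (hu : Q u = 0) (hv : B v u = 0) (hv' : B v' u = 0) :
    S u v * S u v' = S u (v + v') :=
  act_ext fun w => by
    rw [act_mul, act_S hu hv, act_S hu hv', act_S hu (by rw [B_add, hv, hv', add_zero]),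
      sg_sg hu hv hv']

theorem S_zero {u : V} (hu : Q u = 0) : S u 0 = 1 :=
  act_ext fun w => by rw [act_S hu (by simp [B_eq]), sg_zero, act_one]

theorem S_conj (g : O) {u v : V} (hu : Q u = 0) (hv : B v u = 0) :
    g * S u v = S (act g u) (act g v) * g :=
  act_ext fun w => by
    rw [act_mul, act_mul, act_S hu hv, act_S (by rw [Q_act, hu]) (by rw [B_act, hv]), sg_apply,
      sg_apply, act_comb, B_act, B_act, Q_act]

theorem S_neg {u v : V} (hu : Q u = 0) (hv : B v u = 0) : S (-u) v = S u (-v) :=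
  act_ext fun w => by
    rw [act_S (by rw [Q_neg, hu]) (by rw [B_neg', hv, neg_zero]),
      act_S hu (by rw [B_neg, hv, neg_zero]), sg_apply, sg_apply, B_neg', B_neg', Q_neg]
    module

theorem S_mem {u v : V} (hu : Q u = 0) (hv : B v u = 0) (t : O) (h1 : act t u = -u)
    (h2 : act t v = v) : S u v ∈ commutator O := by
  have hn : B (-v) u = 0 := by rw [B_neg, hv, neg_zero]
  have e1 : t * S u v = S u (-v) * t := by rw [S_conj t hu hv, h1, h2, S_neg hu hv]
  have e2 : S u (-v) = S u v * S u v := by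
    rw [S_mul hu hv hv]
    congr 1
    funext i
    have : ∀ a : ZMod 3, -a = a + a := by decide
    exact this (v i)
  have e3 : S u v = t * S u v * t⁻¹ * (S u v)⁻¹ := by rw [e1, e2]; group
  rw [e3]
  exact Subgroup.commutator_mem_commutator (Subgroup.mem_top t) (Subgroup.mem_top _)

/-- The sign change of one hyperbolic plane. -/
def sn (k : Fin 3) : I → ZMod 3
  | .inl _ => 1
  | .inr (.inl i) => if i = k then -1 else 1
  | .inr (.inr i) => if i = k then -1 else 1

def tl (k : Fin 3) : V →ₗ[ZMod 3] V where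
  toFun w := fun i => sn k i * w i
  map_add' w w' := by funext i; simp only [Pi.add_apply]; ring
  map_smul' c w := by funext i; simp only [Pi.smul_apply, smul_eq_mul, RingHom.id_apply]; ring

theorem tl_apply (k : Fin 3) (w : V) (i : I) : tl k w i = sn k i * w i := rfl

theorem tl_tl (k : Fin 3) (w : V) : tl k (tl k w) = w := by
  funext i
  have : ∀ k i, sn k i * sn k i = 1 := by decide
  rw [tl_apply, tl_apply, ← mul_assoc, this, one_mul]

theorem Q_tl (k : Fin 3) (w : V) : Q (tl k w) = Q w := by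
  simp only [Q_eq, tl_apply, sn]
  fin_cases k <;> simp

noncomputable def tt (k : Fin 3) : O := mk (tl k) (tl k) (tl_tl k) (tl_tl k) (Q_tl k)

theorem act_tt (k : Fin 3) (w : V) : act (tt k) w = tl k w := act_mk _ _ _ _ _ _

/-- Vectors by coordinates. -/
def vec (z x0 x1 x2 y0 y1 y2 : ZMod 3) : V
  | .inl _ => z
  | .inr (.inl i) => ![x0, x1, x2] i
  | .inr (.inr i) => ![y0, y1, y2] i

theorem vec_ext {v w : V} (h0 : v (.inl ()) = w (.inl ()))
    (h1 : v (.inr (.inl 0)) = w (.inr (.inl 0))) (h2 : v (.inr (.inl 1)) = w (.inr (.inl 1)))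
    (h3 : v (.inr (.inl 2)) = w (.inr (.inl 2))) (h4 : v (.inr (.inr 0)) = w (.inr (.inr 0)))
    (h5 : v (.inr (.inr 1)) = w (.inr (.inr 1))) (h6 : v (.inr (.inr 2)) = w (.inr (.inr 2))) :
    v = w := by
  funext i
  rcases i with _ | i | i
  · exact h0
  · fin_cases i; exacts [h1, h2, h3]
  · fin_cases i; exacts [h4, h5, h6]

def u0 : V := vec 0 0 0 1 0 0 0
def L (a b c d : ZMod 3) : V := vec c a d 0 b d 0

theorem Q_u0 : Q u0 = 0 := by simp [Q_eq, u0, vec]
theorem B_L (a b c d : ZMod 3) : B (L a b c d) u0 = 0 := by simp [B_eq, u0, L, vec]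

theorem L_mem (a b c d : ZMod 3) : S u0 (L a b c d) ∈ commutator O :=
  S_mem Q_u0 (B_L a b c d) (tt 2)
    (by rw [act_tt]; apply vec_ext <;> simp [tl_apply, sn, u0, vec])
    (by rw [act_tt]; apply vec_ext <;> simp [tl_apply, sn, L, vec])

noncomputable def X (a b c d : ZMod 3) : Cfsg.Omega (ZMod 3) Q := ⟨S u0 (L a b c d), L_mem a b c d⟩

def ug (k : Fin 4) : V := ![vec 0 1 0 0 0 0 0, vec 0 1 0 0 0 0 0, vec 0 0 0 0 1 0 0,
  vec 0 0 0 0 1 0 0] k
def vg (k : Fin 4) : V := ![vec 1 0 0 0 0 0 0, vec 0 0 1 0 0 1 0, vec 1 0 0 0 0 0 0,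
  vec 0 0 1 0 0 1 0] k

theorem Q_ug (k : Fin 4) : Q (ug k) = 0 := by fin_cases k <;> simp [Q_eq, ug, vec]
theorem B_vg (k : Fin 4) : B (vg k) (ug k) = 0 := by fin_cases k <;> simp [B_eq, ug, vg, vec]

theorem g_mem (k : Fin 4) : S (ug k) (vg k) ∈ commutator O :=
  S_mem (Q_ug k) (B_vg k) (tt 0)
    (by rw [act_tt]; fin_cases k <;> apply vec_ext <;> simp [tl_apply, sn, ug, vec])
    (by rw [act_tt]; fin_cases k <;> apply vec_ext <;> simp [tl_apply, sn, vg, vec])

abbrev T4 : Type := ZMod 3 × ZMod 3 × ZMod 3 × ZMod 3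

def σ (k : Fin 4) (e : T4) : T4 :=
  match k, e with
  | 0, (a, b, c, d) => (a + 2 * c - b, b, c - b, d)
  | 1, (a, b, c, d) => (a + 2 * d - b, b, c, d - b)
  | 2, (a, b, c, d) => (a, b + 2 * c - a, c - a, d)
  | 3, (a, b, c, d) => (a, b + 2 * d - a, c, d - a)

noncomputable def X' (e : T4) : Cfsg.Omega (ZMod 3) Q := X e.1 e.2.1 e.2.2.1 e.2.2.2

theorem g_u0 (k : Fin 4) : act (S (ug k) (vg k)) u0 = u0 := by
  rw [act_S (Q_ug k) (B_vg k), sg_apply]
  fin_cases k <;> simp [B_eq, ug, vg, u0, vec]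

theorem g_L (k : Fin 4) (a b c d : ZMod 3) : act (S (ug k) (vg k)) (L a b c d) =
    L (σ k (a, b, c, d)).1 (σ k (a, b, c, d)).2.1 (σ k (a, b, c, d)).2.2.1
      (σ k (a, b, c, d)).2.2.2 := by
  rw [act_S (Q_ug k) (B_vg k), sg_apply]
  fin_cases k <;> apply vec_ext <;> simp [B_eq, Q_eq, ug, vg, L, vec, σ] <;> ring

theorem conj_σ (k : Fin 4) (e : T4) : IsConj (X' e) (X' (σ k e)) := by
  obtain ⟨a, b, c, d⟩ := e
  rw [isConj_iff]
  refine ⟨⟨S (ug k) (vg k), g_mem k⟩, Subtype.ext ?_⟩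
  have := S_conj (S (ug k) (vg k)) Q_u0 (B_L a b c d)
  rw [g_u0, g_L] at this
  show S (ug k) (vg k) * S u0 (L a b c d) * (S (ug k) (vg k))⁻¹ = _
  rw [this, mul_inv_cancel_right]
  rfl

theorem conj_word (w : List (Fin 4)) : ∀ e : T4, IsConj (X' e) (X' (w.foldl (fun e k => σ k e) e)) := by
  induction w with
  | nil => exact fun e => IsConj.refl _
  | cons k w ih => exact fun e => (conj_σ k e).trans (ih _)

def words : List (List (Fin 4)) := [[], [], [2, 1, 1, 2, 3], [0, 3, 0, 3], [0, 0, 2], [2, 1, 2, 2],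
  [0, 2], [0, 1, 2, 2], [0, 2, 2], [], [0], [0, 0], [2], [1, 1, 2], [1, 1, 2, 3], [2, 2], [2],
  [1, 2, 2], [0, 2, 0], [2, 0], [0, 0, 2, 0], [0, 2], [0, 1, 1, 2], [3, 0, 3], [0, 0, 2, 2], [2, 2],
  [1, 3, 0, 2], [1, 2, 1, 2], [2, 2, 3, 0], [2, 1, 2], [0, 0, 1, 2], [0, 0, 2], [0, 0, 2, 3],
  [0, 3, 0], [3], [0, 2, 2], [], [0], [0, 0], [2], [2, 3], [1, 2], [2, 2], [3, 0], [0, 0, 3],
  [0, 2, 0], [2, 0], [1, 2, 0], [0, 2], [0, 2, 3], [0, 1, 2], [3, 0, 2], [2, 3, 0], [0, 3],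
  [1, 1, 2, 1, 1, 2], [1, 2, 1, 1, 2], [2, 1, 1, 2], [0, 0, 1, 1, 2], [0, 0, 1, 2], [2, 1, 2],
  [0, 1, 2, 2], [3, 3], [0, 2, 1, 2], [1, 3, 0], [3, 0], [0, 3, 0], [1, 2], [1, 2, 3], [1, 1, 2],
  [2, 1, 2], [1, 2, 2], [1, 2], [0, 2, 3, 0], [2, 3, 0], [0, 0, 2, 3, 0], [0, 1, 2], [0, 1, 2, 3],
  [0, 1, 1, 2], [0, 0, 2, 1, 2], [2, 1, 2, 2], [0, 3, 3]]

def rp (q : ZMod 3) : T4 := if q = 0 then (1, 0, 0, 0) else if q = 1 then (0, 0, 1, 0) else (0, 0, 1, 1)

theorem words_ok : ∀ a b c d : ZMod 3, (a = 0 ∧ b = 0 ∧ c = 0 ∧ d = 0) ∨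
    (words.getD (a.val + 3 * b.val + 9 * c.val + 27 * d.val) []).foldl (fun e k => σ k e)
      (a, b, c, d) = rp (a * b + c ^ 2 + d ^ 2) := by decide +kernel

theorem conj_rp (e : E4) (he : e ≠ 0) : IsConj (X (e 0) (e 1) (e 2) (e 3)) (X' (rp (q4 e))) := by
  rcases words_ok (e 0) (e 1) (e 2) (e 3) with ⟨h0, h1, h2, h3⟩ | h
  · exact absurd (funext fun i => by fin_cases i; exacts [h0, h1, h2, h3]) he
  · have := conj_word (words.getD ((e 0).val + 3 * (e 1).val + 9 * (e 2).val + 27 * (e 3).val) [])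
      (e 0, e 1, e 2, e 3)
    rw [h] at this
    exact this

theorem L_add (a b c d a' b' c' d' : ZMod 3) :
    L (a + a') (b + b') (c + c') (d + d') = L a b c d + L a' b' c' d' := by
  apply vec_ext <;> simp [L, vec]

noncomputable def xh : Multiplicative E4 →* Cfsg.Omega (ZMod 3) Q :=
  MonoidHom.mk' (fun e => X (toAdd e 0) (toAdd e 1) (toAdd e 2) (toAdd e 3)) fun e e' => by
    apply Subtype.ext
    show S u0 (L (toAdd e 0 + toAdd e' 0) (toAdd e 1 + toAdd e' 1) (toAdd e 2 + toAdd e' 2)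
      (toAdd e 3 + toAdd e' 3)) = S u0 _ * S u0 _
    rw [S_mul Q_u0 (B_L _ _ _ _) (B_L _ _ _ _), L_add]

theorem xh_inj : Function.Injective xh := by
  rw [injective_iff_map_eq_one]
  intro e he
  have h1 : S u0 (L (toAdd e 0) (toAdd e 1) (toAdd e 2) (toAdd e 3)) = 1 := congrArg Subtype.val he
  have h2 := congrArg (fun g => act g (vec 0 0 0 0 0 0 1)) h1
  simp only [act_one] at h2
  rw [act_S Q_u0 (B_L _ _ _ _), sg_apply] at h2
  have a0 := congrFun h2 (.inr (.inl 0))
  have a1 := congrFun h2 (.inr (.inr 0))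
  have a2 := congrFun h2 (.inl ())
  have a3 := congrFun h2 (.inr (.inl 1))
  simp [B_eq, u0, L, vec] at a0 a1 a2 a3
  apply toAdd.injective
  funext i
  fin_cases i
  exacts [a0, a1, a2, a3]

theorem embO : EmbOStmt :=
  ⟨xh, xh_inj, fun e e' he he' h => (conj_rp e he).trans (h ▸ (conj_rp e' he').symm)⟩

end Cfsg.Agent.H7.E72O
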