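import Cfsg.Agent.H73.GagDefs

/-!
Project GAG: the centralizer field of a normal quasisimple subgroup.
-/

set_option autoImplicit false

namespace Cfsg.Agent.H7.GagF

open Cfsg Subgroup Polynomial Cfsg.Agent.H73.Gag

universe u

theorem semi {D A : Type*} [Field D] [Ring A] [Algebra D A] {a x y : A} (h : SemiconjBy a x y)
    (μ : D[X]) : SemiconjBy a (aeval x μ) (aeval y μ) := by
  induction μ using Polynomial.induction_on' with
  | add p q hp hq => rw [map_add, map_add]; exact hp.add_right hq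
  | monomial n c =>
    rw [aeval_monomial, aeval_monomial]
    exact SemiconjBy.mul_right (Algebra.commutes c a).symm (h.pow_right n)

theorem dim {D V : Type*} [Field D] [AddCommGroup V] [Module D V] [Module.Finite D V]
    [Nontrivial V] {T : Module.End D V} {s : ℕ} (hs : s.Prime) (h1 : T ^ s = 1)
    (hf : ∀ v, T v = v → v = 0)
    (hc : ∀ k : ℕ, ¬ s ∣ k → ∃ A B : Module.End D V, A * B = 1 ∧ SemiconjBy A T (T ^ k ^ 2)) :
    (s - 1) / 2 ≤ Module.finrank D V := by
  classical
  set μ := minpoly D T with hμ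
  have hi : IsIntegral D T := Algebra.IsIntegral.isIntegral T
  have hd : μ.natDegree ≤ Module.finrank D V := by
    rw [← LinearMap.charpoly_natDegree T]
    exact natDegree_le_of_dvd (LinearMap.minpoly_dvd_charpoly T) (LinearMap.charpoly_monic T).ne_zero
  obtain ⟨z, hz⟩ := IsAlgClosed.exists_aeval_eq_zero (AlgebraicClosure D) μ
    (minpoly.degree_pos hi).ne'
  have hroot : ∀ P : D[X], aeval T P = 0 → aeval z P = 0 := fun P hP => by
    obtain ⟨Q, rfl⟩ := minpoly.dvd D T hP
    rw [map_mul, ← hμ, hz, zero_mul]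
  have hzs : z ^ s = 1 := by
    have := hroot (X ^ s - 1) (by simp [h1])
    simpa [sub_eq_zero] using this
  have hz1 : z ≠ 1 := by
    rintro rfl
    have h2 : μ.IsRoot 1 := by
      rw [← map_one (algebraMap D (AlgebraicClosure D)), aeval_algebraMap_apply,
        map_eq_zero] at hz
      simpa using hz
    obtain ⟨v, hv⟩ := (Module.End.hasEigenvalue_of_isRoot h2).exists_hasEigenvector
    exact hv.2 (hf v (by simpa using hv.apply_eq_smul))
  haveI := Fact.mk hs
  have ho : orderOf z = s := orderOf_eq_prime hzs hz1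
  have hk : ∀ k : ℕ, ¬ s ∣ k → aeval (z ^ k ^ 2) μ = 0 := fun k hk => by
    obtain ⟨A, B, hAB, h⟩ := hc k hk
    have h2 := (semi h μ).eq
    rw [hμ, minpoly.aeval, mul_zero] at h2
    have h3 : aeval (T ^ k ^ 2) μ = 0 := by
      rw [← mul_one (aeval _ μ), ← hAB, ← mul_assoc, hμ, ← h2, zero_mul]
    have := hroot (μ.comp (X ^ k ^ 2)) (by rw [aeval_comp]; simpa using h3)
    rw [aeval_comp] at this
    simpa using this
  have hlt : ∀ k ∈ Finset.Icc 1 ((s - 1) / 2), ¬ s ∣ k := fun k hk hd => by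
    rw [Finset.mem_Icc] at hk
    have := Nat.le_of_dvd hk.1 hd
    omega
  have hinj : Set.InjOn (fun k : ℕ => z ^ k ^ 2) (Finset.Icc 1 ((s - 1) / 2) : Finset ℕ) := by
    have key : ∀ k l : ℕ, 1 ≤ k → k ≤ l → l ≤ (s - 1) / 2 → z ^ k ^ 2 = z ^ l ^ 2 → k = l :=
      fun k l h1 h2 h3 e => by
        have hfin : IsOfFinOrder z := isOfFinOrder_iff_pow_eq_one.2 ⟨s, hs.pos, hzs⟩
        rw [hfin.pow_eq_pow_iff_modEq, ho,
          Nat.modEq_iff_dvd' (Nat.pow_le_pow_left h2 2), Nat.sq_sub_sq] at e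
        rcases (Nat.Prime.dvd_mul hs).1 e with h | h
        · have := Nat.le_of_dvd (by omega) h
          omega
        · have := Nat.eq_zero_of_dvd_of_lt h (by omega)
          omega
    intro k hk l hl e
    rw [Finset.mem_coe, Finset.mem_Icc] at hk hl
    rcases le_total k l with h | h
    · exact key k l hk.1 h hl.2 e
    · exact (key l k hl.1 h hk.2 e.symm).symm
  have h4 := card_le_degree_of_subset_roots (p := μ.map (algebraMap D (AlgebraicClosure D)))
    (Z := (Finset.Icc 1 ((s - 1) / 2)).image fun k : ℕ => z ^ k ^ 2) (fun y hy => by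
      obtain ⟨k, h5, rfl⟩ := Finset.mem_image.1 (Finset.mem_def.2 hy)
      rw [mem_roots (map_ne_zero (minpoly.ne_zero hi)), IsRoot.def, eval_map_algebraMap]
      exact hk k (hlt k h5))
  rw [Finset.card_image_of_injOn hinj, Nat.card_Icc, natDegree_map] at h4
  omega

theorem fld : FldStmt.{u} := by
  intro p n H V _ _ _ h L hL hq
  haveI := h.srm.fin
  haveI := h.srm.nt
  have hnc : ¬ ∀ a ∈ L, ∀ b ∈ L, a * b = b * a := fun hc => by
    have h1 : center L = ⊤ := eq_top_iff.2 fun a _ =>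
      mem_center_iff.2 fun b => Subtype.ext (hc _ b.2 _ a.2)
    haveI := hq.2
    obtain ⟨a, ha⟩ := exists_ne (1 : L ⧸ center L)
    obtain ⟨a, rfl⟩ := QuotientGroup.mk_surjective a
    exact ha ((QuotientGroup.eq_one_iff a).2 (h1 ▸ mem_top a))
  obtain ⟨D, _, _, _, hlin, hsc⟩ := (h.tl.irrOn_of_not_comm L hnc).exists_field
  haveI : Module.Finite D V := Module.Finite.of_finite
  have hcard : Nat.card V = Nat.card D ^ Module.finrank D V := Module.natCard_eq_pow_finrank
  have hd2 : 2 ≤ Module.finrank D V := by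
    by_contra hlt
    obtain ⟨v, hv⟩ := finrank_le_one_iff.1 (by omega : Module.finrank D V ≤ 1)
    refine hnc (h.tl.comm_of_scalars (K := D) fun g hg => ?_)
    obtain ⟨c, hc⟩ := hv (g • v)
    refine ⟨c, fun w => ?_⟩
    obtain ⟨e, rfl⟩ := hv w
    rw [hlin g hg, ← hc, smul_comm]
  obtain ⟨f, -, hf⟩ := (Nat.dvd_prime_pow h.srm.pp).1
    (h.card ▸ hcard ▸ dvd_pow_self (Nat.card D) (by omega) : Nat.card D ∣ p ^ n)
  have hf1 : 1 ≤ f := by
    by_contra h0
    have : f = 0 := by omega
    have h1 := Finite.one_lt_card (α := D)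
    rw [hf, this, pow_zero] at h1
    omega
  have hC := h.tl.card_dvd_of_scalars hsc
  refine ⟨Module.finrank D V, f, ?_, hd2, hf1, hC.2, hf ▸ hC.1, fun s x hs hsp hx ho hc => ?_⟩
  · rw [h.card, hf, ← pow_mul] at hcard
    rw [Nat.pow_right_injective h.srm.pp.two_le hcard, mul_comm]
  let ρ : L →* Module.End D V :=
    { toFun := fun g =>
        { toFun := fun v => (g : H) • v
          map_add' := smul_add _
          map_smul' := hlin g g.2 }
      map_one' := LinearMap.ext fun v => one_smul H v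
      map_mul' := fun a b => LinearMap.ext fun v => mul_smul (a : H) (b : H) v }
  have h1 := dim (T := ρ ⟨x, hx⟩) hs (by
    rw [← map_pow, show (⟨x, hx⟩ : L) ^ s = 1 from Subtype.ext (ho ▸ pow_orderOf_eq_one x),
      map_one]) (fun v hv => h.srm.fpf (g := x) (by
        rintro rfl
        exact hs.one_lt.ne (by simpa using ho)) (fun hd => hsp
          ((Nat.prime_dvd_prime_iff_eq h.srm.pp hs).1 (ho ▸ hd)).symm) hv) fun k hk => by
    obtain ⟨g, hg, e⟩ := hc k hk
    refine ⟨ρ ⟨g, hg⟩, ρ ⟨g, hg⟩⁻¹, by rw [← map_mul, mul_inv_cancel, map_one], ?_⟩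
    rw [← map_pow]
    exact SemiconjBy.map (Subtype.ext (mul_inv_eq_iff_eq_mul.1 e)) ρ
  rcases hs.eq_two_or_odd with e | e <;> omega

end Cfsg.Agent.H7.GagF
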