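import Cfsg.Agent.H40.L3Defs
import Cfsg.Agent.H52.PComponent
import Cfsg.Agent.H9.Taussky

/-!
The centraliser of an involution with a 2-component whose Sylow 2-subgroup is semidihedral of
order 16.
-/

set_option autoImplicit false

namespace Cfsg.Agent.H7.L3S

open Subgroup Cfsg.Agent.H83 Cfsg.Agent.H40.L3

universe u

theorem qd_equiv {A B : Type*} [Group A] [Group B] (e : A ≃* B) (h : IsQuasiDihedral A) :
    IsQuasiDihedral B := by
  obtain ⟨n, hn, hc, x, y, hx, hy, h⟩ := h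
  exact ⟨n, hn, (Nat.card_congr e.toEquiv).symm.trans hc, e x, e y, by rw [e.orderOf_eq, hx],
    by rw [e.orderOf_eq, hy], by rw [← map_inv, ← map_mul, ← map_mul, h, map_pow]⟩

theorem inf_odd {H : Type*} [Group H] [Finite H] {S : Subgroup H} (hS : IsPGroup 2 S) {x : H}
    (hx : x ∈ S) (ho : x ∈ pPrimeCore 2 H) : x = 1 := by
  obtain ⟨k, hk⟩ := H52.exists_orderOf_eq_of_mem_of_isPGroup hS hx
  refine H52.eq_one_of_orderOf_eq_pow_of_coprime hk (H52.orderOf_coprime_of_mem ?_ ho)
  simpa using H52.coprime_card_ker_mk'_pPrimeCore (G := H) (p := 2)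

theorem exists_ya {L : Type*} [Group L] [Finite L]
    (hq : ∀ P : Sylow 2 (L ⧸ oddCore L), IsQuasiDihedral P ∧ Nat.card P = 16) :
    ∃ y a : L, orderOf y = 8 ∧ a * a = 1 ∧ a * y * a = y ^ 3 ∧
      IsSylowIn 2 (closure ({y, a} : Set L)) ⊤ := by
  obtain ⟨D⟩ : Nonempty (Sylow 2 L) := inferInstance
  obtain ⟨h1, h2⟩ := hq (D.mapSurjective (QuotientGroup.mk'_surjective (oddCore L)))
  let e : D ≃* (D.mapSurjective (QuotientGroup.mk'_surjective (oddCore L))) :=
    MulEquiv.ofBijective ((QuotientGroup.mk' (oddCore L)).subgroupMap D)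
      ⟨(injective_iff_map_eq_one _).2 fun x hx => Subtype.ext
        (inf_odd D.2 x.2 ((QuotientGroup.eq_one_iff _).1 (congrArg Subtype.val hx))),
      MonoidHom.subgroupMap_surjective _ _⟩
  obtain ⟨y, a, n, -, h, ha, hay⟩ := H9.exists_MC_of_quasiDihedral' (qd_equiv e.symm h1)
  have hn : n = 2 := by
    have := h.card
    rw [Nat.card_congr e.toEquiv, h2] at this
    have h3 : 4 = n + 2 := Nat.pow_right_injective le_rfl this
    omega
  subst hn
  refine ⟨y, a, h.ord, ha, ?_, ?_⟩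
  · rw [← eq_inv_of_mul_eq_one_left ha] at hay
    rw [hay]; group
  · have : closure ({y, a} : Set L) = D := by
      refine le_antisymm ((closure_le _).2 ?_) fun x hx => ?_
      · rintro _ (rfl | rfl)
        · exact (h.mem _).2 ⟨1, Or.inl (zpow_one _).symm⟩
        · exact (h.mem _).2 ⟨0, Or.inr (by simp)⟩
      · have hy : y ∈ closure ({y, a} : Set L) := subset_closure (by simp)
        have ha' : a ∈ closure ({y, a} : Set L) := subset_closure (by simp)
        obtain ⟨i, rfl | rfl⟩ := (h.mem x).1 hx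
        · exact zpow_mem hy i
        · exact mul_mem (zpow_mem hy i) ha'
    rw [this]
    exact isSylowIn_of_sylow D le_top

theorem not_comm {H : Type*} [Group H] {y a : H} (hy : orderOf y = 8) (ha : a * a = 1)
    (h : a * y * a = y ^ 3) : a * y ≠ y * a := fun e => by
  rw [e, mul_assoc, ha, mul_one] at h
  have : y ^ 2 = 1 := mul_left_cancel (a := y) (by rw [mul_one, ← pow_succ', ← h])
  have := orderOf_dvd_of_pow_eq_one this
  rw [hy] at this
  omega

section Abs

variable {H : Type u} [Group H] [Finite H] {L : Subgroup H}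

/-- the elements acting trivially on `L` modulo the odd core -/
def Kc (L : Subgroup H) : Subgroup H :=
  (centralizer ((L.map (QuotientGroup.mk' (oddCore H)) : Subgroup _) : Set (H ⧸ oddCore H))).comap
    (QuotientGroup.mk' (oddCore H))

omit [Finite H] in
theorem mem_Kc {g : H} : g ∈ Kc L ↔ ∀ l ∈ L, l⁻¹ * (g * l * g⁻¹) ∈ oddCore H := by
  rw [Kc, mem_comap, mem_centralizer_iff]
  constructor
  · intro h l hl
    have := h _ (mem_map_of_mem _ hl)
    rw [← QuotientGroup.eq, QuotientGroup.mk_mul, QuotientGroup.mk_mul, QuotientGroup.mk_inv,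
      eq_mul_inv_iff_mul_eq]
    exact this
  · rintro h _ ⟨l, hl, rfl⟩
    have := h l hl
    rw [← QuotientGroup.eq, QuotientGroup.mk_mul, QuotientGroup.mk_mul, QuotientGroup.mk_inv,
      eq_mul_inv_iff_mul_eq] at this
    exact this

instance [L.Normal] : (Kc L).Normal := by
  have := Normal.map (H := L) inferInstance _ (QuotientGroup.mk'_surjective (oddCore H))
  unfold Kc
  infer_instance

theorem mem_odd (hL : L.IsSubnormal) {x : L} : x ∈ oddCore L ↔ (x : H) ∈ oddCore H := by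
  have := H52.map_pPrimeCore_subtype_of_subnormal (p := 2) hL
  constructor
  · intro h
    exact (this.le (mem_map_of_mem _ h)).1
  · intro h
    obtain ⟨y, hy, e⟩ := this.ge ⟨h, x.2⟩
    rwa [← Subtype.ext e]

variable (hL : IsPComponent 2 L)
  (hc : ∀ P : Subgroup H, IsPGroup 2 P →
    (∀ g ∈ P, ∀ l ∈ L, ∃ o ∈ oddCore L, g * l * g⁻¹ = l * o) → IsCyclic P)
include hL hc

theorem cyc {P : Subgroup H} (hP : IsPGroup 2 P) (hn : P ≤ normalizer (L : Set H))
    (hK : P ≤ Kc L) : IsCyclic P :=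
  hc P hP fun g hg l hl => ⟨⟨l⁻¹ * (g * l * g⁻¹),
    mul_mem (inv_mem hl) ((mem_normalizer_iff.1 (hn hg) l).1 hl)⟩,
    (mem_odd hL.1).2 (mem_Kc.1 (hK hg) l hl), by simp⟩

theorem normal {y a : H} (hy : orderOf y = 8) (ha : a * a = 1) (h : a * y * a = y ^ 3)
    (hD : IsSylowIn 2 (closure ({y, a} : Set H)) L) : L.Normal := by
  rw [← normalizer_eq_top_iff, eq_top_iff]
  intro g _
  by_contra hg
  have hL' := H52.IsPComponent.conj hL g
  have hne : L.map (MulAut.conj g).toMonoidHom ≠ L := fun e => hg (by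
    rw [mem_normalizer_iff'']
    intro x
    rw [← mem_cj, cj, e])
  have h1 := H52.IsPComponent.commutator_le_of_ne hL hL' hne.symm
  have h2 := cyc hL hc (hD.cj g).isPGroup
    ((hD.cj g).le.trans ((H52.IsPComponent.le_pLayer hL').trans
      (H52.IsPComponent.pLayer_le_normalizer hL)))
    fun x hx => mem_Kc.2 fun l hl => by
      have := h1 (commutator_mem_commutator (inv_mem hl) ((hD.cj g).le hx))
      simpa [commutatorElement_def, mul_assoc] using this
  have h3 := h2.isMulCommutative.is_comm.comm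
    (⟨_, conj_mem_cj (subset_closure (show a ∈ ({y, a} : Set H) by simp))⟩ :
      cj g (closure ({y, a} : Set H)))
    ⟨_, conj_mem_cj (subset_closure (show y ∈ ({y, a} : Set H) by simp))⟩
  have h4 : g * a * g⁻¹ * (g * y * g⁻¹) = g * y * g⁻¹ * (g * a * g⁻¹) := congrArg Subtype.val h3
  rw [conj_mul, conj_mul] at h4
  exact not_comm hy ha h (by simpa using h4)

omit hc in
theorem inf_Kc (hs : IsSimpleGroup (L ⧸ oddCore L)) (hna : ¬ IsMulCommutative (L ⧸ oddCore L))
    {x : H} (hx : x ∈ L) (hK : x ∈ Kc L) : x ∈ oddCore H := by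
  have hZ : center (L ⧸ oddCore L) = ⊥ :=
    (hs.eq_bot_or_eq_top_of_normal _ inferInstance).resolve_right fun e => hna
      ⟨⟨fun a b => (mem_center_iff.1 (e ▸ mem_top b) a)⟩⟩
  have : (QuotientGroup.mk ⟨x, hx⟩ : L ⧸ oddCore L) ∈ center _ := by
    rw [mem_center_iff]
    intro l
    obtain ⟨l, rfl⟩ := QuotientGroup.mk_surjective l
    rw [← eq_mul_inv_iff_mul_eq, ← QuotientGroup.mk_mul, ← QuotientGroup.mk_inv,
      ← QuotientGroup.mk_mul, QuotientGroup.eq, mem_odd hL.1]
    exact mem_Kc.1 hK l l.2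
  rw [hZ, mem_bot, QuotientGroup.eq_one_iff, mem_odd hL.1] at this
  exact this

theorem abs (hqd : QDS.{u}) (hout : OutS.{u}) {t : H} (ht : orderOf t = 2)
    (hz : ∀ h : H, h * t = t * h) (hs : IsSimpleGroup (L ⧸ oddCore L))
    (hna : ¬ IsMulCommutative (L ⧸ oddCore L))
    (hq : ∀ P : Sylow 2 (L ⧸ oddCore L), IsQuasiDihedral P ∧ Nat.card P = 16) :
    Nonempty (H0 H t) := by
  obtain ⟨y0, a0, hy0, ha0, hay0, hD0⟩ := exists_ya hq
  obtain ⟨ρ, κ, ρ1, ρ2, κ1, κ2⟩ := hqd L y0 a0 (fun J hJ => by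
    have := normal_of_index_eq_two hJ
    have h1 : (⊤ : Subgroup L) ≤ J := by
      have h2 : ⁅(⊤ : Subgroup L), (⊤ : Subgroup L)⁆ = ⊤ := by
        apply map_injective L.subtype_injective
        rw [map_commutator, ← MonoidHom.range_eq_map, range_subtype,
          H52.IsPComponent.commutator_self hL]
      rw [← h2, commutator_le]
      intro b _ c _
      rw [commutatorElement_def, mul_assoc, mul_assoc, ← mul_assoc, mul_mem_iff_of_index_two hJ,
        mul_mem_iff_of_index_two hJ, mul_mem_iff_of_index_two hJ, inv_mem_iff, inv_mem_iff]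
    rw [top_le_iff.1 h1, index_top] at hJ
    omega) hy0 ha0 hay0 hD0
  have hD := hD0.map L.subtype
  rw [MonoidHom.map_closure, Set.image_pair, ← MonoidHom.range_eq_map, range_subtype] at hD
  have hy : orderOf (y0 : H) = 8 := (orderOf_coe y0).trans hy0
  have ha : (a0 : H) * a0 = 1 := congrArg Subtype.val ha0
  have hay : (a0 : H) * y0 * a0 = y0 ^ 3 := congrArg Subtype.val hay0
  have ρ1' : (ρ : H) * y0 ^ 4 * ρ⁻¹ = a0 := congrArg Subtype.val ρ1
  have ρ2' : (ρ : H) * a0 * ρ⁻¹ = a0 * y0 ^ 4 := congrArg Subtype.val ρ2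
  have κ1' : (κ : H) * y0 ^ 2 * κ⁻¹ = y0 * a0 ∨ (κ : H) * y0 ^ 2 * κ⁻¹ = y0 * a0 * y0 ^ 4 :=
    κ1.imp (congrArg Subtype.val) (congrArg Subtype.val)
  have κ2' : (κ : H) * (y0 * a0) * κ⁻¹ = y0 ^ 2 * (y0 * a0) ∨
      (κ : H) * (y0 * a0) * κ⁻¹ = y0 ^ 2 * (y0 * a0) * y0 ^ 4 :=
    κ2.imp (congrArg Subtype.val) (congrArg Subtype.val)
  change IsSylowIn 2 (closure {(y0 : H), (a0 : H)}) L at hD
  have hρ := ρ.2
  have hκ := κ.2
  simp only [coe_inv] at ρ1' ρ2' κ1' κ2'
  generalize (y0 : H) = y, (a0 : H) = a, (ρ : H) = ρ', (κ : H) = κ' at *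
  clear hy0 ha0 hay0 hD0 ρ1 ρ2 κ1 κ2 y0 a0 ρ κ
  have hN := normal hL hc hy ha hay hD
  obtain ⟨S, hS, hDS⟩ := exists_isSylowIn_ge (H := ⊤) le_top hD.isPGroup
  have SL : S ⊓ L = closure {y, a} :=
    hD.max _ inf_le_right (hS.isPGroup.to_le inf_le_left) (le_inf hDS hD.le)
  obtain ⟨r, SK⟩ : ∃ r, S ⊓ Kc L = zpowers r := by
    have := cyc hL hc (hS.isPGroup.to_le (inf_le_left (b := Kc L))) le_normalizer_of_normal
      inf_le_right
    obtain ⟨r, hr⟩ := (Subgroup.isCyclic_iff_exists_zpowers_eq_top _).1 this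
    exact ⟨r, hr.symm⟩
  have hr : r ∈ S ⊓ Kc L := SK ▸ mem_zpowers r
  have hyD : y ∈ closure ({y, a} : Set H) := subset_closure (by simp)
  have haD : a ∈ closure ({y, a} : Set H) := subset_closure (by simp)
  have rc : ∀ d ∈ closure ({y, a} : Set H), r * d = d * r := fun d hd => by
    have := inf_odd hS.isPGroup (mul_mem (inv_mem (hDS hd))
      (mul_mem (mul_mem hr.1 (hDS hd)) (inv_mem hr.1))) (mem_Kc.1 hr.2 d (hD.le hd))
    rw [inv_mul_eq_one, eq_mul_inv_iff_mul_eq] at this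
    exact this.symm
  have tt : t * t = 1 := by rw [← pow_two, ← ht, pow_orderOf_eq_one]
  obtain ⟨π, hsur, hπ⟩ : ∃ π : H →* H ⧸ Kc L, Function.Surjective π ∧
      ∀ x, π x = 1 ↔ x ∈ Kc L :=
    ⟨QuotientGroup.mk' _, QuotientGroup.mk'_surjective _, QuotientGroup.eq_one_iff⟩
  have hπ' : ∀ x x', π x = π x' ↔ x * x'⁻¹ ∈ Kc L := fun x x' => by
    rw [← hπ, map_mul, map_inv, mul_inv_eq_one]
  have inj : ∀ d ∈ closure ({y, a} : Set H), ∀ d' ∈ closure ({y, a} : Set H),
      π d = π d' → d = d' := fun d hd d' hd' e => by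
    have h1 := mul_mem hd (inv_mem hd')
    exact mul_inv_eq_one.1
      (inf_odd hD.isPGroup h1 (inf_Kc hL hs hna (hD.le h1) ((hπ' _ _).1 e)))
  have hπD : (closure ({y, a} : Set H)).map π = closure {π y, π a} := by
    rw [MonoidHom.map_closure, Set.image_pair]
  have mem : ∀ s ∈ S, π s ∈ closure ({π y, π a} : Set _) ↔ s ∈ zpowers r ⊔ closure {y, a} := by
    intro s hs
    rw [← hπD]
    constructor
    · rintro ⟨d, hd, e⟩
      have h1 : s * d⁻¹ ∈ zpowers r :=
        SK ▸ mem_inf.2 ⟨mul_mem hs (inv_mem (hDS hd)), (hπ' _ _).1 e.symm⟩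
      simpa using mul_mem (mem_sup_left h1) (mem_sup_right (S := zpowers r) hd)
    · intro h
      have h1 : zpowers r ⊔ closure {y, a} ≤ ((closure ({y, a} : Set H)).map π).comap π :=
        sup_le (zpowers_le.2 (by rw [mem_comap, (hπ r).2 hr.2]; exact one_mem _)) (le_comap_map _ _)
      exact h1 h
  have hNX : (L.map π).Normal := hN.map π hsur
  have hSX := hS.map π
  rw [map_top_of_surjective _ hsur] at hSX
  have hDX := hD.map π
  rw [hπD] at hDX
  have hyX : orderOf (π y) = 8 := by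
    rw [← hy, orderOf_eq_orderOf_iff]
    intro n
    rw [← map_pow]
    exact ⟨fun h => inj _ (pow_mem hyD n) _ (one_mem _) (by rw [h, map_one]),
      fun h => by rw [h, map_one]⟩
  obtain ⟨g0, hg0, cov, out⟩ := hout _ (L.map π) (S.map π) (π y) (π a) (π ρ') (π κ')
    (fun x hx => by
      obtain ⟨x, rfl⟩ := hsur x
      refine (hπ x).2 (mem_Kc.2 fun l hl => inf_Kc hL hs hna
        (mul_mem (inv_mem hl) (hN.conj_mem l hl x)) ((hπ _).1 ?_))
      rw [map_mul, map_mul, map_mul, hx _ (mem_map_of_mem _ hl)]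
      simp)
    (by
      have hker : (π.subgroupMap L).ker = oddCore L := by
        ext l
        rw [mem_odd hL.1, MonoidHom.mem_ker, Subtype.ext_iff]
        refine (hπ _).trans ⟨inf_Kc hL hs hna l.2, fun h2 => mem_Kc.2 fun l' _ => ?_⟩
        have h3 : (oddCore H).Normal := inferInstance
        simpa [mul_assoc] using mul_mem (h3.conj_mem _ h2 l'⁻¹) (inv_mem h2)
      have e := (QuotientGroup.quotientMulEquivOfEq hker.symm).trans
        (QuotientGroup.quotientKerEquivOfSurjective _ (MonoidHom.subgroupMap_surjective π L))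
      have h1 : IsSimpleGroup (L.map π) := e.symm.isSimpleGroup
      refine (h1.eq_bot_or_eq_top_of_normal _ inferInstance).resolve_right fun h2 => ?_
      have h3 := inf_odd (hDX.isPGroup.comap_subtype (K := L.map π))
        (x := ⟨π y, mem_map_of_mem _ (hD.le hyD)⟩) (subset_closure (by simp)) (h2.ge (mem_top _))
      rw [show π y = 1 from congrArg Subtype.val h3, orderOf_one] at hyX
      omega)
    hSX hyX (by rw [← map_mul, ha, map_one]) (by rw [← map_mul, ← map_mul, hay, map_pow])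
    (hDX.max _ inf_le_right (hSX.isPGroup.to_le inf_le_left)
      (le_inf (hπD ▸ map_mono hDS) hDX.le))
    (mem_map_of_mem _ hρ) (mem_map_of_mem _ hκ)
    (by simpa using congrArg π ρ1') (by simpa using congrArg π ρ2')
    (κ1'.imp (fun e => by simpa using congrArg π e) (fun e => by simpa using congrArg π e))
    (κ2'.imp (fun e => by simpa using congrArg π e) (fun e => by simpa using congrArg π e))
  obtain ⟨g, hg, hgg, hg1⟩ : ∃ g ∈ S, π g = g0 ∧ (g0 = 1 → g = 1) := by
    by_cases h : g0 = 1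
    · exact ⟨1, one_mem _, by rw [h, map_one], fun _ => rfl⟩
    · obtain ⟨g, hg, e⟩ := hg0
      exact ⟨g, hg, e, fun e' => (h e').elim⟩
  subst hgg
  have nD : ∀ d ∈ closure ({y, a} : Set H), g * d * g⁻¹ ∈ closure ({y, a} : Set H) :=
    fun d hd => SL ▸ mem_inf.2
      ⟨mul_mem (mul_mem hg (hDS hd)) (inv_mem hg), hN.conj_mem _ (hD.le hd) _⟩
  have htS : t ∈ S := hS.mem_of_norm (mem_top t) (k := 1) (by rw [pow_one, pow_two, tt])
    (centralizer_le_normalizer _ fun x _ => hz x)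
  refine ⟨{
    y := y, a := a, r := r, g := g, ρ := ρ', κ := κ', S := S, L := L, K := Kc L
    t1 := fun e => by rw [e, orderOf_one] at ht; omega
    t2 := tt
    syl := hS.mono (fun x _ => mem_centralizer_singleton_iff.2 (hz x)) le_top
    y8 := hy, a2 := ha, ay := hay
    Ln := fun h _ x hx => hN.conj_mem x hx h
    Kn := fun h _ x hx => (inferInstance : (Kc L).Normal).conj_mem x hx h
    SL := SL, SK := SK
    tr := SK ▸ ⟨htS, mem_Kc.2 fun l _ => by rw [← hz l]; simp⟩
    ry := rc y hyD, ra := rc a haD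
    dis := by
      rw [eq_bot_iff]
      intro x hx
      exact mem_bot.2 (inf_odd hD.isPGroup hx.2 (inf_Kc hL hs hna (hD.le hx.2) (SK.ge hx.1).2))
    ρt := hz _, ρ1 := ρ1', ρ2 := ρ2', κt := hz _, κ1 := κ1', κ2 := κ2', gS := hg
    cov := fun x hx => (cov _ (mem_map_of_mem π hx)).imp (mem x hx).1
      fun h => (mem _ (mul_mem hx (inv_mem hg))).1 (by simpa using h)
    out := out.imp hg1 fun ⟨h1, h2, h3, h4, h5⟩ => ⟨fun h => h1 ((mem g hg).2 h),
      inj _ (nD y hyD) _ (pow_mem hyD 5) (by simpa using h2),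
      mul_inv_eq_iff_eq_mul.1 (inj _ (nD a haD) _ haD (by
        rw [map_mul, map_mul, h3]; simp)),
      SK ▸ ⟨mul_mem hg hg, (hπ _).1 (by rw [map_mul, h4])⟩, fun v hv hvv hvn => ?_⟩ }⟩
  obtain ⟨h, hh⟩ := h5 (π v) (mem_map_of_mem π hv) (by rw [← map_mul, hvv, map_one])
    fun e => hvn ((mem v hv).1 e)
  obtain ⟨h, rfl⟩ := hsur h
  have key : ∀ g' ∈ S, π h * π v * (π h)⁻¹ = π g' →
      ∃ h', ∃ c ∈ zpowers r, h' * v * h'⁻¹ = c * g' := fun g' hg' e => by
    have h6 : π (h * v * h⁻¹) = π g' := by simpa using e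
    obtain ⟨m, hm, hle⟩ := (hS.mono (K := (S.map π).comap π) (le_comap_map _ _)
      le_top).exists_conj_le (P := zpowers (h * v * h⁻¹))
      (zpowers_le.2 ⟨g', hg', h6.symm⟩)
      (fun ⟨_, i, rfl⟩ => ⟨1, Subtype.ext (by
        change ((h * v * h⁻¹) ^ i) ^ 2 ^ 1 = 1
        rw [← zpow_natCast, ← zpow_mul, mul_comm, zpow_mul, zpow_natCast, pow_one, pow_two,
          conj_mul, hvv]
        simp)⟩)
    obtain ⟨s, hs', e'⟩ := hm
    have h7 := hle (conj_mem_cj (mem_zpowers _))
    have h8 : π (s⁻¹ * m) = 1 := by rw [map_mul, map_inv, e', inv_mul_cancel]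
    refine ⟨s⁻¹ * m * h, s⁻¹ * m * h * v * (s⁻¹ * m * h)⁻¹ * g'⁻¹,
      SK ▸ mem_inf.2 ⟨mul_mem ?_ (inv_mem hg'), (hπ' _ _).1 ?_⟩, by simp⟩
    · have := mul_mem (mul_mem (inv_mem hs') h7) hs'
      convert this using 1
      group
    · rw [← h6, show s⁻¹ * m * h * v * (s⁻¹ * m * h)⁻¹ = s⁻¹ * m * (h * v * h⁻¹) * (s⁻¹ * m)⁻¹ by
        group, map_mul, map_mul, map_inv, h8]
      simp
  rcases hh with e | e
  · obtain ⟨h', c, hc', e'⟩ := key g hg e
    exact ⟨h', hz _, c, hc', Or.inl e'⟩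
  · obtain ⟨h', c, hc', e'⟩ := key (g * y ^ 4) (mul_mem hg (hDS (pow_mem hyD 4)))
      (by simpa using e)
    exact ⟨h', hz _, c, hc', Or.inr (by rw [e', mul_assoc])⟩

end Abs

theorem lift {H G : Type u} [Group H] [Group G] [Finite H] {t : H} (h : H0 H t) (f : H →* G)
    (hf : Function.Injective f) (hz : ∀ x : H, x * t = t * x)
    (hr : ∀ x : G, x * f t = f t * x → ∃ x', f x' = x) : Nonempty (H0 G (f t)) := by
  have cm : ∀ x : H, f x * f t = f t * f x := fun x => by rw [← map_mul, hz, map_mul]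
  have hD : (closure ({h.y, h.a} : Set H)).map f = closure {f h.y, f h.a} := by
    rw [MonoidHom.map_closure, Set.image_pair]
  have hR : (zpowers h.r ⊔ closure ({h.y, h.a} : Set H)).map f =
      zpowers (f h.r) ⊔ closure {f h.y, f h.a} := by
    rw [Subgroup.map_sup, hD, MonoidHom.map_zpowers]
  have mR : ∀ x, f x ∈ zpowers (f h.r) ⊔ closure {f h.y, f h.a} ↔
      x ∈ zpowers h.r ⊔ closure ({h.y, h.a} : Set H) := fun x => by
    rw [← hR, mem_map_iff_mem hf]
  have mr : ∀ x ∈ zpowers h.r, f x ∈ zpowers (f h.r) := fun x hx => by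
    rw [← MonoidHom.map_zpowers]; exact mem_map_of_mem f hx
  have hC : (centralizer ({t} : Set H)).map f = centralizer {f t} := by
    ext x
    rw [mem_centralizer_singleton_iff]
    constructor
    · rintro ⟨x, -, rfl⟩; exact cm x
    · intro hx
      obtain ⟨x, rfl⟩ := hr x hx
      exact mem_map_of_mem f (mem_centralizer_singleton_iff.2 (hz x))
  exact ⟨{
    y := f h.y, a := f h.a, r := f h.r, g := f h.g, ρ := f h.ρ, κ := f h.κ
    S := h.S.map f, L := h.L.map f, K := h.K.map f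
    t1 := fun e => h.t1 (hf (e.trans (map_one f).symm))
    t2 := by rw [← map_mul, h.t2, map_one]
    syl := hC ▸ h.syl.map f
    y8 := (orderOf_injective f hf _).trans h.y8
    a2 := by rw [← map_mul, h.a2, map_one]
    ay := by simpa using congrArg f h.ay
    Ln := by
      rintro k hk _ ⟨x, hx, rfl⟩
      obtain ⟨k, rfl⟩ := hr k hk
      exact ⟨_, h.Ln k (hz k) x hx, by simp⟩
    Kn := by
      rintro k hk _ ⟨x, hx, rfl⟩
      obtain ⟨k, rfl⟩ := hr k hk
      exact ⟨_, h.Kn k (hz k) x hx, by simp⟩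
    SL := by rw [← map_inf _ _ _ hf, h.SL, hD]
    SK := by rw [← map_inf _ _ _ hf, h.SK, MonoidHom.map_zpowers]
    tr := mr _ h.tr
    ry := by simpa using congrArg f h.ry
    ra := by simpa using congrArg f h.ra
    dis := by rw [← hD, ← MonoidHom.map_zpowers, ← map_inf _ _ _ hf, h.dis, Subgroup.map_bot]
    ρt := cm _
    ρ1 := by simpa using congrArg f h.ρ1
    ρ2 := by simpa using congrArg f h.ρ2
    κt := cm _
    κ1 := h.κ1.imp (fun e => by simpa using congrArg f e) (fun e => by simpa using congrArg f e)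
    κ2 := h.κ2.imp (fun e => by simpa using congrArg f e) (fun e => by simpa using congrArg f e)
    gS := mem_map_of_mem f h.gS
    cov := by
      rintro _ ⟨x, hx, rfl⟩
      exact (h.cov x hx).imp (mR x).2 fun e => by simpa using (mR _).2 e
    out := h.out.imp (fun e => by rw [e, map_one]) fun ⟨h1, h2, h3, h4, h5⟩ =>
      ⟨fun e => h1 ((mR _).1 e), by simpa using congrArg f h2, by simpa using congrArg f h3,
        by simpa using mr _ h4, by
        rintro _ ⟨v, hv, rfl⟩ hvv hn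
        obtain ⟨k, -, c, hc, e⟩ := h5 v hv (hf (by simpa using hvv)) fun e => hn ((mR v).2 e)
        exact ⟨f k, cm k, f c, mr c hc,
          e.imp (fun e => by simpa using congrArg f e) (fun e => by simpa using congrArg f e)⟩⟩ }⟩

theorem setS : SetS.{u} := by
  intro hqd hout G _ _ t ht L hL hs hna hq hc
  have hz : ∀ x : centralizer ({t} : Set G),
      x * ⟨t, mem_centralizer_singleton_iff.2 rfl⟩ = ⟨t, mem_centralizer_singleton_iff.2 rfl⟩ * x :=
    fun x => Subtype.ext (mem_centralizer_singleton_iff.1 x.2)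
  obtain ⟨h⟩ := abs hL hc hqd hout ((orderOf_coe _).symm.trans ht) hz hs hna hq
  exact lift h (centralizer ({t} : Set G)).subtype (subtype_injective _) hz
    fun x hx => ⟨⟨x, mem_centralizer_singleton_iff.2 hx⟩, rfl⟩

end Cfsg.Agent.H7.L3S
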