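import Cfsg.Agent.H50.L81Defs
import Cfsg.Agent.H80.FvEnt
import Cfsg.Agent.H16.E82Xact

/-! Project L81, piece CF: structure constants of `E₈` and a separating element of the Cartan
subalgebra. -/

set_option autoImplicit false
set_option maxRecDepth 100000

namespace Cfsg.Agent.H7.L81Cf

open Equiv Cfsg.Lie H37 H40 H34 H29 Module H50.E83 H50.L81
open H42.Fv (al cp Sum2 xR xg_eq)
open scoped Matrix

theorem pe (r s : Rt) : C8.R.pair r s = H54.O84.pr r s := H54.O84.pair_eq r s

theorem ps (r s : Rt) : C8.R.pair r s = C8.R.pair s r := H54.O84.pair_symm r s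

theorem pair_sum {a b c : Rt} (h : Sum2 a b c) : C8.R.pair a b = -1 := by
  have e : ∀ x, C8.R.pair x c = C8.R.pair x a + C8.R.pair x b := fun x => by
    simp only [H40.RS.pair, show C8.R.rc c = _ from h, map_add]
  have := e c
  have := e a
  have := e b
  have := ps c a
  have := ps c b
  have := ps a b
  have := C8.R.pair_self a
  have := C8.R.pair_self b
  have := C8.R.pair_self c
  omega

theorem entry {a b c : Rt} (h : Sum2 a b c) :
    ∃ e : ℤ, (e = 1 ∨ e = -1) ∧ chevE8.chainEntry a b = [((c : ℕ), e)] := by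
  have t := allLt_sound (allLt_sound H16.E82Xact.tab a a.2) b b.2
  have e : dec (codeG 12 4096 rowsE8 a (8 + b)) = chevE8.chainEntry a b :=
    H37.tabE8.link.entry a.2 b
  have p : H54.O84.pr a b = -1 := (pe a b).symm.trans (pair_sum h)
  rw [e] at t
  have key : ∀ k x, chevE8.chainEntry a b = [(k, x)] → k = c := fun k x hk => by
    obtain ⟨k1, k2⟩ := C8.chainRoot_spec a.2 b.2 (i := 0) (k := k)
      (by rw [ChevalleyDatum.chainRoot, hk]; rfl)
    have k3 : C8.R.rc ⟨k, k1⟩ = C8.R.rc a + C8.R.rc b := by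
      simpa using C8.rc_of_cartan (k := ⟨k, k1⟩) (r := a) (s := b) (a := 1) (b := 1)
        (by simpa using k2)
    exact congrArg Fin.val (C8.R.rc_inj (k3.trans (show C8.R.rc c = _ from h).symm))
  generalize chevE8.chainEntry a b = L at t key ⊢
  rcases L with _ | ⟨x, _ | ⟨y, L⟩⟩
  · have : ieq (H54.O84.pr a b) (-1) = true := ieq_iff.2 p
    simp [H16.E82Xact.chk, this] at t
  · refine ⟨x.2, ?_, by rw [← key x.1 x.2 rfl]⟩
    rcases Bool.or_eq_true_iff.1 t with q | q
    · exact .inl (ieq_iff.1 q)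
    · exact .inr (ieq_iff.1 q)
  · exact absurd t Bool.false_ne_true

theorem cf_eq {a b c : Rt} (h : Sum2 a b c) :
    H80.FvEnt.cf C8 a b c = 1 ∨ H80.FvEnt.cf C8 a b c = -1 := by
  obtain ⟨e, he, hc⟩ := entry h
  have p := pair_sum h
  have h1 : b ≠ a := fun q => by
    rw [q, C8.R.pair_self] at p
    omega
  have h2 : b ≠ C8.R.neg a := fun q => by
    rw [q, C8.R.pair_neg_right, C8.R.pair_self] at p
    omega
  have : H80.FvEnt.cf C8 a b c = e := by
    rw [H80.FvEnt.cf, if_neg (not_or.2 ⟨h1, h2⟩), ChevalleyDatum.chainCoeff,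
      filter_key_eq _ (C8.V.basic.keys a a.2)]
    rw [ChevalleyDatum.chainEntry] at hc
    cases hf : (chevE8.chain.getD a #[]).toList.find? (fun e => decide (e.1 = (b : ℕ))) with
    | none => rw [hf] at hc; exact absurd hc (by simp)
    | some x =>
      rw [hf] at hc
      have hc' : x.2.toList = [((c : ℕ), e)] := hc
      simp only [Option.toList_some, List.flatMap_cons, List.flatMap_nil, List.append_nil, hc']
      simp
  rw [this]
  exact he

theorem tr {P : Rt → Rt → Prop} (h : ∀ (i : Fin chevE8.rank) s, P (C8.R.simple i) s)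
    (c : ∀ w ∈ C8.R.W, ∀ r s, P r s → P (w r) (w s)) (r s : Rt) : P r s := by
  obtain ⟨w, hw, i, rfl⟩ := C8.R.exists_W_simple r
  obtain ⟨s, rfl⟩ := w.surjective s
  exact c w hw _ _ (h i s)

/-- The table for one root. -/
abbrev Tb (a : ℕ) : Prop := ∀ s < 240, H54.O84.pr a s = -1 →
  ∃ u < 240, H54.O84.pr u a = 0 ∧ H54.O84.pr u s = 1

theorem tb0 : Tb 162 := by decide +kernel
theorem tb1 : Tb 141 := by decide +kernel
theorem tb2 : Tb 135 := by decide +kernel
theorem tb3 : Tb 130 := by decide +kernel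
theorem tb4 : Tb 126 := by decide +kernel
theorem tb5 : Tb 123 := by decide +kernel
theorem tb6 : Tb 121 := by decide +kernel
theorem tb7 : Tb 120 := by decide +kernel

theorem tab (i : ℕ) (hi : i < 8) : Tb (chevE8.simple i) := by
  have : ∀ i < 8, chevE8.simple i ∈ [162, 141, 135, 130, 126, 123, 121, 120] := by decide +kernel
  have := this i hi
  generalize chevE8.simple i = a at this
  simp only [List.mem_cons, List.not_mem_nil, or_false] at this
  rcases this with rfl | rfl | rfl | rfl | rfl | rfl | rfl | rfl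
  exacts [tb0, tb1, tb2, tb3, tb4, tb5, tb6, tb7]

theorem key (r s : Rt) : C8.R.pair r s = -1 → ∃ u, C8.R.pair u r = 0 ∧ C8.R.pair u s = 1 := by
  refine tr (P := fun r s => C8.R.pair r s = -1 → ∃ u, C8.R.pair u r = 0 ∧ C8.R.pair u s = 1)
    (fun i s h => ?_) (fun w hw r s h h' => ?_) r s
  · have v : ((C8.R.simple i : Rt) : ℕ) = chevE8.simple i := C8.simple_val _
    have t := tab i i.2 s s.2
    rw [← v] at t
    obtain ⟨u, hu, h1⟩ := t ((pe _ _).symm.trans h)
    refine ⟨⟨u, hu⟩, ?_⟩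
    rw [pe, pe]
    exact h1
  · rw [C8.R.pair_W hw] at h'
    obtain ⟨u, hu⟩ := h h'
    refine ⟨w u, ?_⟩
    rwa [C8.R.pair_W hw, C8.R.pair_W hw]

theorem evc (u : Rt) : ∃ h ∈ Cart, ∀ r, al r h = (C8.R.pair u r : K) :=
  ⟨Sum.elim (fun i => (C8.R.co u i : K)) 0, fun _ => rfl, fun r => by
    simp only [al, Sum.elim_inl, H40.RS.pair_def, C8.wt_eq]
    push_cast; rfl⟩

theorem cf : CfStmt := by
  intro a b c h
  have p := pair_sum h
  refine ⟨⟨(H80.FvEnt.cf C8 a b c : K), ?_, fun t v => ?_⟩, ?_⟩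
  · rcases cf_eq h with q | q <;> rw [q] <;> simp
  · obtain ⟨e1, e2⟩ := H80.FvEnt.ent C8 H80.FvEnt.short8
    have hca : c ≠ a := fun q => by
      have e : C8.R.pair a c = C8.R.pair a a + C8.R.pair a b := by
        simp only [H40.RS.pair, show C8.R.rc c = _ from h, map_add]
      rw [q] at e
      omega
    rw [act_apply, xg_eq, H80.FvEnt.xR_eq, (e2 K a t v).2 c, if_neg hca, add_zero,
      Finset.sum_eq_single b]
    · intro s _ hs
      have : H80.FvEnt.cf C8 a s c = 0 := by
        by_contra h0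
        exact hs (C8.R.rc_inj (add_left_cancel ((e1 a s c h0).symm.trans h)))
      rw [this, Int.cast_zero, zero_mul, zero_mul]
    · intro q
      exact absurd (Finset.mem_univ b) q
  · obtain ⟨u, h1, h2⟩ := key a b p
    obtain ⟨x, hx, e⟩ := evc u
    exact ⟨x, hx, by rw [e, h1, Int.cast_zero], by rw [e, h2, Int.cast_one]; exact one_ne_zero⟩

end Cfsg.Agent.H7.L81Cf
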