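import Cfsg.Agent.H92.RcB
import Cfsg.Agent.H52.FStar
import Cfsg.Agent.H86.NPC
import Cfsg.Agent.H8.Residual
import Cfsg.Agent.S0028
import Cfsg.Agent.S3861

/-! Real class sizes with equal 2-part (S3860): a normal component. -/

set_option autoImplicit false

namespace Cfsg.Agent.H7.RcC

open Subgroup Cfsg Cfsg.Agent.H92 Cfsg.Agent.H92.RC Cfsg.Agent.H98
open scoped commutatorElement

variable {G : Type*} [Group G]

theorem iter {y b q : G} (h : y * b * y⁻¹ = q * b) (hc : Commute q y) (n : ℕ) :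
    y ^ n * b * (y ^ n)⁻¹ = q ^ n * b := by
  induction n with
  | zero => simp
  | succ n ih =>
    calc y ^ (n + 1) * b * (y ^ (n + 1))⁻¹ = y * (y ^ n * b * (y ^ n)⁻¹) * y⁻¹ := by
          rw [pow_succ']; group
      _ = y * q ^ n * y⁻¹ * (y * b * y⁻¹) := by rw [ih]; group
      _ = q ^ (n + 1) * b := by
          rw [cj_of_comm (hc.pow_left n).symm, h, pow_succ, mul_assoc]

variable [Finite G] {c : ℕ}

theorem step (h : Hyp G c) {Q V : Subgroup G} [V.Normal] (hV : IsPGroup 2 V) (hQ : Nat.card Q = c)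
    (h2 : IsPGroup 2 Q) (hZ : center G ≤ Q) {u b : G} (hu : u ∈ normalizer (Q : Set G))
    (uu : u * u ∈ Q) (hb : b ∈ V) (hc : ∀ q ∈ Q, Commute q b) :
    ∃ q ∈ Q, u * b * u⁻¹ = q * b := by
  have h1 : b * (u * b⁻¹ * u⁻¹) ∈ Q := by
    refine h.mem_of_real hQ h2 hZ (two_of_mem hV (mul_mem hb
      (Subgroup.Normal.conj_mem inferInstance _ (inv_mem hb) u))) ⟨u, ?_⟩ fun q hq => ?_
    · unfold RC.Inv
      calc u * (b * (u * b⁻¹ * u⁻¹)) * u⁻¹ = u * b * u⁻¹ * (u * u * b⁻¹ * (u * u)⁻¹) := by group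
        _ = _ := by rw [cj_of_comm (hc _ uu).inv_right]; group
    · refine (hc q hq).mul_right ?_
      have h3 := comm_conj (hc _ (conj_mem_of_normalizer (inv_mem hu) hq)).inv_right u
      have h4 : u * (u⁻¹ * q * u⁻¹⁻¹) * u⁻¹ = q := by group
      rwa [h4] at h3
  exact ⟨_, inv_mem h1, by group⟩

/-- a real element of odd order centralises every normal `2`-subgroup -/
theorem f4 (h : Hyp G c) {V : Subgroup G} [V.Normal] (hV : IsPGroup 2 V) {x : G}
    (ho : Odd (orderOf x)) (hx : x ≠ 1) (hr : Re x) : x ∈ centralizer (V : Set G) := by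
  obtain ⟨u0, hu0⟩ := hr
  obtain ⟨P, f, -⟩ := exists_fr ho hx hu0 (R := ⊥) IsPGroup.of_bot bot_le
  obtain ⟨-, -, u, uP, hu⟩ := h.card_Cs f.re f.sq f.syl
  have xQ : ∀ q ∈ P ⊓ Ce[x], Commute q x := fun q hq => mem_C.1 hq.2
  have xN : x ∈ normalizer ((P ⊓ Ce[x] : Subgroup G) : Set G) :=
    mem_normalizer_of fun q hq => by rwa [cj_of_comm (xQ q hq).symm]
  have uu : u * u ∈ P ⊓ Ce[x] := ⟨mul_mem uP uP, mem_C.2 (hu.mul_inv hu)⟩
  have key := S0028.result 2 (P ⊓ Ce[x]) (zpowers x) V f.two0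
    (by rw [Nat.card_zpowers]; exact Nat.coprime_two_right.2 ho) hV
    (fun q hq => mem_centralizer_iff.2 fun y hy => by
      obtain ⟨n, rfl⟩ := mem_zpowers_iff.1 hy
      exact ((xQ q hq).zpow_right n).symm.eq)
    le_normalizer_of_normal le_normalizer_of_normal ?_
  · exact key (mem_zpowers x)
  intro b hb
  have hc : ∀ q ∈ P ⊓ Ce[x], Commute q b := fun q hq => mem_centralizer_iff.1 hb.2 q hq
  obtain ⟨q1, hq1, e1⟩ := step h hV (h.card0 f) f.two0 (h.center_le0 f)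
    (f.norm0 (inv_mem uP)) (by rw [← mul_inv_rev]; exact inv_mem uu) hb.1 hc
  have n2 : x * u * x⁻¹ ∈ normalizer ((P ⊓ Ce[x] : Subgroup G) : Set G) :=
    mul_mem (mul_mem xN (f.norm0 uP)) (inv_mem xN)
  obtain ⟨q2, hq2, e2⟩ := step h hV (h.card0 f) f.two0 (h.center_le0 f) n2 (by
    have : x * u * x⁻¹ * (x * u * x⁻¹) = x * (u * u) * x⁻¹ := by group
    rw [this]
    exact conj_mem_of_normalizer xN uu) hb.1 hc
  have e3 : x * x = x * u * x⁻¹ * u⁻¹ := by
    have h1 := hu.inv_right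
    unfold RC.Inv at h1
    rw [inv_inv] at h1
    calc x * x = x * (u * x⁻¹ * u⁻¹) := by rw [h1]
      _ = _ := by group
  have hq : x * u * x⁻¹ * q1 * (x * u * x⁻¹)⁻¹ * q2 ∈ P ⊓ Ce[x] :=
    mul_mem (conj_mem_of_normalizer n2 hq1) hq2
  have e4 : x * x * b * (x * x)⁻¹ = x * u * x⁻¹ * q1 * (x * u * x⁻¹)⁻¹ * q2 * b := by
    calc x * x * b * (x * x)⁻¹ = x * u * x⁻¹ * (u⁻¹ * b * u⁻¹⁻¹) * (x * u * x⁻¹)⁻¹ := by
          rw [e3]; group
      _ = x * u * x⁻¹ * q1 * (x * u * x⁻¹)⁻¹ * (x * u * x⁻¹ * b * (x * u * x⁻¹)⁻¹) := by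
          rw [e1]; group
      _ = _ := by rw [e2]; group
  generalize x * u * x⁻¹ * q1 * (x * u * x⁻¹)⁻¹ * q2 = q at hq e4
  have e5 := iter e4 ((xQ q hq).mul_right (xQ q hq)) (orderOf x)
  rw [(Commute.refl x).mul_pow, pow_orderOf_eq_one, mul_one, one_mul, inv_one, mul_one] at e5
  have e6 : q ^ orderOf x = 1 := mul_right_cancel (b := b) (by rw [← e5, one_mul])
  have e7 : q = 1 := (two_of_mem f.two0 hq).eq_one (ho.of_dvd_nat (orderOf_dvd_of_pow_eq_one e6))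
  rw [e7, one_mul] at e4
  obtain ⟨n, hn⟩ := exists_sqrt ho
  have e8 : Commute x b := by
    rw [← hn, ← (Commute.refl x).mul_pow]
    exact (comm_of_cj e4).pow_left n
  refine mem_centralizer_iff.2 fun y hy => ?_
  obtain ⟨m, rfl⟩ := mem_zpowers_iff.1 hy
  exact (e8.zpow_left m).eq

theorem rccomp {G : Type*} [Group G] [Finite G] {c : ℕ} (h : H92.RC.Hyp G c)
    (hO : Cfsg.pPrimeCore 2 G = ⊥) {x : G} (ho : Odd (orderOf x)) (hx : x ≠ 1)
    (hr : H92.RC.Re x) : ∃ L : Subgroup G, L.Normal ∧ Cfsg.IsComponent L := by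
  haveI : (pCore 2 G).Characteristic := H52.pCore_characteristic
  have h1 := f4 h (H52.pCore_isPGroup (p := 2) (G := G)) ho hx hr
  obtain ⟨L, hL⟩ : ∃ L : Subgroup G, IsComponent L := by
    by_contra hn
    have h2 : layer G = ⊥ := sSup_eq_bot.2 fun K hK => (hn ⟨K, hK⟩).elim
    have h3 := H52.fstar_eq_pCore_iff_centralizer_le.1 (H52.fstar_eq_pCore_iff.2 ⟨h2, hO⟩) h1
    exact hx ((two_of_mem H52.pCore_isPGroup h3).eq_one ho)
  refine ⟨L, normalizer_eq_top_iff.1 (eq_top_iff.2 fun g _ => ?_), hL⟩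
  refine (H52.IsComponent.mem_normalizer_or_commutator_conj_eq_bot hL g).resolve_right fun hc => ?_
  have cm : ∀ a ∈ L, ∀ b ∈ L, Commute a (g * b * g⁻¹) := fun a ha b hb => by
    have := commutator_mem_commutator ha (mem_map_of_mem (MulAut.conj g).toMonoidHom hb)
    rw [hc, mem_bot] at this
    exact commutatorElement_eq_one_iff_commute.1 this
  have npc : ¬ HasNormalPComplement 2 L := fun hn =>
    H86.not_dvd_card_of_perfect_of_npc hL.2.1 hn
      (H52.IsComponent.dvd_card_of_pPrimeCore_eq_bot hO hL)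
  obtain ⟨P⟩ : Nonempty (Sylow 2 L) := inferInstance
  obtain ⟨x1, a1, a2, a3⟩ : ∃ x1 : L, x1 ≠ 1 ∧ Odd (orderOf x1) ∧ IsConj x1 x1⁻¹ := by
    by_contra hn
    haveI : (P : Subgroup L).Normal :=
      (S3861.result P).1 fun y b1 b2 b3 => hn ⟨y, b1, b2, b3⟩
    rcases H52.IsQuasisimple.normal_eq_top_or_le_center hL.2 (P : Subgroup L) with e | e
    · refine H52.IsQuasisimple.not_isPGroup (p := 2) hL.2 ?_
      have := P.isPGroup'
      rw [e] at this
      exact this.of_equiv topEquiv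
    · exact npc (H8.hasNormalPComplement_of_normalizer_le_centralizer P fun y _ =>
        mem_centralizer_iff.2 fun z hz => (mem_center_iff.1 (e hz) y).symm)
  obtain ⟨w, b1, b2, b3⟩ : ∃ w : L, (∃ j : ℕ, orderOf w = 2 ^ j) ∧ IsConj w w⁻¹ ∧
      w ∉ center L := by
    by_contra hn
    exact npc (S3862.result fun y b1 b2 => by
      by_contra b3
      exact hn ⟨y, b1, b2, b3⟩)
  obtain ⟨u, hu⟩ := isConj_iff.1 a3
  obtain ⟨s, hs⟩ := isConj_iff.1 b2
  have hu' : RC.Inv (u : G) x1 := congrArg Subtype.val hu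
  have hs' : RC.Inv (s : G) w := congrArg Subtype.val hs
  have hw : Two (w : G) := two_of_orderOf (by rwa [orderOf_coe])
  have := h.f1 (x := x1) (w := g * w * g⁻¹) (u := u * (g * s * g⁻¹)) (u' := u)
    (by rwa [orderOf_coe]) (fun e => a1 (Subtype.ext e)) (hw.conj g) (cm _ x1.2 _ w.2)
    (hu'.mul_comm (cm _ x1.2 _ s.2).symm) ((hs'.conj g).comm_mul (cm _ u.2 _ w.2)) hu'
    (cm _ u.2 _ w.2)
  rw [conj_mem_center_iff] at this
  exact b3 (mem_center_iff.2 fun y => Subtype.ext (mem_center_iff.1 this y))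

end Cfsg.Agent.H7.RcC
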