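import Cfsg.Agent.H54.RfKitP

/-! # RF-PRE: the family `p` before the vanishing of the cocycle -/

set_option autoImplicit false
set_option linter.unusedSimpArgs false
set_option linter.unnecessarySeqFocus false
set_option linter.unusedSectionVars false

namespace Cfsg.Agent.H7.RfPre

open Cfsg Cfsg.Agent.H15.O8 Cfsg.Agent.H39 Cfsg.Agent.H36.O8T Cfsg.Agent.H54.RF Subgroup
open scoped commutatorElement

universe u v

section Grp

variable {G : Type*} [Group G]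

theorem comm_t {a b t v w : G} (ha : a * t * a⁻¹ = t * v) (hb : b * t * b⁻¹ = t * w)
    (av : Commute a v) (aw : Commute a w) (bv : Commute b v) (bw : Commute b w)
    (vw : Commute v w) : Commute ⁅a, b⁆ t := by
  have e1 : a * b * t * (a * b)⁻¹ = t * (v * w) := by
    calc _ = a * (b * t * b⁻¹) * a⁻¹ := by group
      _ = a * t * a⁻¹ * (a * w * a⁻¹) := by rw [hb]; group
      _ = _ := by rw [ha, conj_eq_iff.2 aw, mul_assoc]
  have e2 : b * a * t * (b * a)⁻¹ = t * (v * w) := by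
    calc _ = b * (a * t * a⁻¹) * b⁻¹ := by group
      _ = b * t * b⁻¹ * (b * v * b⁻¹) := by rw [ha]; group
      _ = _ := by rw [hb, conj_eq_iff.2 bv, mul_assoc, vw.eq]
  have c1 : a * b * (v * w)⁻¹ * (a * b)⁻¹ = (v * w)⁻¹ :=
    conj_eq_iff.2 ((av.mul_right aw).mul_left (bv.mul_right bw)).inv_right
  have c2 : (b * a)⁻¹ * (v * w)⁻¹ * (b * a)⁻¹⁻¹ = (v * w)⁻¹ :=
    conj_eq_iff.2 ((bv.mul_right bw).mul_left (av.mul_right aw)).inv_right.inv_left
  have e3 : (b * a)⁻¹ * t * (b * a) = t * (v * w)⁻¹ := by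
    calc _ = (b * a)⁻¹ * (t * (v * w) * (v * w)⁻¹) * (b * a) := by group
      _ = t * ((b * a)⁻¹ * (v * w)⁻¹ * (b * a)⁻¹⁻¹) := by rw [← e2]; group
      _ = _ := by rw [c2]
  rw [← conj_eq_iff]
  calc _ = a * b * ((b * a)⁻¹ * t * (b * a)) * (a * b)⁻¹ := by rw [commutatorElement_def]; group
    _ = a * b * t * (a * b)⁻¹ * (a * b * (v * w)⁻¹ * (a * b)⁻¹) := by rw [e3]; group
    _ = t := by rw [e1, c1]; group

theorem comm_y {a b y x : G} (h : a * y * a⁻¹ = y * x) (ax : Commute a x) (by' : Commute b y)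
    (bx : Commute b x) : Commute ⁅a, b⁆ y := by
  have e : a⁻¹ * y * a = y * x⁻¹ := by
    calc _ = a⁻¹ * (y * x * x⁻¹) * a := by group
      _ = y * (a⁻¹ * x⁻¹ * a⁻¹⁻¹) := by rw [← h]; group
      _ = _ := by rw [conj_eq_iff.2 ax.inv_left.inv_right]
  have c : b * (a⁻¹ * y * a) * b⁻¹ = a⁻¹ * y * a := by
    rw [e]; exact conj_eq_iff.2 (by'.mul_right bx.inv_right)
  have c' : b⁻¹ * y * b⁻¹⁻¹ = y := conj_eq_iff.2 by'.inv_left
  rw [← conj_eq_iff]
  calc _ = a * (b * (a⁻¹ * (b⁻¹ * y * b⁻¹⁻¹) * a) * b⁻¹) * a⁻¹ := by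
        rw [commutatorElement_def]; group
    _ = y := by rw [c', c]; group

theorem comm_c {a b y : G} (ha : Commute a y) (hb : Commute b y) : Commute ⁅a, b⁆ y :=
  ((ha.mul_left hb).mul_left ha.inv_left).mul_left hb.inv_left

theorem inv_comm {a b : G} (h : Commute (a * a) b) : a * ⁅a, b⁆ * a⁻¹ = ⁅a, b⁆⁻¹ := by
  calc _ = a * a * b * (a * a)⁻¹ * (a * b⁻¹ * a⁻¹) := by rw [commutatorElement_def]; group
    _ = _ := by rw [conj_eq_iff.2 h, commutatorElement_def]; group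

theorem comm_mul (a b c : G) : ⁅a * b, c⁆ = a * ⁅b, c⁆ * a⁻¹ * ⁅a, c⁆ := by
  simp only [commutatorElement_def]; group

end Grp

variable {K : Type v} [Field K] {T : Tits K} {G : Type u} [Group G] {M : FF T G} {t : G}

theorem x4_comm (a : K) (u : U T) : x4 T a * u = u * x4 T a := by ext <;> o8s <;> o8ring T

theorem x4φ (a : K) (u : U T) : Commute (M.φ (x4 T a)) (M.φ u) := (φ_comm M).2 (x4_comm a u)

theorem φx4 (a b : K) : M.φ (x4 T a) * M.φ (x4 T b) = M.φ (x4 T (a + b)) := by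
  rw [x4_add, map_mul]

variable (M t) in
/-- `g` moves `t` by `x4 s` and centralizes `Q₀`, the torus `H₄` and the elements of odd order. -/
structure Mv (g : G) (s : K) : Prop where
  mov : g * t * g⁻¹ = t * M.φ (x4 T s)
  cq : ∀ u ∈ Q T, u.b4 = 0 → Commute g (M.φ u)
  h4 : ∀ b, Commute g (M.h (1, b))
  odd : ∀ k, Od M t k → Commute g k

namespace Mv

variable {a b : G} {s s' : K}

theorem cz (ha : Mv M t a s) (z : K) : Commute a (M.φ (x4 T z)) := ha.cq _ ⟨rfl, rfl⟩ rfl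

theorem mul (ha : Mv M t a s) (hb : Mv M t b s') : Mv M t (a * b) (s + s') where
  mov := by
    calc _ = a * (b * t * b⁻¹) * a⁻¹ := by group
      _ = a * t * a⁻¹ * (a * M.φ (x4 T s') * a⁻¹) := by rw [hb.mov]; group
      _ = _ := by rw [ha.mov, conj_eq_iff.2 (ha.cz s'), mul_assoc, φx4]
  cq u hu h := (ha.cq u hu h).mul_left (hb.cq u hu h)
  h4 c := (ha.h4 c).mul_left (hb.h4 c)
  odd k hk := (ha.odd k hk).mul_left (hb.odd k hk)

theorem inv (ha : Mv M t a s) : Mv M t a⁻¹ s where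
  mov := by
    have e : M.φ (x4 T s) * M.φ (x4 T s) = 1 := by rw [φx4, add_self (T := T), x4_zero, map_one]
    calc _ = a⁻¹ * (t * M.φ (x4 T s) * M.φ (x4 T s)) * a⁻¹⁻¹ := by rw [mul_assoc t, e, mul_one]
      _ = t * (a⁻¹ * M.φ (x4 T s) * a⁻¹⁻¹) := by rw [← ha.mov]; group
      _ = _ := by rw [conj_eq_iff.2 (ha.cz s).inv_left]
  cq u hu h := (ha.cq u hu h).inv_left
  h4 c := (ha.h4 c).inv_left
  odd k hk := (ha.odd k hk).inv_left

theorem ct (ha : Mv M t a 0) : Commute a t := by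
  have := ha.mov
  rwa [x4_zero, map_one, mul_one, conj_eq_iff] at this

theorem tconj (ha : Mv M t a s) (c : Ctx M t) : t * a * t = M.φ (x4 T s) * a := c.tconj ha.mov

end Mv

theorem mv_one : Mv M t 1 0 :=
  ⟨by simp [x4_zero], fun _ _ _ => Commute.one_left _, fun _ => Commute.one_left _,
    fun _ _ => Commute.one_left _⟩

theorem mv_t (c : Ctx M t) : Mv M t t 0 :=
  ⟨by simp [x4_zero], fun u _ _ => (c.tφ u).symm, fun _ => (c.th _).symm, fun _ hk => hk.2.1.symm⟩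

/-- Squares of `a z tᵋ`. -/
theorem sq_t (c : Ctx M t) {a : G} {s z : K} (ha : Mv M t a s) (e : a * a = M.φ (x4 T z)) :
    a * t * (a * t) = M.φ (x4 T (z + s)) := by
  calc _ = a * (t * a * t) := by group
    _ = _ := by rw [ha.tconj c, ← (ha.cz s).eq, ← mul_assoc, e, φx4]

theorem sq_z {a : G} {z : K} (w : K) (ha : Commute a (M.φ (x4 T w))) (e : a * a = M.φ (x4 T z)) :
    a * M.φ (x4 T w) * (a * M.φ (x4 T w)) = M.φ (x4 T z) := by
  calc _ = a * (M.φ (x4 T w) * a) * M.φ (x4 T w) := by group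
    _ = a * a * (M.φ (x4 T w) * M.φ (x4 T w)) := by rw [← ha.eq]; group
    _ = _ := by rw [φx4, add_self (T := T), x4_zero, map_one, mul_one, e]

theorem kill (c : Ctx M t) {a o : G} {u u' : U T} (ho : Od M t o) (hc : Commute a o)
    (e : a * a = M.φ u) (e' : a * o * (a * o) = M.φ u') : o = 1 := by
  have e1 : o * o = M.φ (u⁻¹ * u') := by
    rw [map_mul, map_inv, ← e, ← e']
    have : a * o * (a * o) = a * a * (o * o) := by
      rw [mul_assoc, ← mul_assoc o, ← hc.eq]; group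
    rw [this]; group
  exact eq_one_of_odd_sq ho.2.2 (c.zl _ (e1 ▸ φX M _) (mul_mem ho.1 ho.1))

theorem t_ne (c : Ctx M t) (u : U T) : t ≠ M.φ u := fun e => c.t_not (e ▸ φX M u)

variable [Finite K] [Finite G] (h : Ctx2 M t)
include h

theorem star {g : G} (hg : Mv M t g 0) :
    ∃ z o, Od M t o ∧ o ∈ zpowers g ∧ Dec M t g (x4 T z) o := by
  obtain ⟨e, -, o, ho, hz, hd⟩ := h.cw hg.ct fun w hw => hg.cq w (W_le_Q hw) hw.2.2.2.2.1
  obtain ⟨a, a0, a1⟩ := H92.UL.exists_ne h.q2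
  have e1 := H92.UL.fix4 a0 a1 e (h.dec_h hd ho (hg.h4 _))
  have e2 := congrArg U.a2 (h.dec_φ hd ho (hg.cq (x1 T 1) ⟨rfl, rfl⟩ rfl))
  have e3 : e.b4 = 0 := by
    rw [e1] at e2
    o8s at e2
    exact e2
  rw [e3, y4_zero, one_mul] at e1
  exact ⟨e.a4, o, ho, hz, e1 ▸ hd⟩

theorem cmp {a b : G} {s z z' : K} (ha : Mv M t a s) (hb : Mv M t b s) (ea : a * a = M.φ (x4 T z))
    (eb : b * b = M.φ (x4 T z')) :
    ∃ w, b = a * M.φ (x4 T w) ∨ b = a * M.φ (x4 T w) * t := by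
  have := ha.inv.mul hb
  rw [add_self (T := T)] at this
  obtain ⟨w, o, ho, -, hd⟩ := star h this
  have e1 := sq_z w (ha.cz w) ea
  have hw : Mv M t (a * M.φ (x4 T w)) (s + 0) := ha.mul
    ⟨by simp [x4_zero, conj_eq_iff.2 (h.tφ _)], fun u _ _ => x4φ w u, 
      fun b => (conj_eq_iff.1 (by rw [M.hφ, tor_x4]; simp)).symm, fun k hk => (hk.φ _).symm⟩
  refine ⟨w, ?_⟩
  rcases hd with e | e
  · have e2 : b = a * M.φ (x4 T w) * o := by rw [mul_assoc, ← e]; group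
    rw [kill h.toCtx ho (hw.odd o ho) e1 (e2 ▸ eb), mul_one] at e2
    exact .inl e2
  · have e2 : b = a * M.φ (x4 T w) * t * o := by rw [mul_assoc, mul_assoc, ← mul_assoc (M.φ _), ← e]; group
    rw [kill h.toCtx ho ((hw.odd o ho).mul_left ho.2.1.symm) (sq_t h.toCtx hw e1) (e2 ▸ eb),
      mul_one] at e2
    exact .inr e2

theorem sq_two {a : G} {s : K} (ha : Mv M t a s) (s0 : s ≠ 0) (h2 : Two a) :
    ∃ z, a * a = M.φ (x4 T z) := by
  have := ha.mul ha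
  rw [add_self (T := T)] at this
  obtain ⟨w, o, ho, hz, hd⟩ := star h this
  obtain rfl : o = 1 := by
    obtain ⟨k, e⟩ := h2
    obtain ⟨n, rfl⟩ := hz
    refine eq_one_of_odd ho.2.2 ⟨k, ?_⟩
    rw [← zpow_natCast, ← zpow_mul, mul_comm, zpow_mul, zpow_natCast, ← sq, ← pow_mul, mul_comm,
      pow_mul, e, one_pow, one_zpow]
  refine ⟨w, ?_⟩
  rcases hd with e | e
  · rw [e, mul_one]
  · have c1 : Commute a (a * a) := (Commute.refl a).mul_right (Commute.refl a)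
    rw [e, mul_one] at c1
    have c2 : Commute a t := by simpa using (ha.cz w).inv_right.mul_right c1
    have := ha.mov
    rw [conj_eq_iff.2 c2, left_eq_mul] at this
    exact absurd (φ_eq_one M this) (x4_ne s0)

theorem sq_mul {a b : G} {s s' z z' : K} (ha : Mv M t a s) (hb : Mv M t b s') (s0 : s ≠ 0)
    (ea : a * a = M.φ (x4 T z)) (eb : b * b = M.φ (x4 T z')) :
    ∃ w, a * b * (a * b) = M.φ (x4 T w) := by
  have := ((ha.mul hb).mul ha.inv).mul hb.inv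
  rw [show s + s' + s + s' = 0 by have := T.charP; grind, ← commutatorElement_def] at this
  obtain ⟨w, o, ho, -, hd⟩ := star h this
  have e := h.di hd ho (ha.odd o ho) (ha.cz w) (sqV _ (by o8s)) ha.mov (x4_ne s0)
    (inv_comm (ea ▸ (hb.cz z).symm))
  refine ⟨w + z + z', ?_⟩
  calc _ = ⁅a, b⁆ * (b * (a * a)) * b := by rw [commutatorElement_def]; group
    _ = _ := by rw [e, ea, (hb.cz z).eq, ← φx4, ← φx4, ← eb]; group

omit h [Finite K] [Finite G]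

variable (M t) in
/-- The family before normalisation. -/
structure Pre0 (p : K → G) (c : K) : Prop where
  zero : p 0 = 1
  mv : ∀ a, Mv M t (p a) a
  cy4 : ∀ a u, p (T.θ a) * M.φ (y4 T (T.θ u)) * (p (T.θ a))⁻¹ =
    M.φ (y4 T (T.θ u) * x4 T (c * a * u))
  cx8 : ∀ a u, p (T.θ a) * M.φ (x8 T (T.θ u)) * (p (T.θ a))⁻¹ =
    M.φ (x8 T (T.θ u) * x6 T (c * a * u))
  nK : ∀ a, p a ∈ normalizer (M.cf.C : Set G)
  tor : ∀ (d : Kˣ × Kˣ) a, M.h d * p a * (M.h d)⁻¹ = p (d.1 * T.θ d.1 * a)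
  sq : ∀ a, ∃ z, p a * p a = M.φ (x4 T z)

open Classical in
/-- Multiplication by `t`. -/
noncomputable def flip (t : G) (p : K → G) (a : K) : G := if a = 0 then 1 else p a * t

theorem flip_ne {p : K → G} {a : K} (h : a ≠ 0) : flip t p a = p a * t := if_neg h

theorem flip_zero {p : K → G} : flip t p 0 = 1 := if_pos rfl

namespace Pre0

variable {p : K → G} {c : K} (P : Pre0 M t p c)
include P

theorem flp (C : Ctx M t) : Pre0 M t (flip t p) c := by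
  have k : ∀ a (u : U T), flip t p a * M.φ u * (flip t p a)⁻¹ = p a * M.φ u * (p a)⁻¹ := by
    intro a u
    by_cases h : a = 0
    · rw [h, flip_zero, P.zero]
    · rw [flip_ne h]
      calc _ = p a * (t * M.φ u * t⁻¹) * (p a)⁻¹ := by group
        _ = _ := by rw [conj_eq_iff.2 (C.tφ u).symm]
  refine ⟨flip_zero, fun a => ?_, fun a u => by rw [k, P.cy4], fun a u => by rw [k, P.cx8],
    fun a => ?_, fun d a => ?_, fun a => ?_⟩ <;> by_cases h : a = 0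
  · rw [h, flip_zero]; exact mv_one
  · rw [flip_ne h]; simpa using (P.mv a).mul (mv_t C)
  · rw [h, flip_zero]; exact one_mem _
  · rw [flip_ne h]
    exact mul_mem (P.nK a) (centralizer_le_normalizer _ fun k hk => C.tX (KX M hk))
  · simp [h, flip_zero]
  · rw [flip_ne h, flip_ne (by simp [h, T.θ_ne_zero]), ← P.tor]
    calc _ = M.h d * p a * (M.h d)⁻¹ * (M.h d * t * (M.h d)⁻¹) := by group
      _ = _ := by rw [conj_eq_iff.2 (C.th d)]
  · exact ⟨0, by rw [h, flip_zero, x4_zero, map_one, one_mul]⟩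
  · obtain ⟨z, e⟩ := P.sq a
    exact ⟨_, by rw [flip_ne h, sq_t C (P.mv a) e]⟩

theorem q_mov (C : Ctx M t) (a : K) :
    P6 M p a * t * (P6 M p a)⁻¹ = t * M.φ (x6 T a) := by
  have := rel_conj M.n1n1 (P.mv a).mov
  rwa [conj_mul' M.n1n1 t, conj_fix' M.n1n1 C.tn1.symm, n1_x4] at this

theorem q_c (a : K) {u : U T} (hu : u ∈ E T) (h1 : u.b2 = 0) (h2 : u.a2 = 0) (h3 : u.b6 = 0) :
    Commute (P6 M p a) (M.φ u) := by
  have := comm_conj' M.n1n1 ((P.mv a).cq (w1 u) ⟨h1, h2⟩ (by simp [w1, h1, h3]))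
  rwa [M.n1φ _ (w1_mem u), w1_w1 hu] at this

theorem q_y6 (a u : K) : P6 M p (T.θ a) * M.φ (y6 T (T.θ u)) * (P6 M p (T.θ a))⁻¹ =
    M.φ (y6 T (T.θ u)) * M.φ (x6 T (c * a * u)) := by
  have := rel_conj M.n1n1 (P.cy4 a u)
  rwa [map_mul, conj_mul' M.n1n1 (M.φ _), n1_y4, n1_x4] at this

theorem q_tor (d : Kˣ × Kˣ) (a : K) :
    M.h d * P6 M p a * (M.h d)⁻¹ = P6 M p (d.2 * T.θ d.2 * a) := by
  have := rel_conj M.n1n1 (P.tor (d.2, d.1) a)
  rwa [n1_h] at this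

variable [Finite K] [Finite G] (h : Ctx2 M t)
include h

theorem add0 (a b : K) : ∃ z, p a * p b = p (a + b) * M.φ (x4 T z) ∨
    p a * p b = p (a + b) * M.φ (x4 T z) * t := by
  by_cases h0 : a = 0
  · exact ⟨0, .inl (by rw [h0, P.zero, zero_add, x4_zero, map_one, one_mul, mul_one])⟩
  obtain ⟨z, e⟩ := P.sq a
  obtain ⟨z', e'⟩ := P.sq b
  obtain ⟨z'', e''⟩ := P.sq (a + b)
  obtain ⟨w, ew⟩ := sq_mul h (P.mv a) (P.mv b) h0 e e'
  exact cmp h (P.mv (a + b)) ((P.mv a).mul (P.mv b)) e'' ew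

theorem kappa (a b : K) : ∃ e ∈ R T, ⁅p a, P6 M p b⁆ = M.φ e := by
  by_cases h0 : a = 0
  · exact ⟨1, one_mem _, by rw [h0, P.zero, commutatorElement_one_left, map_one]⟩
  have cY : ∀ u ∈ Y T, Commute ⁅p a, P6 M p b⁆ (M.φ u) := fun u hu =>
    comm_c ((P.mv a).cq u ⟨hu.2.2.2.2.2.1, hu.2.2.2.2.2.2⟩ hu.2.2.2.1)
      (P.q_c b hu.1 hu.2.1 hu.2.2.1 hu.2.2.2.2.1)
  have c4 : Commute ⁅p a, P6 M p b⁆ (M.φ (y4 T 1)) := by
    obtain ⟨a, rfl⟩ := θ_surj (T := T) a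
    have := P.cy4 a 1
    rw [map_one, map_mul] at this
    exact comm_y this ((P.mv _).cz _) (P.q_c b rfl rfl rfl rfl) (P.q_c b rfl rfl rfl rfl)
  have c6 : Commute ⁅p a, P6 M p b⁆ (M.φ (y6 T 1)) := by
    obtain ⟨b, rfl⟩ := θ_surj (T := T) b
    have := P.q_y6 b 1
    rw [map_one] at this
    rw [← commutatorElement_inv]
    exact (comm_y this (P.q_c _ rfl rfl rfl rfl) ((P.mv a).cq _ ⟨rfl, rfl⟩ rfl)
      ((P.mv a).cq _ ⟨rfl, rfl⟩ rfl)).inv_left
  obtain ⟨e, -, o, ho, -, hd⟩ := h.cw (comm_t (P.mv a).mov (P.q_mov h.toCtx b) ((P.mv a).cz _)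
    ((P.mv a).cq _ ⟨rfl, rfl⟩ rfl) (P.q_c b rfl rfl rfl rfl) (P.q_c b rfl rfl rfl rfl) (x4φ _ _))
    fun w hw => cY w (R_le_Y (W_le_R hw))
  have hY := H54.RF.cY e fun d hd' => h.dec_φ hd ho (cY d hd')
  have e4 := congrArg U.a6 (h.dec_φ hd ho c4)
  have e6 := congrArg U.a4 (h.dec_φ hd ho c6)
  obtain ⟨k1, k2, k3, k4, k5, k6, k7⟩ := hY
  o8s at e4 e6
  have hR : e ∈ R T := ⟨k1, k2, k3, by linear_combination -e6, k4, k5, by linear_combination e4,
    k6, k7⟩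
  obtain ⟨z, ez⟩ := P.sq a
  exact ⟨e, hR, h.di hd ho ((P.mv a).odd o ho) ((P.mv a).cq e ⟨k6, k7⟩ k4) (sqV e (R_le_V hR))
    (P.mv a).mov (x4_ne h0) (inv_comm (ez ▸ (P.q_c b rfl rfl rfl rfl).symm))⟩

theorem alt : ((∀ a b, Commute (p a) (P6 M p b)) ∧
      ∀ a b, ∃ z, p a * p b = p (a + b) * M.φ (x4 T z)) ∨
    ∀ a b, a ≠ 0 → b ≠ 0 → a + b ≠ 0 → ∃ z, p a * p b = p (a + b) * M.φ (x4 T z) * t := by
  choose κ hR hκ using P.kappa h
  have ch := T.charP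
  have tr : ∀ (d : Kˣ × Kˣ), κ (d.1 * T.θ d.1) (d.2 * T.θ d.2) = H15.O8.tor T d (κ 1 1) := by
    intro d
    apply M.inj
    rw [← hκ, ← M.hφ, ← hκ, conjugate_commutatorElement, P.tor, P.q_tor, mul_one, mul_one]
  have hm : ∀ a b : K, a ≠ 0 → b ≠ 0 → (κ (a * T.θ a) (b * T.θ b)).a4 = a * T.θ a * (κ 1 1).a4 ∧
      (κ (a * T.θ a) (b * T.θ b)).a5 = a * b * (κ 1 1).a5 ∧
      (κ (a * T.θ a) (b * T.θ b)).a6 = b * T.θ b * (κ 1 1).a6 := fun a b ha hb => by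
    have := tr (Units.mk0 a ha, Units.mk0 b hb)
    simp only [Units.val_mk0] at this
    rw [this]
    exact ⟨rfl, rfl, rfl⟩
  have h6 : ∀ a : K, a ≠ 0 → (κ a 1).a6 = (κ 1 1).a6 := fun a ha => by
    obtain ⟨a, rfl⟩ := nrm_surj (T := T) a
    simpa using (hm a 1 (left_ne_zero_of_mul ha) one_ne_zero).2.2
  have cR : ∀ a, ∀ e ∈ R T, Commute (p a) (M.φ e) := fun a e he =>
    (P.mv a).cq e ⟨he.2.2.2.2.2.2.2.1, he.2.2.2.2.2.2.2.2⟩ he.2.2.2.2.1
  have l1 : ∀ a b, ⁅p a * p b, P6 M p 1⁆ = M.φ (κ b 1 * κ a 1) := fun a b => by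
    rw [comm_mul, hκ, hκ, conj_eq_iff.2 (cR a _ (hR _ _)), map_mul]
  have cz : ∀ z, ⁅M.φ (x4 T z), P6 M p 1⁆ = 1 := fun z =>
    (P.q_c 1 (u := x4 T z) rfl rfl rfl rfl).symm.commutator_eq
  have l2 : ∀ a z, ⁅p a * M.φ (x4 T z), P6 M p 1⁆ = M.φ (κ a 1) := fun a z => by
    rw [comm_mul, cz, hκ]; group
  have ct : ⁅t, P6 M p 1⁆ = M.φ (x6 T 1) := by
    calc _ = t * (P6 M p 1 * t⁻¹ * (P6 M p 1)⁻¹) := by rw [commutatorElement_def]; group
      _ = _ := by rw [h.t_inv, P.q_mov h.toCtx, ← mul_assoc, h.tt, one_mul]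
  have l3 : ∀ a z, ⁅p a * M.φ (x4 T z) * t, P6 M p 1⁆ = M.φ (x6 T 1 * κ a 1) := fun a z => by
    rw [comm_mul, l2, ct, conj_eq_iff.2 ((cR a _ (by o8s)).mul_left (x4φ _ _)), map_mul]
  have co : ∀ e ∈ R T, ∀ e' ∈ R T, (e * e').a5 = e'.a5 + e.a5 ∧ (e * e').a6 = e'.a6 + e.a6 := by
    rintro e ⟨k1, k2, k3, k4, k5, k6, k7, k8, k9⟩ e' ⟨j1, j2, j3, j4, j5, j6, j7, j8, j9⟩
    o8s
    simp [*]
  have a5 : ∀ a b, (κ a 1).a5 + (κ b 1).a5 = (κ (a + b) 1).a5 := fun a b => by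
    rw [← (co _ (hR b 1) _ (hR a 1)).1]
    obtain ⟨z, e | e⟩ := P.add0 h a b
    · rw [M.inj ((l1 a b).symm.trans (e ▸ l2 _ z))]
    · rw [M.inj ((l1 a b).symm.trans (e ▸ l3 _ z)), (co _ (by o8s) _ (hR _ _)).1]
      exact add_zero _
  have k5 : (κ 1 1).a5 = 0 := by
    obtain ⟨a, b, d, a0, b0, d0, e, ne⟩ := Ninv_not_add (T := T) h.q2
    have e1 := a5 (a * T.θ a) (b * T.θ b)
    have ea := (hm a 1 a0 one_ne_zero).2.1
    have eb := (hm b 1 b0 one_ne_zero).2.1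
    have ed := (hm d 1 d0 one_ne_zero).2.1
    simp only [map_one, mul_one] at ea eb ed
    rw [← e, ea, eb, ed] at e1
    exact (mul_eq_zero.1 (show (d - (a + b)) * (κ 1 1).a5 = 0 by
      linear_combination -e1)).resolve_left (sub_ne_zero.2 ne)
  have k46 : (κ 1 1).a4 = (κ 1 1).a6 := by
    have e : w1 (κ 1 1) = (κ 1 1)⁻¹ := by
      apply M.inj
      rw [← M.n1φ _ (hR 1 1).1, map_inv, ← hκ, conj_comm' M.n1n1, n1_P6, commutatorElement_inv]
      rfl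
    have e1 := congrArg U.a6 e
    obtain ⟨k1, k2, k3, k4, k5, k6, k7, k8, k9⟩ := hR 1 1
    o8s at e1
    simpa [*] using e1
  by_cases k6 : (κ 1 1).a6 = 0
  · left
    have k1 : ∀ a b, κ a b = 1 := fun a b => by
      by_cases a0 : a = 0
      · exact φ_eq_one M (by rw [← hκ, a0, P.zero, commutatorElement_one_left])
      by_cases b0 : b = 0
      · exact φ_eq_one M (by
          rw [← hκ, b0, P6, P.zero, mul_one, M.n1n1, commutatorElement_one_right])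
      obtain ⟨a, rfl⟩ := nrm_surj (T := T) a
      obtain ⟨b, rfl⟩ := nrm_surj (T := T) b
      obtain ⟨e4, e5, e6⟩ := hm a b (left_ne_zero_of_mul a0) (left_ne_zero_of_mul b0)
      rw [eq_R (hR _ _), e4, e5, e6, k46, k5, k6]
      simp [x4_zero, x5_zero, x6_zero]
    refine ⟨fun a b => commutatorElement_eq_one_iff_commute.1 (by rw [hκ, k1, map_one]),
      fun a b => ?_⟩
    obtain ⟨z, e | e⟩ := P.add0 h a b
    · exact ⟨z, e⟩
    · have := congrArg U.a6 (M.inj ((l1 a b).symm.trans (e ▸ l3 _ z)))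
      simp only [k1, mul_one] at this
      exact absurd this.symm one_ne_zero
  · right
    intro a b a0 b0 ab0
    obtain ⟨z, e | e⟩ := P.add0 h a b
    · have := congrArg U.a6 (M.inj ((l1 a b).symm.trans (e ▸ l2 _ z)))
      rw [(co _ (hR b 1) _ (hR a 1)).2, h6 a a0, h6 b b0, h6 _ ab0] at this
      exact absurd (by linear_combination this) k6
    · exact ⟨z, e⟩

omit P in
theorem exists_pair : ∃ a : K, a ≠ 0 ∧ a + 1 ≠ 0 := by
  obtain ⟨a, h0, h1, -⟩ := N_not_add (T := T) h.q2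
  exact ⟨a, h0, h1⟩

theorem mv8 (a : K) : Mv M t (M.n8 * p a * M.n8) a where
  mov := by
    have := rel_conj M.n8n8 (P.mv a).mov
    rwa [conj_mul' M.n8n8 t, conj_fix' M.n8n8 h.tn8.symm, n8_x4] at this
  cq u hu h4 := by
    have := comm_conj' M.n8n8 ((P.mv a).cq (w8 u) (w8_mem u) h4)
    rwa [M.n8φ _ (w8_mem u), w8_w8 hu] at this
  h4 b := by
    have := comm_conj' M.n8n8 ((P.mv a).h4 (θu T 1 / b))
    rwa [n8_h M (1, b)] at this
  odd k hk := by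
    have := comm_conj' M.n8n8 ((P.mv a).odd k hk)
    rwa [conj_fix' M.n8n8 (hk.comm (n8X M))] at this

theorem n8 (add : ∀ a b, ∃ z, p a * p b = p (a + b) * M.φ (x4 T z)) (a : K) :
    ∃ z, M.n8 * p a * M.n8 = p a * M.φ (x4 T z) := by
  have c0 : ∀ a, ∃ z, M.n8 * p a * M.n8 = p a * M.φ (x4 T z) ∨
      M.n8 * p a * M.n8 = p a * M.φ (x4 T z) * t := fun a => by
    obtain ⟨z, e⟩ := P.sq a
    exact cmp h (P.mv a) (P.mv8 h a) e (z' := z) (by rw [← conj_mul' M.n8n8, e, n8_x4])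
  have c1 : ∀ (d : Kˣ) a, (∃ z, M.n8 * p a * M.n8 = p a * M.φ (x4 T z)) →
      ∃ z, M.n8 * p (d * a) * M.n8 = p (d * a) * M.φ (x4 T z) := by
    rintro d a ⟨z, e⟩
    obtain ⟨d, rfl⟩ := Nu_surj (T := T) d
    have e1 := rel_conj M.n8n8 (P.tor (d, θu T d / 1) a)
    rw [n8_h M (d, 1), e] at e1
    refine ⟨d * T.θ d * z, e1.symm.trans ?_⟩
    rw [Nu_val, ← P.tor (d, 1), ← tor_x4 (d, 1), ← M.hφ]
    group
  by_contra hn
  have a0 : a ≠ 0 := fun e => hn ⟨0, by rw [e, P.zero, mul_one, M.n8n8, x4_zero, map_one, mul_one]⟩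
  have c2 : ∀ b, b ≠ 0 → ∃ z, M.n8 * p b * M.n8 = p b * M.φ (x4 T z) * t := fun b b0 => by
    obtain ⟨z, e | e⟩ := c0 b
    · have := c1 (Units.mk0 (a / b) (div_ne_zero a0 b0)) b ⟨z, e⟩
      rw [Units.val_mk0, div_mul_cancel₀ _ b0] at this
      exact absurd this hn
    · exact ⟨z, e⟩
  obtain ⟨b, b0, b1⟩ := exists_pair h
  obtain ⟨z1, e1⟩ := c2 b b0
  obtain ⟨z2, e2⟩ := c2 1 one_ne_zero
  obtain ⟨z3, e3⟩ := c2 _ b1
  obtain ⟨z, e⟩ := add b 1
  have e4 := congrArg (fun x => M.n8 * x * M.n8) e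
  simp only [conj_mul' M.n8n8, e1, e2, e3, n8_x4] at e4
  have e5 : p b * M.φ (x4 T z1) * t * (p 1 * M.φ (x4 T z2) * t) =
      p (b + 1) * M.φ (x4 T z * (x4 T z1 * x4 T 1 * x4 T z2)) := by
    calc _ = p b * (M.φ (x4 T z1) * (t * p 1 * t)) * (t⁻¹ * M.φ (x4 T z2) * t⁻¹⁻¹) := by group
      _ = _ := by
        rw [(P.mv 1).tconj h.toCtx, conj_eq_iff.2 (h.tφ _).symm.inv_left, ← mul_assoc (M.φ _), φx4,
          ← ((P.mv 1).cz _).eq, ← mul_assoc, e, ← φx4]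
        simp only [map_mul, mul_assoc]
  rw [e5, mul_assoc (p _), mul_assoc (p _), mul_right_inj] at e4
  refine t_ne h.toCtx ((x4 T z3)⁻¹ * (x4 T z * (x4 T z1 * x4 T 1 * x4 T z2)) * (x4 T z)⁻¹) ?_
  rw [map_mul, map_mul, e4, map_inv, map_inv]
  group

theorem pre (c46 : ∀ a b, Commute (p a) (P6 M p b))
    (add : ∀ a b, ∃ z, p a * p b = p (a + b) * M.φ (x4 T z)) : Pre M t p c :=
  ⟨P.zero, fun a => (P.mv a).mov, fun a => (P.mv a).cq, P.cy4, P.cx8, P.nK, fun a => (P.mv a).odd,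
    P.tor, c46, add, P.n8 h add⟩

theorem exists_pre : ∃ p, Pre M t p c := by
  rcases P.alt h with ⟨h1, h2⟩ | h1
  · exact ⟨p, P.pre h h1 h2⟩
  rcases (P.flp h.toCtx).alt h with ⟨h2, h3⟩ | h2
  · exact ⟨_, (P.flp h.toCtx).pre h h2 h3⟩
  obtain ⟨b, b0, b1⟩ := exists_pair h
  obtain ⟨z, e⟩ := h1 b 1 b0 one_ne_zero b1
  obtain ⟨z', e'⟩ := h2 b 1 b0 one_ne_zero b1
  rw [flip_ne b0, flip_ne one_ne_zero, flip_ne b1] at e'
  have e1 : p b * t * (p 1 * t) = p (b + 1) * (M.φ (x4 T z) * t * M.φ (x4 T 1)) := by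
    calc _ = p b * (t * p 1 * t) := by group
      _ = _ := by rw [(P.mv 1).tconj h.toCtx, ← ((P.mv 1).cz _).eq, ← mul_assoc, e]; group
  rw [e1, mul_assoc (p _), mul_assoc (p _), mul_right_inj, ← (h.tφ (x4 T z')).eq, mul_assoc _ t t,
    h.tt, mul_one] at e'
  refine (t_ne h.toCtx ((x4 T z)⁻¹ * x4 T z' * (x4 T 1)⁻¹) ?_).elim
  rw [map_mul, map_mul, ← e', map_inv, map_inv]
  group

end Pre0

variable [Finite K] [Finite G]

theorem two_mul_φ {g : G} (hg : g ∈ normalizer (M.φ.range : Set G)) (h2 : Two g) (u : U T) :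
    Two (g * M.φ u) := by
  obtain ⟨β, hβ⟩ := exists_aut M hg
  have key : ∀ n : ℕ, ∃ w, (g * M.φ u) ^ n = M.φ w * g ^ n := fun n => by
    induction n with
    | zero => exact ⟨1, by simp⟩
    | succ n ih =>
      obtain ⟨w, e⟩ := ih
      exact ⟨β (u * w), by rw [pow_succ', e, ← hβ, map_mul, pow_succ']; group⟩
  obtain ⟨k, e⟩ := h2
  obtain ⟨w, e'⟩ := key (2 ^ k)
  obtain ⟨j, e''⟩ := M.cf.two_φ w
  exact ⟨k + j, by rw [pow_add, pow_mul, e', e, mul_one]; exact e''⟩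

theorem exists_pre0 (h : Ctx2 M t) {g : G} {a0 e : K} (a00 : a0 ≠ 0) (mv : Mv M t g a0)
    (h2 : Two g) (nK : g ∈ normalizer (M.cf.C : Set G))
    (h4 : ∀ u, g * M.φ (y4 T (T.θ u)) * g⁻¹ = M.φ (y4 T (T.θ u) * x4 T (e * u)))
    (h8 : ∀ u, g * M.φ (x8 T (T.θ u)) * g⁻¹ = M.φ (x8 T (T.θ u) * x6 T (e * u))) :
    ∃ p c, Pre0 M t p c := by
  classical
  obtain ⟨a1, rfl⟩ := θ_surj (T := T) a0
  have a10 : a1 ≠ 0 := fun k => a00 (by rw [k, map_zero])
  let P : Kˣ → G := fun α => M.h (α, 1) * g * (M.h (α, 1))⁻¹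
  have tP : ∀ (d : Kˣ × Kˣ) α, M.h d * P α * (M.h d)⁻¹ = P (d.1 * α) := fun d α => by
    have e1 : M.h d * M.h (α, 1) = M.h (d.1 * α, 1) * M.h (1, d.2) := by
      rw [← map_mul, ← map_mul]
      exact congrArg _ (Prod.ext (mul_one _).symm ((mul_one _).trans (one_mul _).symm))
    calc _ = M.h d * M.h (α, 1) * g * (M.h d * M.h (α, 1))⁻¹ := by simp only [P]; group
      _ = M.h (d.1 * α, 1) * (M.h (1, d.2) * g * (M.h (1, d.2))⁻¹) * (M.h (d.1 * α, 1))⁻¹ := by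
        rw [e1]; group
      _ = _ := by rw [conj_eq_iff.2 (mv.h4 _).symm]
  have cP : ∀ α (u : U T), P α * M.φ (tor T (α, 1) u) * (P α)⁻¹ =
      M.h (α, 1) * (g * M.φ u * g⁻¹) * (M.h (α, 1))⁻¹ := fun α u => by
    rw [← M.hφ]; simp only [P]; group
  have mP : ∀ α, Mv M t (P α) (α * T.θ α * T.θ a1) := fun α =>
    { mov := by
        calc _ = M.h (α, 1) * (g * ((M.h (α, 1))⁻¹ * t * (M.h (α, 1))⁻¹⁻¹) * g⁻¹) *
              (M.h (α, 1))⁻¹ := by simp only [P]; group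
          _ = M.h (α, 1) * t * (M.h (α, 1))⁻¹ *
              (M.h (α, 1) * M.φ (x4 T (T.θ a1)) * (M.h (α, 1))⁻¹) := by
            rw [conj_eq_iff.2 (h.th _).inv_left, mv.mov]; group
          _ = _ := by rw [conj_eq_iff.2 (h.th _), M.hφ, tor_x4]
      cq := fun u hu h4 => by
        obtain ⟨u, rfl⟩ := (tor T (α, 1)).surjective u
        rw [← conj_eq_iff, cP, conj_eq_iff.2 (mv.cq u ?_ ?_), M.hφ]
        · rw [tor_apply] at hu
          obtain ⟨k1, k2⟩ := hu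
          o8s at k1 k2
          exact ⟨by simpa using k1, by simpa [T.θ_ne_zero, T.θ_eq_zero] using k2⟩
        · rw [tor_apply] at h4
          o8s at h4
          simpa using h4
      h4 := fun b => by
        rw [← Commute.symm_iff, ← conj_eq_iff, tP, one_mul]
      odd := fun k hk => by
        have := comm_conj (mv.odd k hk) (M.h (α, 1))
        rwa [conj_eq_iff.2 (hk.comm (hX M _)).symm] at this }
  have ex : ∀ s : K, s ≠ 0 → ∃ α : Kˣ, α * T.θ α * T.θ a1 = s := fun s hs => by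
    obtain ⟨α, e⟩ := Nu_surj (T := T) (Units.mk0 (s / T.θ a1) (div_ne_zero hs a00))
    exact ⟨α, by rw [← Nu_val, e, Units.val_mk0, div_mul_cancel₀ _ a00]⟩
  choose α hα using ex
  let p : K → G := fun s => if hs : s = 0 then 1 else P (α s hs)
  have p0 : p 0 = 1 := dif_pos rfl
  have pP : ∀ β : Kˣ, p (β * T.θ β * T.θ a1) = P β := fun β => by
    have hs : (β : K) * T.θ β * T.θ a1 ≠ 0 := by simp [T.θ_ne_zero, a10]
    have := mul_right_cancel₀ a00 (hα _ hs)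
    simp only [p, dif_neg hs]
    rw [Units.ext (nrm_inj this)]
  have cs : ∀ s, s = 0 ∨ ∃ β : Kˣ, s = β * T.θ β * T.θ a1 := fun s =>
    (eq_or_ne s 0).imp_right fun hs => ⟨_, (hα s hs).symm⟩
  have cs' : ∀ a, a = 0 ∨ ∃ β : Kˣ, a = β * T.θ β * a1 ∧ p (T.θ a) = P (θu T β) := fun a => by
    rcases cs (T.θ a) with k | ⟨β, k⟩
    · exact .inl (T.θ_inj (k.trans (map_zero _).symm))
    · obtain ⟨β, rfl⟩ := θu_surj (T := T) β
      exact .inr ⟨β, T.θ_inj (by rw [k, map_mul, map_mul]; rfl), by rw [k, pP]⟩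
  refine ⟨p, e / a1, p0, fun s => ?_, fun a u => ?_, fun a u => ?_, fun s => ?_, fun d s => ?_,
    fun s => ?_⟩
  · rcases cs s with rfl | ⟨β, rfl⟩
    · rw [p0]; exact mv_one
    · rw [pP]; exact mP β
  · rcases cs' a with rfl | ⟨β, rfl, k⟩
    · simp [p0, x4_zero]
    · have := cP (θu T β) (y4 T (T.θ ((β : K)⁻¹ * u)))
      rw [h4, M.hφ, map_mul (tor T _), tor_y4, tor_x4] at this
      have e1 : ((θu T β : Kˣ) : K) * T.θ ((β : K)⁻¹ * u) = T.θ u := by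
        rw [θu_val, ← map_mul, mul_inv_cancel_left₀ β.ne_zero]
      rw [e1] at this
      rw [k, this]
      congr 3
      rw [θu_val, T.θθ]
      field_simp
  · rcases cs' a with rfl | ⟨β, rfl, k⟩
    · simp [p0, x6_zero]
    · have := cP (θu T β) (x8 T (T.θ (β * T.θ β * u)))
      rw [h8, M.hφ, map_mul (tor T _), tor_x8, tor_x6] at this
      have e1 : (wt8 T (θu T β, 1) : K) * T.θ (β * T.θ β * u) = T.θ u := by
        have := T.θ_ne_zero.2 (T.θ_ne_zero.2 β.ne_zero)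
        have := T.θ_ne_zero.2 β.ne_zero
        simp only [wt8, Nu, map_one, mul_one, map_mul, Units.val_div_eq_div_val, Units.val_one,
          Units.val_mul, θu_val]
        field_simp
      rw [e1] at this
      rw [k, this]
      congr 3
      simp only [Units.val_one, map_one]
      field_simp
  · rcases cs s with rfl | ⟨β, rfl⟩
    · rw [p0]; exact one_mem _
    · rw [pP]
      exact mul_mem (mul_mem (h_norm_C M.toPF _) nK) (inv_mem (h_norm_C M.toPF _))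
  · rcases cs s with rfl | ⟨β, rfl⟩
    · simp [p0]
    · rw [pP, tP, ← pP]
      congr 1
      simp only [Units.val_mul, map_mul]
      ring
  · rcases cs s with rfl | ⟨β, rfl⟩
    · exact ⟨0, by rw [p0, x4_zero, map_one, one_mul]⟩
    · rw [pP]
      exact sq_two h (mP β) (by simp [T.θ_ne_zero, a10]) (h2.conj _)

theorem pre : PreStmt.{u, v} := by
  intro hb K _ _ T G _ _ M t h g hg
  obtain ⟨nU, nK, a0, a00, mov⟩ := hg.s1
  obtain ⟨β, hβ⟩ := exists_aut M nU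
  obtain ⟨ρ, e, hγ⟩ := hb T h.q8 β (by
      obtain ⟨k, hk⟩ := hg.two
      have key : ∀ (n : ℕ) u, M.φ ((β ^ n) u) = g ^ n * M.φ u * (g ^ n)⁻¹ := fun n u => by
        induction n with
        | zero => simp
        | succ n ih => rw [pow_succ', MulAut.mul_apply, ← hβ, ih, pow_succ']; group
      exact ⟨k, MulEquiv.ext fun u => M.inj (by rw [key, hk]; simp)⟩)
    (fun b u => M.inj (by
      rw [← hβ, ← M.hφ, ← M.hφ, ← hβ]
      calc _ = g * M.h (1, b) * M.φ u * (g * M.h (1, b))⁻¹ := by group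
        _ = _ := by rw [(hg.tor b).eq]; group))
    (fun a => M.inj (by rw [← hβ, conj_eq_iff.2 (hg.cz a)]))
  obtain ⟨h1, h2, h3⟩ := hγ _ rfl
  have act : ∀ u, g * M.φ (y4 T ρ) * M.φ u * (g * M.φ (y4 T ρ))⁻¹ =
      M.φ ((β * MulAut.conj (y4 T ρ)) u) := fun u => by
    rw [MulAut.mul_apply, MulAut.conj_apply, ← hβ, map_mul, map_mul, map_inv]; group
  obtain ⟨p, c, P⟩ := exists_pre0 h (g := g * M.φ (y4 T ρ)) (e := e) a00
    ⟨by
      calc _ = g * (M.φ (y4 T ρ) * t * (M.φ (y4 T ρ))⁻¹) * g⁻¹ := by group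
        _ = _ := by rw [conj_eq_iff.2 (h.tφ _), mov],
      fun u hu h4 => conj_eq_iff.1 (by rw [act, h1 u hu h4]),
      fun b => (hg.tor b).mul_left (conj_eq_iff.1 (by rw [M.hφ, tor_y4]; simp)).symm,
      fun k hk => (hg.odd k hk).mul_left (hk.φ _).symm⟩
    (two_mul_φ nU hg.two _) (mul_mem nK (le_normalizer (φK M _)))
    (fun u => by rw [act, h2]) (fun u => by rw [act, h3])
  obtain ⟨p', h'⟩ := P.exists_pre h
  exact ⟨p', c, h'⟩

end Cfsg.Agent.H7.RfPre
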