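import Cfsg.Agent.H40.SgDefs
import Cfsg.Agent.S0939

/-! Project SG, piece CYC: cyclic Sylow 2-subgroup, exactly two fixed characters. -/

set_option autoImplicit false
open Cfsg

namespace Cfsg.Agent.H7.SgCyc

open Cfsg.Agent.H40.Sg

universe u

theorem cyc : CycStmt.{u} := by
  intro G _ _ M hM hev P k hk₁ hk₂ hP
  have h2 : (Nat.card G).minFac = 2 := (Nat.minFac_eq_two_iff _).mpr hev.two_dvd
  have hnpc : HasNormalPComplement 2 G :=
    ⟨P, _, MonoidHom.normal_ker _, IsCyclic.isComplement' h2 hP⟩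
  have hodd : ¬ 2 ∣ Nat.card (pResidual 2 G) := H8.hasNormalPComplement_iff_not_dvd.mp hnpc
  have hnt : pResidual 2 G ≠ ⊤ := by
    intro h
    rw [h, Subgroup.card_top] at hodd
    exact hodd hev.two_dvd
  have hcyc : IsCyclic (G ⧸ pResidual 2 G) := by
    refine isCyclic_of_surjective
      ((QuotientGroup.mk' (pResidual 2 G)).comp (P : Subgroup G).subtype) ?_
    intro x
    obtain ⟨g, rfl⟩ := QuotientGroup.mk'_surjective _ x
    have hg : g ∈ (P : Subgroup G) ⊔ pResidual 2 G := by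
      rw [H8.sylow_sup_pResidual]
      trivial
    obtain ⟨a, ha, b, hb, rfl⟩ := Subgroup.mem_sup_of_normal_right.mp hg
    refine ⟨⟨a, ha⟩, ?_⟩
    rw [map_mul, (QuotientGroup.eq_one_iff b).mpr hb |> fun e : (b : G ⧸ pResidual 2 G) = 1 =>
      (show QuotientGroup.mk' (pResidual 2 G) b = 1 from e), mul_one]
    rfl
  have h := S4553.result 2 M hM P (pResidual 2 G) rfl hcyc hnt k hk₁
    (fun g hg => hk₂ g (Nat.coprime_two_right.mp hg))
  have hb : principalBlock M (pResidual 2 G) = {H22.triv (pResidual 2 G)} :=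
    H22.blockOf_eq_singleton_of_not_dvd hM hodd (H22.triv (pResidual 2 G))
  refine Eq.trans ?_ (h.trans ((congrArg (2 * ·) (Nat.card_eq_one_iff_exists.mpr
    ⟨⟨H22.triv _, by rw [hb]; rfl, by simp [charDegree, H22.triv], fun _ _ _ => rfl, fun _ => rfl⟩,
      fun y => Subtype.ext (hb.le y.2.1)⟩)).trans rfl))
  refine Nat.card_congr (Equiv.subtypeEquivRight fun χ => ?_)
  rw [← Nat.not_even_iff_odd, even_iff_two_dvd]

end Cfsg.Agent.H7.SgCyc
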