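import Cfsg.Agent.H89.SpDefs
import Cfsg.Agent.H83.Syl
import Cfsg.Agent.H4.CoprimeAction
import Cfsg.Agent.H3.Primitive
import Cfsg.Agent.H8.SylowIn

/-!
A group of order 44352000 with elements of orders 9 and 15 has an element of order 45.
-/

set_option autoImplicit false

namespace Cfsg.Agent.H7.Hs1

open Subgroup Cfsg.Agent.H83 Cfsg.Agent.H89.Sp

universe u

instance f3 : Fact (Nat.Prime 3) := ⟨by norm_num⟩
instance f5 : Fact (Nat.Prime 5) := ⟨by norm_num⟩

variable {G : Type*} [Group G]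

theorem mem_of_cop {C : Subgroup G} {g : G} {m n : ℕ} (h : m.Coprime n) (hm : g ^ m ∈ C)
    (hn : g ^ n ∈ C) : g ∈ C := by
  have := mul_mem (zpow_mem hm (Nat.gcdA m n)) (zpow_mem hn (Nat.gcdB m n))
  rwa [← zpow_natCast, ← zpow_natCast, ← zpow_mul, ← zpow_mul, ← zpow_add, ← Nat.gcd_eq_gcd_ab,
    h, Nat.cast_one, zpow_one] at this

theorem exists_ppow [Finite G] (p : ℕ) [hp : Fact p.Prime] (x : G) :
    ∃ m k : ℕ, m.Coprime p ∧ (x ^ m) ^ p ^ k = 1 := by
  have h0 := (orderOf_pos x).ne'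
  refine ⟨ordCompl[p] (orderOf x), (orderOf x).factorization p,
    (Nat.coprime_ordCompl hp.out h0).symm, ?_⟩
  rw [← pow_mul, mul_comm, Nat.ordProj_mul_ordCompl_eq_self, pow_orderOf_eq_one]

theorem cube {y c : G} (hy : orderOf y = 9) (hc : c ∈ zpowers y) (h : c ^ 3 = 1) :
    c ∈ zpowers (y ^ 3) := by
  obtain ⟨j, rfl⟩ := mem_zpowers_iff.1 hc
  rw [← zpow_natCast, ← zpow_mul, ← orderOf_dvd_iff_zpow_eq_one, hy] at h
  obtain ⟨i, hi⟩ := h
  exact mem_zpowers_iff.2 ⟨i, by rw [← zpow_natCast, ← zpow_mul]; congr 1; omega⟩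

variable [Finite G]

theorem invSyl {y : G} (hy : orderOf y = 9) (hQ : IsSylowIn 3 (zpowers y) ⊤)
    (h : ∀ g ∈ normalizer (zpowers y : Set G), (g * y * g⁻¹ * y⁻¹) ^ 3 = 1) :
    ∃ P : Subgroup G, IsSylowIn 5 P ⊤ ∧ y ∈ normalizer (P : Set G) := by
  obtain ⟨T, hT⟩ := hQ.exists_sylow_top
  have hP : normalizer ((T : Subgroup G) : Set G) ≤ centralizer ((T : Subgroup G) : Set G) := by
    rw [hT]
    intro g hg
    have key : g ∈ centralizer ({y} : Set G) := by
      obtain ⟨m, k, hm, hk⟩ := exists_ppow 3 g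
      refine mem_of_cop hm ?_ ?_
      · obtain ⟨i, hi⟩ := mem_zpowers_iff.1 (hQ.mem_of_norm (mem_top _) hk (pow_mem hg m))
        rw [mem_centralizer_singleton_iff, ← hi]
        exact (Commute.self_zpow y i).eq.symm
      · have h1 : g * y * g⁻¹ * y⁻¹ ∈ zpowers y :=
          mul_mem ((mem_normalizer_iff.1 hg y).1 (mem_zpowers y)) (inv_mem (mem_zpowers y))
        have h3 := h g hg
        obtain ⟨i, hi⟩ := mem_zpowers_iff.1 (cube hy h1 h3)
        have h2 : g * y * g⁻¹ = (y ^ 3) ^ i * y := by rw [hi]; group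
        rw [← hi] at h3
        have hc : Commute ((y ^ 3) ^ i) y := ((Commute.refl y).pow_left 3).zpow_left i
        have h4 : g * y ^ 3 * g⁻¹ = y ^ 3 := by rw [← conj_pow, h2, hc.mul_pow, h3, one_mul]
        have h5 : g * (y ^ 3) ^ i * g⁻¹ = (y ^ 3) ^ i := by rw [← conj_zpow, h4]
        generalize (y ^ 3) ^ i = c at h2 h3 h5
        rw [mem_centralizer_singleton_iff, ← mul_inv_eq_iff_eq_mul]
        calc g ^ 3 * y * (g ^ 3)⁻¹ = g * (g * (g * y * g⁻¹) * g⁻¹) * g⁻¹ := by
              simp only [pow_succ, pow_zero]; group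
          _ = c ^ 3 * y := by
              rw [h2, ← conj_mul (a := c), h5, h2, ← conj_mul (a := c), ← conj_mul (a := c), h5, h2]
              simp only [pow_succ, pow_zero]; group
          _ = y := by rw [h3, one_mul]
    rintro _ ⟨i, rfl⟩
    exact ((show Commute g y from mem_centralizer_singleton_iff.1 key).zpow_right i).eq.symm
  have hc := MonoidHom.ker_transferSylow_isComplement' T hP
  have hn := MonoidHom.not_dvd_card_ker_transferSylow T hP
  have hN : (MonoidHom.transferSylow T hP).ker.Normal := inferInstance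
  generalize (MonoidHom.transferSylow T hP).ker = K at hc hn hN
  have h9 : Nat.card (zpowers y) = 9 := by rw [Nat.card_zpowers, hy]
  obtain ⟨P, hP'⟩ := H4.exists_invariant_sylow (A := zpowers y) (K := K) le_normalizer_of_normal
    (by
      rw [h9]
      exact Nat.Coprime.pow_left 2 ((Nat.Prime.coprime_iff_not_dvd f3.out).2 hn))
    (Or.inl inferInstance) 5
  refine ⟨_, (isSylowIn_map P).trans le_top ?_, hP' (mem_zpowers y)⟩
  rw [relIndex_top_right, hc.symm.index_eq_card, hT, h9]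
  norm_num

theorem invSylIn {B : Subgroup G} {y : G} (hy : orderOf y = 9) (hQ : IsSylowIn 3 (zpowers y) ⊤)
    (hB : y ∈ B)
    (h : ∀ g ∈ B, g * y * g⁻¹ * y⁻¹ ∈ zpowers y → (g * y * g⁻¹ * y⁻¹) ^ 3 = 1) :
    ∃ P : Subgroup G, IsSylowIn 5 P B ∧ y ∈ normalizer (P : Set G) := by
  have e : (zpowers (⟨y, hB⟩ : B)).map B.subtype = zpowers y := MonoidHom.map_zpowers _ _
  obtain ⟨P, h1, h2⟩ := invSyl (y := (⟨y, hB⟩ : B)) ((orderOf_coe _).symm.trans hy)
    ⟨le_top, (hQ.isPGroup.comap_subtype (K := B)).to_le (map_le_iff_le_comap.1 e.le),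
      fun R _ hR hle => by
        apply map_injective B.subtype_injective
        rw [e]
        exact hQ.max _ le_top (hR.map _) (e ▸ map_mono hle)⟩
    fun g hg => Subtype.ext (h g g.2 (e ▸ mem_map_of_mem B.subtype
      (mul_mem ((mem_normalizer_iff.1 hg _).1 (mem_zpowers _)) (inv_mem (mem_zpowers _)))))
  have h3 := h1.map B.subtype
  rw [← MonoidHom.range_eq_map, range_subtype] at h3
  exact ⟨_, h3, le_normalizer_map B.subtype (mem_map_of_mem B.subtype h2)⟩

omit [Finite G] in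
theorem no45 (h : ¬ Om G 45) {c w : G} (h9 : c ^ 9 = 1) {k : ℕ} (hw : w ^ 5 ^ k = 1) (h1 : w ≠ 1)
    (hc : c * w = w * c) : c ^ 3 = 1 := by
  by_contra h3
  have hc9 : orderOf c = 3 ^ 2 := orderOf_eq_prime_pow (by simpa using h3) (by simpa using h9)
  obtain ⟨j, -, hj⟩ := (Nat.dvd_prime_pow f5.out).1 (orderOf_dvd_of_pow_eq_one hw)
  obtain _ | j := j
  · exact h1 (orderOf_eq_one_iff.1 hj)
  · have h5 : orderOf (w ^ 5 ^ j) = 5 := by
      rw [orderOf_pow_of_dvd (by positivity) (by rw [hj]; exact pow_dvd_pow _ (by omega)), hj,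
        pow_succ, Nat.mul_div_cancel_left _ (by positivity)]
    refine h ⟨c * w ^ 5 ^ j, ?_⟩
    rw [((show Commute c w from hc).pow_right _).orderOf_mul_eq_mul_orderOf_of_coprime
      (by rw [hc9, h5]; norm_num), hc9, h5]
    norm_num

theorem card_one (h : ¬ Om G 45) {y : G} (hy : orderOf y = 9) {P : Subgroup G}
    (hP : IsPGroup 5 P) (hn : y ∈ normalizer (P : Set G)) : Nat.card P ≡ 1 [MOD 3] := by
  have h1 := H3.card_modEq_card_inf_centralizer (q := 3) (Q := zpowers y) (L := P)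
    (IsPGroup.of_card (n := 2) (by rw [Nat.card_zpowers, hy]; norm_num)) (zpowers_le.2 hn)
  have h2 : P ⊓ centralizer (zpowers y : Set G) = ⊥ := by
    rw [eq_bot_iff]
    intro w hw
    by_contra h1
    obtain ⟨k, hk⟩ := hP ⟨w, hw.1⟩
    have := orderOf_dvd_of_pow_eq_one (no45 h (hy ▸ pow_orderOf_eq_one y)
      (congrArg Subtype.val hk) h1 (hw.2 y (mem_zpowers y)))
    rw [hy] at this
    omega
  rwa [h2, card_bot] at h1

theorem hs1 : HS1Stmt.{u} := by
  intro S _ _ hS ⟨y, hy⟩ ⟨g, hg⟩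
  by_contra h
  have h9 : Nat.card (zpowers y) = 9 := by rw [Nat.card_zpowers, hy]
  have hQ : IsSylowIn 3 (zpowers y) ⊤ :=
    isSylowIn_of_not_dvd_relIndex le_top (IsPGroup.of_card (n := 2) h9) (by
      have := (zpowers y).card_mul_index
      rw [h9, hS] at this
      rw [relIndex_top_right]
      omega)
  have c5 : ∀ P : Subgroup S, IsPGroup 5 P → ∃ k ≤ 3, Nat.card P = 5 ^ k := fun P hP => by
    obtain ⟨k, hk⟩ := IsPGroup.iff_card.1 hP
    refine ⟨k, ?_, hk⟩
    by_contra hlt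
    have := (pow_dvd_pow 5 (show 4 ≤ k by omega)).trans (hk ▸ P.card_subgroup_dvd_card)
    rw [hS] at this
    omega
  have p3 : ∀ c : S, c ^ 3 = 1 → IsPGroup 3 (zpowers c) := fun c hc => by
    rintro ⟨_, i, rfl⟩
    exact ⟨1, Subtype.ext (by
      change (c ^ i) ^ 3 ^ 1 = 1
      rw [pow_one, ← zpow_natCast, ← zpow_mul, mul_comm, zpow_mul, zpow_natCast, hc, one_zpow])⟩
  have x3 : orderOf (y ^ 3) = 3 := by rw [orderOf_pow_of_dvd (by norm_num) (by rw [hy]; norm_num), hy]
  have hx3 : Nat.card (zpowers (y ^ 3)) = 3 := by rw [Nat.card_zpowers, x3]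
  -- an element of order five centralising `y ^ 3`
  obtain ⟨w, w5, wx⟩ : ∃ w : S, orderOf w = 5 ∧ w * y ^ 3 = y ^ 3 * w := by
    have g5 : orderOf (g ^ 5) = 3 := by
      rw [orderOf_pow_of_dvd (by norm_num) (by rw [hg]; norm_num), hg]
    have g3 : orderOf (g ^ 3) = 5 := by
      rw [orderOf_pow_of_dvd (by norm_num) (by rw [hg]; norm_num), hg]
    obtain ⟨k, -, hk⟩ := hQ.exists_conj_le le_top (p3 (g ^ 5) (g5 ▸ pow_orderOf_eq_one _))
    have h1 : zpowers (k * g ^ 5 * k⁻¹) = zpowers (y ^ 3) :=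
      eq_of_le_of_card_ge (zpowers_le.2 (cube hy (hk (conj_mem_cj (mem_zpowers _))) (by
        rw [conj_pow, ← g5, pow_orderOf_eq_one]; simp))) (by
        rw [hx3, Nat.card_zpowers, ← g5]
        exact ((MulAut.conj k).orderOf_eq _).ge)
    obtain ⟨i, hi⟩ := mem_zpowers_iff.1 (h1.ge (mem_zpowers _))
    refine ⟨k * g ^ 3 * k⁻¹, ((MulAut.conj k).orderOf_eq _).trans g3, ?_⟩
    rw [← hi]
    refine (Commute.zpow_right ?_ i).eq
    change _ * _ = _ * _
    rw [conj_mul, conj_mul, ← pow_add, ← pow_add]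
  have w1 : w ≠ 1 := fun e => by rw [e, orderOf_one] at w5; omega
  obtain ⟨W, hW, hyW⟩ := invSylIn (B := centralizer {y ^ 3}) hy hQ
    (mem_centralizer_singleton_iff.2 (by group)) fun g hg hc => by
      obtain ⟨i, hi⟩ := mem_zpowers_iff.1 hc
      have h2 : g * y * g⁻¹ = y ^ i * y := by rw [hi]; group
      have h3 := congrArg (· ^ 3) h2
      simp only [conj_pow, mem_centralizer_singleton_iff.1 hg, mul_inv_cancel_right,
        ((Commute.refl y).zpow_left i).mul_pow] at h3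
      rw [← hi]
      exact mul_eq_right.1 h3.symm
  have cW : Nat.card W = 5 ^ 2 := by
    have h1 := card_one h hy hW.isPGroup hyW
    have h2 := hW.card_dvd (P := zpowers w) (zpowers_le.2 (mem_centralizer_singleton_iff.2 wx))
      (IsPGroup.of_card (n := 1) (by rw [Nat.card_zpowers, w5]; norm_num))
    rw [Nat.card_zpowers, w5] at h2
    obtain ⟨k, hk, e⟩ := c5 W hW.isPGroup
    rw [e] at h1 h2 ⊢
    interval_cases k <;> simp_all [Nat.ModEq]
  have hWZ : W ≤ centralizer (W : Set S) := fun a ha b hb =>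
    congrArg Subtype.val ((IsPGroup.commGroupOfCardEqPrimeSq cW).mul_comm ⟨b, hb⟩ ⟨a, ha⟩)
  obtain ⟨v, hv, v1⟩ : ∃ v ∈ W, v ≠ 1 := by
    by_contra hcon
    push Not at hcon
    rw [(eq_bot_iff_forall _).2 hcon, card_bot] at cW
    omega
  obtain ⟨kv, hkv⟩ := hW.isPGroup ⟨v, hv⟩
  have z3 : ∀ c ∈ centralizer (W : Set S), c ^ 9 = 1 → c ^ 3 = 1 := fun c hc h9 =>
    no45 h h9 (congrArg Subtype.val hkv) v1 (hc v hv).symm
  have q9 : ∀ c ∈ zpowers y, c ^ 9 = 1 := fun c hc => h9 ▸ H4.pow_card_eq_one_of_mem hc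
  have hxZ : y ^ 3 ∈ centralizer (W : Set S) := fun a ha =>
    mem_centralizer_singleton_iff.1 (hW.le ha)
  have hX : IsSylowIn 3 (zpowers (y ^ 3)) (centralizer (W : Set S)) :=
    ⟨zpowers_le.2 hxZ, IsPGroup.of_card (n := 1) hx3, fun R hR pR hle => by
      obtain ⟨k, -, hk⟩ := hQ.exists_conj_le le_top pR
      refine (eq_of_le_of_card_ge hle ?_).symm
      rw [← card_map_of_injective (K := R) (f := (MulAut.conj k).toMonoidHom)
        (MulAut.conj k).injective]
      refine card_le_of_le fun c hc => cube hy (hk hc) ?_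
      obtain ⟨r, hr, rfl⟩ := hc
      have h1 := q9 _ (hk (conj_mem_cj hr))
      rw [conj_pow, conj_eq_one_iff] at h1
      rw [← map_pow, z3 r (hR hr) h1, map_one]⟩
  have nZ : normalizer (W : Set S) ≤ normalizer (centralizer (W : Set S) : Set S) :=
    H83.normalizer_le_normalizer_centralizer _
  -- a Sylow 5-subgroup over `W` centralises `W`
  obtain ⟨P, hP, hWP⟩ := exists_isSylowIn_ge (H := ⊤) le_top hW.isPGroup
  have cP : Nat.card P = 5 ^ 3 := by
    obtain ⟨k, hk, e⟩ := c5 P hP.isPGroup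
    have h1 := hP.not_dvd_relIndex
    have h2 := P.card_mul_index
    rw [relIndex_top_right] at h1
    rw [e, hS] at h2
    rw [e]
    interval_cases k <;> omega
  have hPN : P ≤ normalizer (W : Set S) := by
    have hlt : W < P := lt_of_le_of_ne hWP fun e => by rw [e, cP] at cW; omega
    have h1 := H8.lt_inf_normalizer_of_lt hP.isPGroup hlt
    obtain ⟨k, hk, e⟩ := c5 _ (hP.isPGroup.to_le (inf_le_left (b := normalizer (W : Set S))))
    have h2 : 5 ^ 2 < 5 ^ k := by
      rw [← e, ← cW]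
      exact lt_of_le_of_ne (card_le_of_le h1.le) fun e' => h1.ne (eq_of_le_of_card_ge h1.le e'.ge)
    have h3 : k = 3 := by have := (Nat.pow_lt_pow_iff_right (by norm_num)).1 h2; omega
    exact inf_eq_left.1 (eq_of_le_of_card_ge inf_le_left (by rw [e, cP, h3]))
  have hPZ : P ≤ centralizer (W : Set S) := fun p hp => by
    obtain ⟨z, hz, n, hn, e⟩ := hX.frattini (nZ (hPN hp))
    have hnW : n ∈ normalizer (W : Set S) := by
      have := mul_mem (inv_mem (centralizer_le_normalizer _ hz)) (hPN hp)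
      rwa [e, inv_mul_cancel_left] at this
    obtain ⟨m, k, hm, hk⟩ := exists_ppow 5 n
    have hu : n ^ m ∈ centralizer ({y ^ 3} : Set S) := by
      refine mem_of_cop (m := 2) (n := 5 ^ k) (Nat.Coprime.pow_right _ (by norm_num)) ?_
        (hk ▸ one_mem _)
      have hn' := pow_mem hn m
      generalize n ^ m = u at hn'
      classical
      obtain ⟨i, hi, e'⟩ := Finset.mem_image.1 (mem_zpowers_iff_mem_range_orderOf.1
        ((mem_normalizer_iff.1 hn' _).1 (mem_zpowers (y ^ 3))))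
      have x1 := pow_orderOf_eq_one (y ^ 3)
      rw [x3] at hi x1
      generalize y ^ 3 = x at e' x1 x3
      rw [mem_centralizer_singleton_iff, ← mul_inv_eq_iff_eq_mul,
        show u ^ 2 * x * (u ^ 2)⁻¹ = u * (u * x * u⁻¹) * u⁻¹ by rw [pow_two]; group, ← e',
        ← conj_pow, ← e', ← pow_mul]
      rw [Finset.mem_range] at hi
      interval_cases i
      · rw [pow_zero, eq_comm, conj_eq_one_iff] at e'
        rw [e', orderOf_one] at x3
        omega
      · simp
      · rw [show 2 * 2 = 3 + 1 from rfl, pow_succ, x1, one_mul]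
    have hu' := hWZ (hW.mem_of_norm hu hk (pow_mem hnW m))
    have hj : ∀ j : ℕ, ∀ a ∈ W, p ^ j * a * (p ^ j)⁻¹ = n ^ j * a * (n ^ j)⁻¹ := fun j a ha => by
      induction j with
      | zero => simp
      | succ j ih =>
        have h1 := (mem_normalizer_iff.1 (pow_mem hnW (j + 1)) a).1 ha
        calc _ = p * (p ^ j * a * (p ^ j)⁻¹) * p⁻¹ := by rw [pow_succ']; group
          _ = z * (n ^ (j + 1) * a * (n ^ (j + 1))⁻¹) * z⁻¹ := by rw [ih, e, pow_succ']; group
          _ = _ := by rw [← hz _ h1, mul_inv_cancel_right]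
    obtain ⟨l, hl⟩ := hP.isPGroup ⟨p, hp⟩
    refine mem_of_cop (m := m) (n := 5 ^ l) (hm.pow_right l) (fun a ha => ?_)
      (by rw [show p ^ 5 ^ l = 1 from congrArg Subtype.val hl]; exact one_mem _)
    have h1 := hj m a ha
    rw [← hu' a ha, mul_inv_cancel_right, mul_inv_eq_iff_eq_mul] at h1
    exact h1.symm
  obtain ⟨P', hP', hyP⟩ := invSylIn (B := centralizer (W : Set S) ⊔ zpowers y) hy hQ
    (mem_sup_right (mem_zpowers y)) fun g hg hc => by
      refine z3 _ ?_ (q9 _ hc)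
      have h1 : g ∈ ((centralizer (W : Set S) ⊔ zpowers y : Subgroup S) : Set S) := hg
      rw [coe_mul_of_right_le_normalizer_left _ _ (zpowers_le.2 (nZ hyW))] at h1
      obtain ⟨z, hz, _, ⟨i, rfl⟩, rfl⟩ := h1
      have := mul_mem hz ((mem_normalizer_iff.1 (nZ hyW) _).1 (inv_mem hz))
      convert this using 1
      group
  have h1 := card_one h hy hP'.isPGroup hyP
  have h2 := hP'.card_le (hPZ.trans le_sup_left) hP.isPGroup
  have h3 := hP.card_le le_top hP'.isPGroup
  rw [le_antisymm h3 h2, cP] at h1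
  exact absurd h1 (by decide)

end Cfsg.Agent.H7.Hs1
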