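import Cfsg.Agent.H56.SpDefs

/-! Project CY, chapter SP, piece SR: a semiregular 2-group off the fixed set. -/

set_option autoImplicit false

namespace Cfsg.Agent.H7.SpSr

open Subgroup MulAction Cfsg.Agent.H11.Cy Cfsg.Agent.H56.Sp
open Cfsg.Agent.H45.Iv (Fx Sub Ms)

theorem dvd_of_free {G : Type} [Group G] {Ω : Type} [MulAction G Ω] (P : Subgroup G) (S : Set Ω)
    (hS : ∀ g ∈ P, ∀ w ∈ S, g • w ∈ S) (hf : ∀ g ∈ P, ∀ w ∈ S, g • w = w → g = 1) :
    Nat.card P ∣ S.ncard := by
  let X : SubMulAction P Ω := ⟨S, fun g w hw => hS g g.2 w hw⟩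
  have h : ∀ b : X, stabilizer P b = ⊥ := by
    intro b
    rw [eq_bot_iff]
    intro g hg
    exact Subtype.ext (hf g g.2 b b.2 (congrArg Subtype.val hg))
  have e := Nat.card_congr (MulAction.selfEquivOrbitsQuotientProd h)
  rw [Nat.card_prod] at e
  have : S.ncard = Nat.card X := rfl
  rw [this, e]
  exact Dvd.intro_left _ rfl

theorem exists_inv {G : Type} [Group G] {g : G} {k : ℕ} (h : g ^ 2 ^ k = 1) (h1 : g ≠ 1) :
    ∃ n : ℕ, g ^ n ≠ 1 ∧ g ^ n * g ^ n = 1 := by
  induction k with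
  | zero => exact absurd (by simpa using h) h1
  | succ k ih =>
    by_cases hk : g ^ 2 ^ k = 1
    · exact ih hk
    · exact ⟨2 ^ k, hk, by rw [← pow_add, ← two_mul, ← pow_succ', h]⟩

theorem sr : SrStmt := by
  intro G _ _ Ω _ _ p A _ hy fi x y hxy t ht htt hne j hj
  have : Fact (Nat.Prime 2) := ⟨Nat.prime_two⟩
  obtain ⟨hsub, hln, hcen⟩ := hy.cz.sub x y hxy t ht
  obtain ⟨b, hb, hbl⟩ : ∃ b ∈ Fx Ω t, b ∉ Ln A x y := by
    by_contra h
    push Not at h
    exact hne (Set.Subset.antisymm h hln)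
  have lf := hy.lf x y hxy
  obtain ⟨z, hz⟩ := lf.ex
  have hFt : ∀ f ∈ Fl A x y, f * t = t * f := fun f hf => mem_centralizer_iff.mp ht f hf
  have hzb : z • b ≠ b := fun h => hbl (hy.fz x y hxy z hz ▸ h)
  have pres : ∀ g : G, g * t = t * g → ∀ w, (g • w ∈ Fx Ω t ↔ w ∈ Fx Ω t) := by
    intro g hg w
    show t • g • w = g • w ↔ t • w = w
    rw [smul_smul, ← hg, ← smul_smul, smul_left_cancel_iff]
  have hzb' : z • b ∈ Fx Ω t := (pres z (hFt z hz.1) b).mpr hb
  obtain ⟨u, hu⟩ := (hy.lf b (z • b) hzb.symm).ex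
  obtain ⟨huz, hcm⟩ := hy.cz.sw x y hxy z hz b hzb u hu
  have hIu : Iv A u := ⟨b, z • b, hzb.symm, hu⟩
  have hut : u * t = t * u := by
    have : Fl A b (z • b) ≤ centralizer {t} := by
      refine sup_le (fun a ha => ?_) (fun a ha => ?_) <;> rw [mem_centralizer_singleton_iff]
      · exact mem_centralizer_iff.mp (hcen b hb) a ha
      · exact mem_centralizer_iff.mp (hcen _ hzb') a ha
    exact mem_centralizer_singleton_iff.mp (this hu.1)
  have hfu : Fx Ω u ⊆ Fx Ω t := by
    rw [hy.fz b (z • b) hzb.symm u hu]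
    exact hsub b hb _ hzb' hzb.symm
  have huF : u ∉ Fl A x y := fun h => huz (lf.uq u z ⟨h, hu.2⟩ hz)
  have huN : ∀ f ∈ Fl A x y, u * f * u ∈ Fl A x y := by
    intro f hf
    have := (mem_normalizer_iff.mp (hy.cz.hi x y hxy z hz u hIu huz hcm).1.1 f).mp hf
    rwa [inv_eq_of_mul_eq_one_right hu.2.2] at this
  have huu := hu.2.2
  have hback : ∀ g : G, g * u * u = g := fun g => by rw [mul_assoc, huu, mul_one]
  let D : Subgroup G :=
    { carrier := {g | g ∈ Fl A x y ∨ g * u ∈ Fl A x y}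
      one_mem' := Or.inl (one_mem _)
      mul_mem' := by
        rintro a c (ha | ha) (hc | hc)
        · exact Or.inl (mul_mem ha hc)
        · exact Or.inr (by rw [mul_assoc]; exact mul_mem ha hc)
        · refine Or.inr ?_
          have := mul_mem ha (huN c hc)
          rwa [show a * u * (u * c * u) = a * u * u * c * u by group, hback] at this
        · refine Or.inl ?_
          have := mul_mem ha (huN _ hc)
          rwa [show a * u * (u * (c * u) * u) = a * u * u * (c * u * u) by group, hback, hback] at this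
      inv_mem' := by
        rintro a (ha | ha)
        · exact Or.inl (inv_mem ha)
        · refine Or.inr ?_
          have := huN _ (inv_mem ha)
          rwa [show u * (a * u)⁻¹ * u = a⁻¹ * u by group] at this }
  have hFD : Fl A x y ≤ D := fun g hg => Or.inl hg
  have hidx : ((Fl A x y).subgroupOf D).index = 2 := by
    rw [index_eq_two_iff]
    refine ⟨⟨u, Or.inr (by rw [huu]; exact one_mem _)⟩, fun g => ?_⟩
    show Xor' ((g : G) * u ∈ Fl A x y) ((g : G) ∈ Fl A x y)
    have hn : ¬ ((g : G) * u ∈ Fl A x y ∧ (g : G) ∈ Fl A x y) := fun h =>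
      huF (by simpa using mul_mem (inv_mem h.2) h.1)
    rcases g.2 with h | h
    · exact Or.inr ⟨h, fun h' => hn ⟨h', h⟩⟩
    · exact Or.inl ⟨h, fun h' => hn ⟨h, h'⟩⟩
  have hD : 2 ^ (j + 1) ∣ Nat.card D := by
    rw [← ((Fl A x y).subgroupOf D).card_mul_index, hidx,
      Nat.card_congr (subgroupOfEquivOfLe hFD).toEquiv, lf.crd, pow_succ]
    exact Nat.mul_dvd_mul_right (Dvd.dvd.mul_left hj p) 2
  obtain ⟨P₀, hP₀⟩ := Sylow.exists_subgroup_card_pow_prime 2 hD
  have hDt : ∀ g ∈ D, g * t = t * g := by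
    rintro g (hg | hg)
    · exact hFt g hg
    · rw [← hback g, mul_assoc, hut, ← mul_assoc, hFt _ hg, mul_assoc]
  have hP : Nat.card (P₀.map D.subtype) = 2 ^ (j + 1) := by
    rw [← hP₀]
    exact (Nat.card_congr (P₀.equivMapOfInjective _ D.subtype_injective).toEquiv).symm
  have hPD : P₀.map D.subtype ≤ D := map_subtype_le _
  have key := dvd_of_free (P₀.map D.subtype) (Fx Ω t)ᶜ
    (fun g hg w hw h => hw ((pres g (hDt g (hPD hg)) w).mp h)) (by
      intro g hg w hw hgw
      by_contra h1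
      have hpow : g ^ 2 ^ (j + 1) = 1 := by
        have := pow_card_eq_one' (G := P₀.map D.subtype) (x := ⟨g, hg⟩)
        rw [hP] at this
        exact congrArg Subtype.val this
      obtain ⟨n, hn1, hn⟩ := exists_inv hpow h1
      have hw' : g ^ n • w = w := (stabilizer G w).pow_mem hgw n
      rcases D.pow_mem (hPD hg) n with h | h
      · have e := lf.uq _ z ⟨h, hn1, hn⟩ hz
        rw [e] at hw'
        exact hw (hln (hy.fz x y hxy z hz ▸ hw'))
      · obtain ⟨-, c, hc, e⟩ := fi x y hxy z hz u hIu huz hcm _ h (by rw [hback, hn])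
        rw [hback] at e
        refine hw ((pres c (hFt c hc) w).mp (hfu ?_))
        show u • c • w = c • w
        rw [← e, smul_smul, inv_mul_cancel_right, ← smul_smul, hw'])
  rw [hP, Set.ncard_compl] at key
  exact key

end Cfsg.Agent.H7.SpSr
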