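import Cfsg.Agent.H58.SWDefs

/-! Project SW, piece DN2: an outer involution centralising the point stabiliser, extraspecial case. -/

set_option autoImplicit false
open Matrix Cfsg
open scoped commutatorElement

namespace Cfsg.Agent.H7.SwDn2

open Cfsg.Agent.H58.SW

section Field
variable {F : Type} [Field F]

/-- Hilbert 90 for an involution -/
theorem h90 (σ : F ≃+* F) (h2 : ∀ a, σ (σ a) = a) (h1 : σ ≠ 1) (κ : F) (hκ : σ κ * κ = 1) :
    ∃ μ : F, μ ≠ 0 ∧ σ μ * κ = μ := by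
  by_contra hne
  have h0 : ∀ θ : F, θ + σ θ * κ = 0 := by
    intro θ
    by_contra h
    refine hne ⟨_, h, ?_⟩
    rw [map_add, map_mul, h2]
    linear_combination θ * hκ
  have hk := h0 1
  rw [map_one] at hk
  apply h1
  ext θ
  have := h0 θ
  show σ θ = θ
  linear_combination σ θ * hk - this

/-- the fixed field -/
def fx (σ : F ≃+* F) : Subfield F := RingHom.eqLocusField (σ : F →+* F) (RingHom.id F)

theorem mem_fx (σ : F ≃+* F) (a : F) : a ∈ fx σ ↔ σ a = a := Iff.rfl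

theorem card_le [Fintype F] (σ : F ≃+* F) (h2 : ∀ a, σ (σ a) = a) (h : Nat.card (fx σ) ≤ 9) :
    Fintype.card F ≤ 81 := by
  have key : ∃ f : F → fx σ × fx σ, Function.Injective f := by
    by_cases h1 : ∀ a, σ a = a
    · exact ⟨fun a => (⟨a, h1 a⟩, ⟨a, h1 a⟩), fun a b hab => congrArg (fun z => (z.1 : F)) hab⟩
    · obtain ⟨θ, hθ⟩ := not_forall.mp h1
      have m : ∀ a, a + σ a ∈ fx σ := fun a => by rw [mem_fx, map_add, h2, add_comm]
      refine ⟨fun a => (⟨_, m a⟩, ⟨_, m (a * θ)⟩), fun a b hab => ?_⟩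
      have e1 : a + σ a = b + σ b := congrArg (fun z => (z.1 : F)) hab
      have e2 : a * θ + σ (a * θ) = b * θ + σ (b * θ) := congrArg (fun z => (z.2 : F)) hab
      rw [map_mul, map_mul] at e2
      have e3 : (a - b) * (σ θ - θ) = 0 := by linear_combination σ θ * e1 - e2
      exact sub_eq_zero.mp ((mul_eq_zero.mp e3).resolve_right (sub_ne_zero.mpr hθ))
  obtain ⟨f, hf⟩ := key
  have := Nat.card_le_card_of_injective f hf
  rw [Nat.card_prod, Nat.card_eq_fintype_card] at this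
  exact this.trans (Nat.mul_le_mul h h)

end Field

section Main
variable {F : Type} [Field F] [Fintype F] [DecidableEq F] {n : ℕ}

theorem smul_inj (c : Cl F n) (x : Gl n F) {a b : F} (h : a • (x : Mt n F) = b • (x : Mt n F)) :
    a = b := by
  have hn := c.hn
  have : Nonempty (Fin n) := ⟨⟨0, by omega⟩⟩
  exact smul_left_injective F x.ne_zero h

theorem sq_scal (c : Cl F n) (ka : KA c) {x : Gl n F} (h : x ^ 2 ∈ c.Z) :
    ∃ k, c.ZV k ∧ (x : Mt n F) * x = k • (1 : Mt n F) ∧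
      (x : Mt n F) = k • ((x⁻¹ : Gl n F) : Mt n F) := by
  obtain ⟨k, hk, hx⟩ := (ka.mem_Z _).mp h
  rw [sq, Units.val_mul] at hx
  refine ⟨k, hk, hx, ?_⟩
  calc (x : Mt n F) = x * x * ((x⁻¹ : Gl n F) : Mt n F) := by
        rw [mul_assoc, Units.mul_inv, mul_one]
    _ = _ := by rw [hx, Matrix.smul_mul, one_mul]

theorem anti (c : Cl F n) (ka : KA c) {A : Subgroup (Gl n F)} (nd : Ndg c 2 A)
    (h2 : ∀ x ∈ A, ∀ y ∈ A, ⁅x, y⁆ ^ 2 = 1) :
    ∃ x ∈ A, ∃ y ∈ A, (y : Mt n F) * x = -((x : Mt n F) * y) := by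
  obtain ⟨x, hx, hxZ⟩ := SetLike.exists_of_lt nd.zlt
  obtain ⟨y, hy, hxy⟩ := nd.nd x hx hxZ
  obtain ⟨a, -, ha⟩ := (ka.mem_Z _).mp (nd.cm y hy x hx)
  have h1 : y * x = ⁅y, x⁆ * (x * y) := by rw [commutatorElement_def]; group
  have h3 : (y : Mt n F) * x = a • ((x : Mt n F) * y) := by
    rw [← Units.val_mul, h1, Units.val_mul, ha, Matrix.smul_mul, one_mul, Units.val_mul]
  have h4 : a * a = 1 := by
    have := congrArg (fun g : Gl n F => (g : Mt n F)) (h2 y hy x hx)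
    simp only [sq, Units.val_mul, ha, Matrix.smul_mul, Matrix.mul_smul, one_mul, smul_smul,
      Units.val_one] at this
    exact smul_inj c 1 (by rw [Units.val_one, this, one_smul])
  refine ⟨x, hx, y, hy, ?_⟩
  rcases mul_self_eq_one_iff.mp h4 with h | h
  · exfalso
    apply hxy
    rw [h, one_smul] at h3
    exact Units.ext (by rw [Units.val_mul, Units.val_mul, h3])
  · rw [h3, h, neg_smul, one_smul]

/-- a linear anti-involution has the eigenvalue `-1` on a noncentral element -/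
theorem sign (c : Cl F n) {A : Subgroup (Gl n F)} (τ : Mt n F → Mt n F)
    (hm : ∀ x y, τ (x * y) = τ y * τ x) (hs : ∀ (a : F) x, τ (a • x) = a • τ x)
    (h2 : ∀ x, τ (τ x) = x) (he : ∀ x ∈ A, ∃ κ : F, τ x = κ • (x : Mt n F))
    (h : ∃ x ∈ A, ∃ y ∈ A, (y : Mt n F) * x = -((x : Mt n F) * y)) :
    ∃ x ∈ A, ∃ y ∈ A, (y : Mt n F) * x = -((x : Mt n F) * y) ∧ τ x = -(x : Mt n F) := by
  have he' : ∀ x ∈ A, τ x = x ∨ τ x = -(x : Mt n F) := by
    intro x hx
    obtain ⟨κ, hκ⟩ := he x hx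
    have h3 := h2 x
    rw [hκ, hs, hκ, smul_smul] at h3
    have h4 : κ * κ = 1 := smul_inj c x (by rw [h3, one_smul])
    rcases mul_self_eq_one_iff.mp h4 with h | h
    · left
      rw [hκ, h, one_smul]
    · right
      rw [hκ, h, neg_smul, one_smul]
  obtain ⟨x, hx, y, hy, hxy⟩ := h
  rcases he' x hx with h1 | h1
  · rcases he' y hy with h3 | h3
    · refine ⟨x * y, A.mul_mem hx hy, y, hy, ?_, ?_⟩
      · rw [Units.val_mul, ← mul_assoc, hxy, neg_mul]
      · rw [Units.val_mul, hm, h1, h3, hxy]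
    · exact ⟨y, hy, x, hx, by rw [hxy, neg_neg], h3⟩
  · exact ⟨x, hx, y, hy, hxy, h1⟩

theorem eig (c : Cl F n) (ka : KA c) (kt : KT c) {H : Subgroup (Au n F)} {δ : Au n F}
    (del : Del c 2 H δ) {t : Tau F n} (ht : c.Ind t δ) {x : Gl n F} (hx : x ∈ c.hat H)
    (h2 : x ^ 2 ∈ c.Z) : ∃ κ : F, t.ap x = κ • (x : Mt n F) := by
  obtain ⟨e, -, he⟩ := (ka.mem_Z _).mp (del.cen x hx)
  have h1 : ((δ x : Gl n F) : Mt n F) = e • (x : Mt n F) := by
    rw [show δ x = δ x * x⁻¹ * x by group, Units.val_mul, he, Matrix.smul_mul, one_mul]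
  rw [ht.2.2] at h1
  by_cases hn : t.neg = true
  · rw [if_pos hn] at h1
    obtain ⟨k, -, -, hk⟩ := sq_scal c ka h2
    refine ⟨t.σ k * e, ?_⟩
    conv_lhs => rw [hk]
    rw [kt.smul, h1, smul_smul]
  · rw [if_neg hn] at h1
    exact ⟨e, h1⟩

theorem nrm (c : Cl F n) (kt : KT c) {t : Tau F n} (h2 : ∀ x, t.ap (t.ap x) = x) {x : Gl n F} {κ : F}
    (h : t.ap x = κ • (x : Mt n F)) : t.σ κ * κ = 1 := by
  have h3 := h2 x
  rw [h, kt.smul, h, smul_smul] at h3
  exact smul_inj c x (by rw [h3, one_smul])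

theorem inv_mul {x : Mt n F} {k a b : F} (hx : x * x = k • (1 : Mt n F)) (h : a ^ 2 - k * b ^ 2 = 1) :
    (a • (1 : Mt n F) - b • x) * (a • (1 : Mt n F) + b • x) = 1 := by
  have : (a • (1 : Mt n F) - b • x) * (a • (1 : Mt n F) + b • x) =
      (a ^ 2 - k * b ^ 2) • (1 : Mt n F) := by
    simp only [sub_mul, mul_add, Matrix.smul_mul, Matrix.mul_smul, one_mul, mul_one, hx]
    module
  rw [this, h, one_smul]

/-- the final step: the elements `a + b μ x` normalise `A` -/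
theorem circ (hC : CircStmt) (c : Cl F n) (ka : KA c) (kt : KT c) (hp : c.p ≠ 2)
    {H : Subgroup (Au n F)} {δ : Au n F} (del : Del c 2 H δ) {t : Tau F n} (ht : c.Ind t δ)
    {A : Subgroup (Gl n F)} (inv : InvG H A) (nd : Ndg c 2 A) (F0 : Subfield F)
    (hF : ∀ a, a ∈ F0 ↔ t.σ a = a) {x y : Gl n F} (hx : x ∈ A) (hy : y ∈ A)
    (hxy : (y : Mt n F) * x = -((x : Mt n F) * y)) (μ : F) (hμ : μ ≠ 0)
    (hap : t.ap (μ • (x : Mt n F)) = if t.neg = true then -(μ • (x : Mt n F)) else μ • (x : Mt n F))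
    (hst : c.u = true → (∀ a, t.σ a = a ^ c.q) ∧ c.st (μ • (x : Mt n F)) = -(μ • (x : Mt n F))) :
    Nat.card F0 ≤ 9 := by
  by_contra h9
  obtain ⟨k0, hk0, hxx, -⟩ := sq_scal c ka (nd.pw x hx)
  have hsq : (μ • (x : Mt n F)) * (μ • (x : Mt n F)) = (μ * μ * k0) • (1 : Mt n F) := by
    rw [Matrix.smul_mul, Matrix.mul_smul, hxx, smul_smul, smul_smul]
  have hk : μ * μ * k0 ∈ F0 := by
    rw [hF]
    have h1 : t.ap ((μ • (x : Mt n F)) * (μ • (x : Mt n F))) =
        (μ • (x : Mt n F)) * (μ • (x : Mt n F)) := by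
      by_cases hn : t.neg = true
      · rw [kt.mul' t hn, hap, if_pos hn, neg_mul_neg]
      · rw [kt.mul t (by simpa using hn), hap, if_neg hn]
    rw [hsq, kt.smul, kt.one] at h1
    exact smul_inj c 1 h1
  have hcj : cj y (μ • (x : Mt n F)) = -(μ • (x : Mt n F)) := by
    rw [cj, Matrix.mul_smul, hxy, Matrix.smul_mul, neg_mul, mul_assoc, Units.mul_inv, mul_one,
      smul_neg]
  obtain ⟨a, ha, b, hb, hab, g, hg, hd, hA⟩ := hC F n c hp F0 _ _ y (by omega) hk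
    (mul_ne_zero (mul_ne_zero hμ hμ) hk0.1) hsq hcj
  have hinv := inv_mul hsq hab
  rw [← hg] at hinv
  have hgS : g ∈ c.S := by
    refine (ka.mem_S g).mpr ⟨(ka.mem_St g).mpr (fun hu => ?_), hd⟩
    obtain ⟨h1, h2⟩ := hst hu
    conv_lhs => rw [hg, ka.st_add hu, ka.st_smul, ka.st_smul, ka.st_one, h2, ← h1, ← h1,
      (hF a).mp ha, (hF b).mp hb, smul_neg, ← sub_eq_add_neg, ← hg]
    exact hinv
  have hδ : δ g = g := by
    apply Units.ext
    rw [ht.2.2]
    by_cases hn : t.neg = true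
    · rw [if_pos hn, Units.inv_eq_of_mul_eq_one_left hinv, kt.sub, kt.smul, kt.smul t b, kt.one, hap,
        if_pos hn, (hF a).mp ha, (hF b).mp hb, hg, smul_neg, sub_neg_eq_add]
    · rw [if_neg hn, hg, kt.add, kt.smul, kt.smul t b, kt.one, hap, if_neg hn, (hF a).mp ha,
        (hF b).mp hb]
  have hgH := del.fix g hgS (by rw [hδ, mul_inv_cancel]; exact c.Z.one_mem)
  exact hA A nd hy (kt.hatG H A inv g hgH y hy)

end Main

theorem dn2 (hKA : KAStmt) (hKT : KTStmt) (hDK : DelKStmt) (hE1 : Ext1Stmt) (hE2 : Ext2Stmt)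
    (hC : CircStmt) : Dn2Stmt := by
  intro F _ _ _ n c r H Q loc hrp hu δ A del mq hab hr
  subst hr
  have ka := hKA F n c
  have kt := hKT F n c
  obtain ⟨t, ht⟩ := loc.std δ del.dH
  obtain ⟨-, hσ2, hσ1, hap, -, -⟩ := hDK F n c 2 H δ t loc.prime del ht
  have hap := hap rfl
  have nd := (hE1 F n c 2 H Q loc A mq hab).1
  have hσ : ∀ a, t.σ (t.σ a) = a := fun a => by
    have := congrArg (fun s : F ≃+* F => s a) hσ2
    simpa [sq] using this
  have he : ∀ x ∈ A, ∃ κ : F, t.ap x = κ • (x : Mt n F) := fun x hx =>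
    eig c ka kt del ht (loc.qh (mq.le hx)) (mq.pw x hx)
  have han := anti c ka nd (hE2 F n c 2 A loc.prime nd).2.2.1
  apply card_le t.σ hσ
  have hst : ∀ P : Prop, c.u = true → P := fun P h => by simp [hu] at h
  by_cases h1 : t.σ = 1
  · have hn : t.neg = true := by
      by_contra h
      exact hσ1 (by simpa using h) h1
    obtain ⟨x, hx, y, hy, hxy, hx'⟩ := sign c t.ap (kt.mul' t hn)
      (fun a x => by rw [kt.smul, h1]; rfl) hap he han
    exact circ hC c ka kt hrp.symm del ht mq.inv nd (fx t.σ) (mem_fx _) hx hy hxy 1 one_ne_zero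
      (by rw [one_smul, if_pos hn, hx']) (hst _)
  · obtain ⟨x, hx, y, hy, hxy⟩ := han
    obtain ⟨κ, hκ⟩ := he x hx
    have hκ1 := nrm c kt hap hκ
    by_cases hn : t.neg = true
    · obtain ⟨μ, hμ, hμ'⟩ := h90 t.σ hσ h1 (-κ) (by rw [map_neg, neg_mul_neg, hκ1])
      refine circ hC c ka kt hrp.symm del ht mq.inv nd (fx t.σ) (mem_fx _) hx hy hxy μ hμ ?_ (hst _)
      rw [if_pos hn, kt.smul, hκ, smul_smul, ← neg_smul]
      congr 1
      linear_combination -hμ'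
    · obtain ⟨μ, hμ, hμ'⟩ := h90 t.σ hσ h1 κ hκ1
      refine circ hC c ka kt hrp.symm del ht mq.inv nd (fx t.σ) (mem_fx _) hx hy hxy μ hμ ?_ (hst _)
      rw [if_neg hn, kt.smul, hκ, smul_smul, hμ']

theorem dn3 (hKA : KAStmt) (hKT : KTStmt) (hDK : DelKStmt) (hE1 : Ext1Stmt) (hE2 : Ext2Stmt)
    (hC : CircStmt) : Dn3Stmt := by
  intro F _ _ _ n c r H Q loc hrp hu δ A del mq hab hr
  subst hr
  have ka := hKA F n c
  have kt := hKT F n c
  obtain ⟨t, ht⟩ := loc.std δ del.dH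
  obtain ⟨-, -, -, hap, -, hσ⟩ := hDK F n c 2 H δ t loc.prime del ht
  have hap := hap rfl
  have hσ := hσ hu rfl
  have nd := (hE1 F n c 2 H Q loc A mq hab).1
  have hn : t.neg = false := by
    by_contra h
    have := (ht.2.1 (by simpa using h)).1
    simp [hu] at this
  have he : ∀ x ∈ A, ∃ κ : F, t.ap x = κ • (x : Mt n F) := fun x hx =>
    eig c ka kt del ht (loc.qh (mq.le hx)) (mq.pw x hx)
  have hs : ∀ x ∈ A, ∃ k : F, c.ZV k ∧ k • c.st x = (x : Mt n F) := by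
    intro x hx
    obtain ⟨k, hk, -, hk'⟩ := sq_scal c ka (mq.pw x hx)
    refine ⟨k, hk, ?_⟩
    rw [← Units.inv_eq_of_mul_eq_one_left ((ka.mem_St x).mp (nd.le hx) hu)]
    exact hk'.symm
  have han := anti c ka nd (hE2 F n c 2 A loc.prime nd).2.2.1
  obtain ⟨x, hx, y, hy, hxy, hx'⟩ := sign c (fun x => c.st (t.ap x))
    (fun x y => by rw [kt.mul t hn, ka.st_mul hu])
    (fun a x => by rw [kt.smul, ka.st_smul, hσ, ka.fr_fr hu])
    (fun x => by rw [kt.st t δ ht hu, ka.st_st hu, hap])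
    (fun x hx => by
      obtain ⟨κ, hκ⟩ := he x hx
      obtain ⟨k, hk, hk'⟩ := hs x hx
      refine ⟨κ ^ c.q * k⁻¹, ?_⟩
      rw [hκ, ka.st_smul]
      conv_rhs => rw [← hk', smul_smul, mul_assoc, inv_mul_cancel₀ hk.1, mul_one]) han
  obtain ⟨k, hk, hk'⟩ := hs x hx
  obtain ⟨μ, hμ, hμ'⟩ := ka.h90 hu (-k) (by
    rw [pow_succ, ← hσ, map_neg, neg_mul_neg, hσ, ← pow_succ, hk.2 hu])
  have hst : c.st (μ • (x : Mt n F)) = -(μ • (x : Mt n F)) := by
    rw [ka.st_smul, hμ']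
    conv_rhs => rw [← hk', smul_smul, ← neg_smul]
    congr 1
    ring
  have hap' : t.ap (μ • (x : Mt n F)) = μ • (x : Mt n F) := by
    have h1 : c.st (t.ap (μ • (x : Mt n F))) = c.st (μ • (x : Mt n F)) := by
      have hx'' : c.st (t.ap x) = -(x : Mt n F) := hx'
      rw [hst, kt.smul, ka.st_smul, hσ, ka.fr_fr hu, hx'', smul_neg]
    rw [← ka.st_st hu (t.ap _), h1, ka.st_st hu]
  obtain ⟨F0, hc, hF⟩ := ka.fx hu
  have h9 := circ hC c ka kt hrp.symm del ht mq.inv nd F0 (fun a => by rw [hF, hσ]) hx hy hxy μ hμ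
    (by rw [hap', if_neg (by simp [hn])]) (fun _ => ⟨hσ, hst⟩)
  rw [c.hq, if_pos hu, ← hc]
  exact (Nat.pow_le_pow_left h9 2).trans (by norm_num)

end Cfsg.Agent.H7.SwDn2
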