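import Cfsg.Agent.H58.SWDefs

/-! Project SW, piece NGL: an `r`-group modulo scalars normalised by all transvections is scalar. -/

set_option autoImplicit false
open Matrix Cfsg
open scoped commutatorElement Pointwise

namespace Cfsg.Agent.H7.SwNgl

open Cfsg.Agent.H58.SW

section Core
variable {F : Type} [Field F] [Fintype F] [DecidableEq F] {n : ℕ}

theorem cen_of_scal {x : Gl n F} {a : F} (h : (x : Mt n F) = a • (1 : Mt n F)) :
    x ∈ Subgroup.center (Gl n F) := by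
  rw [Subgroup.mem_center_iff]
  intro g
  apply Units.ext
  rw [Units.val_mul, Units.val_mul, h, Matrix.mul_smul, Matrix.smul_mul, mul_one, one_mul]

theorem comm_shift {G : Type*} [Group G] {x a b z w : G} (hz : z ∈ Subgroup.center G)
    (hw : w ∈ Subgroup.center G) (ha : x * a * x⁻¹ = z * a) (hb : x * b * x⁻¹ = w * b) :
    ⁅a, b⁆ * x = x * ⁅a, b⁆ := by
  have hz' := Subgroup.mem_center_iff.mp hz
  have hw' := Subgroup.mem_center_iff.mp hw
  have h1 : x * ⁅a, b⁆ * x⁻¹ = ⁅z * a, w * b⁆ := by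
    rw [← ha, ← hb, commutatorElement_def, commutatorElement_def]
    group
  have h2 : ⁅z * a, w * b⁆ = ⁅a, b⁆ := by
    rw [commutatorElement_def, commutatorElement_def]
    calc z * a * (w * b) * (z * a)⁻¹ * (w * b)⁻¹
        = z * (a * (w * b) * a⁻¹) * z⁻¹ * (w * b)⁻¹ := by group
      _ = (a * (w * b) * a⁻¹) * z * z⁻¹ * (w * b)⁻¹ := by rw [← hz' (a * (w * b) * a⁻¹)]
      _ = (a * w) * (b * a⁻¹ * b⁻¹) * w⁻¹ := by group
      _ = (w * a) * (b * a⁻¹ * b⁻¹) * w⁻¹ := by rw [hw' a]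
      _ = w * (a * b * a⁻¹ * b⁻¹) * w⁻¹ := by group
      _ = (a * b * a⁻¹ * b⁻¹) * w * w⁻¹ := by rw [← hw' (a * b * a⁻¹ * b⁻¹)]
      _ = a * b * a⁻¹ * b⁻¹ := by group
  rw [h2] at h1
  calc ⁅a, b⁆ * x = x * ⁅a, b⁆ * x⁻¹ * x := by rw [h1]
    _ = x * ⁅a, b⁆ := by group

theorem core (c : Cl F n) (ki : KI c) (kv : KV c) (r : ℕ) (hr : r.Prime) (hrp : r ≠ c.p)
    (R : Subgroup (Gl n F)) (hR : R ≤ c.St)
    (hp : ∀ x ∈ R, ∃ (k : ℕ) (a : F), ((x ^ (r ^ k) : Gl n F) : Mt n F) = a • (1 : Mt n F))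
    (T : Set (Gl n F)) (hTS : ∀ t ∈ T, t ∈ c.S)
    (hT : ∀ s ∈ c.S, ∀ x ∈ Subgroup.closure T, s * x * s⁻¹ ∈ Subgroup.closure T)
    (t : Gl n F) (htT : t ∈ T) (ht1 : t ≠ 1) (htu : Unip t)
    (hTR : ∀ t ∈ T, ∀ x ∈ R, t * x * t⁻¹ ∈ R) : ∀ x ∈ R, Scal (x : Mt n F) := by
  have hZc : c.Z ≤ Subgroup.center (Gl n F) := inf_le_right
  have hNS : Subgroup.closure T ≤ c.S := (Subgroup.closure_le _).mpr hTS
  have hSN : c.S ≤ Subgroup.normalizer (R : Set (Gl n F)) := by
    rcases ki.simp _ hNS hT with h | h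
    · exact absurd (kv.uz t (h (Subgroup.subset_closure htT)) htu) ht1
    · refine h.trans (sup_le ((Subgroup.closure_le _).mpr ?_) ?_)
      · intro g hg
        exact Subgroup.mem_normalizer_fintype (hTR g hg)
      · exact hZc.trans (Subgroup.center_le_normalizer _)
  have hn : ∀ s ∈ c.S, ∀ x ∈ R, s * x * s⁻¹ ∈ R := fun s hs x hx =>
    (Subgroup.mem_normalizer_iff.mp (hSN hs) x).mp hx
  have hRZ : R ⊓ c.S ≤ c.Z := by
    rcases ki.simp (R ⊓ c.S) inf_le_right (fun s hs x hx =>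
      ⟨hn s hs x hx.1, c.S.mul_mem (c.S.mul_mem hs hx.2) (c.S.inv_mem hs)⟩) with h | h
    · exact h
    · exfalso
      have htS := hTS t htT
      have h1 : t ∈ (R ⊓ c.S) ⊔ Subgroup.center (Gl n F) := (sup_le_sup_left hZc _) (h htS)
      have h2 : (t : Gl n F) ∈ ((R ⊓ c.S : Subgroup (Gl n F)) : Set (Gl n F)) *
          (Subgroup.center (Gl n F) : Set (Gl n F)) := by
        rw [← Subgroup.mul_normal]
        exact h1
      obtain ⟨x, hx, z, hz, hxz⟩ := h2
      obtain ⟨k, a, hk⟩ := hp x hx.1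
      obtain ⟨m, hm⟩ := (kv.upow t).mp htu
      have hc : Commute x z := Subgroup.mem_center_iff.mp hz x
      have h3 : t ^ (r ^ k) ∈ Subgroup.center (Gl n F) := by
        rw [← hxz]
        show (x * z) ^ (r ^ k) ∈ _
        rw [hc.mul_pow]
        exact Subgroup.mul_mem _ (cen_of_scal hk) (Subgroup.pow_mem _ hz _)
      have hco : Nat.Coprime (r ^ k) (c.p ^ m) :=
        Nat.Coprime.pow _ _ ((Nat.coprime_primes hr c.hp).mpr hrp)
      have hco' : Nat.Coprime (r ^ k) (orderOf t) :=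
        Nat.Coprime.coprime_dvd_right (orderOf_dvd_of_pow_eq_one hm) hco
      obtain ⟨j, hj⟩ := exists_pow_eq_self_of_coprime hco'
      have h4 : t ∈ Subgroup.center (Gl n F) := by
        rw [← hj]
        exact Subgroup.pow_mem _ h3 _
      exact ht1 (kv.uz t ⟨htS.1, h4⟩ htu)
  intro x hx
  have key : ∀ s ∈ c.S, x * s * x⁻¹ * s⁻¹ ∈ Subgroup.center (Gl n F) := by
    intro s hs
    refine hZc (hRZ ⟨?_, ?_, ?_⟩)
    · have := R.mul_mem hx (hn s hs x⁻¹ (R.inv_mem hx))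
      show _ ∈ R
      simpa only [mul_assoc] using this
    · exact c.St.mul_mem (c.St.mul_mem (c.St.mul_mem (hR hx) hs.1) (c.St.inv_mem (hR hx)))
        (c.St.inv_mem hs.1)
    · show _ ∈ (Matrix.GeneralLinearGroup.det : Gl n F →* Fˣ).ker
      rw [MonoidHom.mem_ker, map_mul, map_mul, map_mul, map_inv, map_inv,
        mul_inv_cancel_comm, mul_inv_cancel]
  have hcen : ⁅c.S, c.S⁆ ≤ Subgroup.centralizer {x} := by
    rw [Subgroup.commutator_le]
    intro a ha b hb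
    rw [Subgroup.mem_centralizer_singleton_iff]
    exact comm_shift (key a ha) (key b hb) (by group) (by group)
  apply ki.cs
  intro s hs
  have h := Subgroup.mem_centralizer_singleton_iff.mp (hcen (ki.perf hs))
  have h' := congrArg (fun g : Gl n F => (g : Mt n F)) h
  simp only [Units.val_mul] at h'
  exact h'.symm

theorem conj_closure {G : Type*} [Group G] {T : Set G} {s : G}
    (h : ∀ t ∈ T, s * t * s⁻¹ ∈ Subgroup.closure T) :
    ∀ x ∈ Subgroup.closure T, s * x * s⁻¹ ∈ Subgroup.closure T := by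
  intro x hx
  have : Subgroup.closure T ≤ (Subgroup.closure T).comap (MulAut.conj s).toMonoidHom :=
    (Subgroup.closure_le _).mpr (fun t ht => h t ht)
  exact this hx

/-- the elementary transvections -/
def TL (n : ℕ) (F : Type) [Field F] : Set (Gl n F) :=
  {t | ∃ (i j : Fin n) (a : F), i ≠ j ∧ (t : Mt n F) = Matrix.transvection i j a}

theorem TL_normal (s : Gl n F) : ∀ x ∈ Subgroup.closure (TL n F),
    s * x * s⁻¹ ∈ Subgroup.closure (TL n F) := by
  have hd : (s : Mt n F).det ≠ 0 := (Matrix.isUnits_det_units s).ne_zero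
  refine Matrix.diagonal_transvection_induction_of_det_ne_zero
    (fun M => ∀ g : Gl n F, (g : Mt n F) = M → ∀ x ∈ Subgroup.closure (TL n F),
      g * x * g⁻¹ ∈ Subgroup.closure (TL n F)) (s : Mt n F) hd ?_ ?_ ?_ s rfl
  · intro D hD g hg
    apply conj_closure
    rintro t ⟨i, j, a, hij, ht⟩
    apply Subgroup.subset_closure
    have hD' : ∀ k, D k ≠ 0 := by
      rw [Matrix.det_diagonal] at hD
      exact fun k => Finset.prod_ne_zero_iff.mp hD k (Finset.mem_univ k)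
    refine ⟨i, j, D i * a * (D j)⁻¹, hij, ?_⟩
    have h1 : (g : Mt n F) * t = Matrix.transvection i j (D i * a * (D j)⁻¹) * g := by
      rw [hg, ht, Matrix.transvection, Matrix.transvection, mul_add, add_mul, mul_one, one_mul]
      congr 1
      ext k l
      rw [Matrix.diagonal_mul, Matrix.mul_diagonal, Matrix.single_apply, Matrix.single_apply]
      split_ifs with h
      · rw [← h.1, ← h.2, mul_assoc (D i * a), inv_mul_cancel₀ (hD' j), mul_one]
      · rw [mul_zero, zero_mul]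
    rw [Units.val_mul, Units.val_mul, h1, mul_assoc, Units.mul_inv, mul_one]
  · intro t g hg x hx
    have : g ∈ Subgroup.closure (TL n F) := Subgroup.subset_closure ⟨t.i, t.j, t.c, t.hij, hg⟩
    exact Subgroup.mul_mem _ (Subgroup.mul_mem _ this hx) (Subgroup.inv_mem _ this)
  · intro A B hA hB pA pB g hg x hx
    have e : g = Matrix.GeneralLinearGroup.mkOfDetNeZero A hA *
        Matrix.GeneralLinearGroup.mkOfDetNeZero B hB := Units.ext (by rw [hg]; rfl)
    have := pA (Matrix.GeneralLinearGroup.mkOfDetNeZero A hA) rfl _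
      (pB (Matrix.GeneralLinearGroup.mkOfDetNeZero B hB) rfl x hx)
    rw [e]
    simpa only [mul_assoc, _root_.mul_inv_rev] using this

theorem coreL (c : Cl F n) (hu : c.u = false) (ka : KA c) (ki : KI c) (kv : KV c) (r : ℕ)
    (hr : r.Prime) (hrp : r ≠ c.p) (R : Subgroup (Gl n F))
    (hp : ∀ x ∈ R, ∃ (k : ℕ) (a : F), ((x ^ (r ^ k) : Gl n F) : Mt n F) = a • (1 : Mt n F))
    (hTR : ∀ t ∈ TL n F, ∀ x ∈ R, t * x * t⁻¹ ∈ R) : ∀ x ∈ R, Scal (x : Mt n F) := by
  have hSt : ∀ x : Gl n F, x ∈ c.St := fun x => (ka.mem_St x).mpr (fun h => by simp [hu] at h)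
  have hn := c.hn
  let i : Fin n := ⟨0, by omega⟩
  let j : Fin n := ⟨1, by omega⟩
  have hij : i ≠ j := by simp [i, j]
  have hnil : IsNilpotent (Matrix.single i j (1 : F) : Mt n F) :=
    ⟨2, by rw [sq, Matrix.single_mul_single_of_ne _ _ _ _ hij.symm]⟩
  obtain ⟨g, hg, -, hgu⟩ := kv.nil _ hnil
  refine core c ki kv r hr hrp R (fun x _ => hSt x) hp (TL n F) ?_ (fun s _ => TL_normal s) g
    ⟨i, j, 1, hij, hg⟩ ?_ hgu hTR
  · rintro t ⟨k, l, a, hkl, ht⟩
    exact (ka.mem_S t).mpr ⟨hSt t, by rw [ht, Matrix.det_transvection_of_ne _ _ hkl]⟩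
  · intro h
    rw [h, Units.val_one, left_eq_add] at hg
    have := congrFun (congrFun hg i) j
    simp at this

/-- the unitary transvections -/
def TU (c : Cl F n) : Set (Gl n F) :=
  {t | ∃ (v : Vc n F) (a : F), c.hf v v = 0 ∧ a ^ c.q = -a ∧
    (t : Mt n F) = 1 + a • vecMulVec v (c.bar v)}

theorem coreU (c : Cl F n) (hu : c.u = true) (ka : KA c) (ki : KI c) (kv : KV c) (kw : KW c) (r : ℕ)
    (hr : r.Prime) (hrp : r ≠ c.p) (R : Subgroup (Gl n F)) (hR : R ≤ c.St)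
    (hp : ∀ x ∈ R, ∃ (k : ℕ) (a : F), ((x ^ (r ^ k) : Gl n F) : Mt n F) = a • (1 : Mt n F))
    (hTR : ∀ t ∈ TU c, ∀ x ∈ R, t * x * t⁻¹ ∈ R) : ∀ x ∈ R, Scal (x : Mt n F) := by
  obtain ⟨v, hv0, -, hv⟩ := kw.iso hu 1 ka.st_one (mul_one _)
    (by rw [Matrix.rank_one, Fintype.card_fin]; exact c.hn)
  obtain ⟨a, ha0, ha⟩ : ∃ a : F, a ≠ 0 ∧ a ^ c.q = -a := by
    have h1 : 1 < Nat.card {a : F // a ^ c.q = -a} := by
      rw [ka.tz hu]
      exact ka.two_le
    obtain ⟨x, y, hxy⟩ := (Finite.one_lt_card_iff_nontrivial.mp h1).exists_pair_ne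
    by_cases hx : x.1 = 0
    · refine ⟨y.1, fun hy => hxy (Subtype.ext (hx.trans hy.symm)), y.2⟩
    · exact ⟨x.1, hx, x.2⟩
  obtain ⟨g, -, hgu, hg⟩ := kv.tvU hu v a hv ha
  refine core c ki kv r hr hrp R hR hp (TU c) ?_ ?_ g ⟨v, a, hv, ha, hg⟩ ?_ hgu hTR
  · rintro t ⟨w, b, hw, hb, ht⟩
    obtain ⟨g', hS, -, hg'⟩ := kv.tvU hu w b hw hb
    rwa [show t = g' from Units.ext (ht.trans hg'.symm)]
  · intro s hs
    apply conj_closure
    rintro t ⟨w, b, hw, hb, ht⟩
    apply Subgroup.subset_closure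
    have hss : c.st s * (s : Mt n F) = 1 := (ka.mem_St s).mp hs.1 hu
    have hhf : ∀ x y, c.hf ((s : Mt n F) *ᵥ x) ((s : Mt n F) *ᵥ y) = c.hf x y := by
      intro x y
      rw [ka.hf_adj hu, Matrix.mulVec_mulVec, hss, Matrix.one_mulVec]
    refine ⟨(s : Mt n F) *ᵥ w, b, by rw [hhf, hw], hb, ?_⟩
    have h1 : (s : Mt n F) * vecMulVec w (c.bar w) =
        vecMulVec ((s : Mt n F) *ᵥ w) (c.bar ((s : Mt n F) *ᵥ w)) * s := by
      apply Matrix.ext_of_mulVec_single
      intro k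
      rw [← Matrix.mulVec_mulVec, ← Matrix.mulVec_mulVec, ka.vec_ap, ka.vec_ap, hhf,
        Matrix.mulVec_smul]
    rw [Units.val_mul, Units.val_mul, ht, mul_add, mul_one, Matrix.mul_smul, h1, add_mul,
      Matrix.smul_mul, mul_assoc, Units.mul_inv, mul_one]
  · intro h
    rw [h, Units.val_one, left_eq_add] at hg
    obtain ⟨k, hk⟩ := Function.ne_iff.mp hv0
    have := congrFun (congrFun hg k) k
    simp only [Matrix.smul_apply, vecMulVec_apply, Cl.bar, smul_eq_mul, Matrix.zero_apply] at this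
    exact mul_ne_zero ha0 (mul_ne_zero hk (pow_ne_zero _ hk)) this

end Core

section Transport
variable {K : Type} [Field K] {ι : Type} [Fintype ι] [DecidableEq ι] {s : ℕ}

/-- reindexing of invertible matrices -/
noncomputable def re (e : ι ≃ Fin s) : GL (Fin s) K ≃* GL ι K :=
  Units.mapEquiv (Matrix.reindexAlgEquiv K K e.symm).toMulEquiv

theorem re_val (e : ι ≃ Fin s) (y : GL (Fin s) K) :
    ((re e y : GL ι K) : Matrix ι ι K) = Matrix.reindexAlgEquiv K K e.symm (y : Mt s K) := rfl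

theorem re_scal (e : ι ≃ Fin s) (y : GL (Fin s) K) (a : K) :
    ((re e y : GL ι K) : Matrix ι ι K) = a • (1 : Matrix ι ι K) ↔ (y : Mt s K) = a • (1 : Mt s K) := by
  rw [re_val]
  constructor
  · intro h
    apply (Matrix.reindexAlgEquiv K K e.symm).injective
    rw [h, map_smul, map_one]
  · intro h
    rw [h, map_smul, map_one]

theorem fin_of (e : ι ≃ Fin s) (R : Subgroup (GL ι K))
    (h : ∀ x ∈ R.comap (re e).toMonoidHom, Scal (x : Mt s K)) :
    ∀ x ∈ R, ∃ a : K, (x : Matrix ι ι K) = a • (1 : Matrix ι ι K) := by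
  intro x hx
  obtain ⟨y, rfl⟩ := (re e).surjective x
  obtain ⟨a, ha⟩ := h y hx
  exact ⟨a, (re_scal e y a).mpr ha⟩

theorem pow_of (e : ι ≃ Fin s) (R : Subgroup (GL ι K)) (r : ℕ)
    (h : ∀ x ∈ R, ∃ (k : ℕ) (a : K), ((x ^ (r ^ k) : GL ι K) : Matrix ι ι K) = a • (1 : Matrix ι ι K)) :
    ∀ x ∈ R.comap (re e).toMonoidHom,
      ∃ (k : ℕ) (a : K), ((x ^ (r ^ k) : Gl s K) : Mt s K) = a • (1 : Mt s K) := by
  intro x hx
  obtain ⟨k, a, hk⟩ := h (re e x) hx
  rw [← map_pow] at hk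
  exact ⟨k, a, (re_scal e _ a).mp hk⟩

theorem norm_of (e : ι ≃ Fin s) (R : Subgroup (GL ι K)) (t : GL (Fin s) K)
    (h : ∀ x ∈ R, re e t * x * (re e t)⁻¹ ∈ R) :
    ∀ x ∈ R.comap (re e).toMonoidHom, t * x * t⁻¹ ∈ R.comap (re e).toMonoidHom := by
  intro x hx
  have := h (re e x) hx
  rw [← map_inv, ← map_mul, ← map_mul] at this
  exact this

end Transport

theorem ngl (hKA : KAStmt) (hKV : KVStmt) (hI : IrrStmt) : NglStmt := by
  intro K _ _ _ ι _ _ p r hc hr hrp h2 h4 R hp hT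
  let e : ι ≃ Fin (Fintype.card ι) := Fintype.equivFin ι
  let c : Cl K (Fintype.card ι) :=
    { u := false, q := Fintype.card K, p := p, hp := CharP.char_is_prime K p, chr := hc
      hq := by simp, hn := h2, hn2 := fun h => ⟨rfl, h4 h⟩, hu := fun h => by simp at h }
  refine fin_of e R (coreL c rfl (hKA K _ c) (hI K _ c) (hKV K _ c) r hr hrp _ (pow_of e R r hp) ?_)
  rintro t ⟨i, j, a, hij, ht⟩
  refine norm_of e R t (hT _ (e.symm i) (e.symm j) a (fun h => hij (e.symm.injective h)) ?_)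
  rw [re_val, ht]
  exact (Matrix.TransvectionStruct.toMatrix_reindexEquiv e.symm ⟨i, j, hij, a⟩).symm

theorem ngu3 (hKA : KAStmt) (hKV : KVStmt) (hKW : KWStmt) (hI : IrrStmt) : Ngu3Stmt := by
  intro K _ _ _ ι _ _ p r q hc hr hrp hq h3 _ h3q R hU hp hT
  let e : ι ≃ Fin (Fintype.card ι) := Fintype.equivFin ι
  have h3' : 3 ≤ Fintype.card ι := h3
  let c : Cl K (Fintype.card ι) :=
    { u := true, q := q, p := p, hp := CharP.char_is_prime K p, chr := hc
      hq := by simpa using hq, hn := by omega, hn2 := fun h => by omega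
      hu := fun _ h => by have := h3q h.1; omega }
  have ka := hKA K _ c
  refine fin_of e R (coreU c rfl ka (hI K _ c) (hKV K _ c) (hKW K _ c) r hr hrp _ ?_
    (pow_of e R r hp) ?_)
  · intro x hx
    refine (ka.mem_St x).mpr (fun _ => ?_)
    apply (Matrix.reindexAlgEquiv K K e.symm).injective
    rw [map_mul, map_one]
    exact hU (re e x) hx
  · rintro t ⟨v, a, hv, ha, ht⟩
    refine norm_of e R t (hT _ (fun i => v (e i)) a ?_ ha ?_)
    · exact (Equiv.sum_comp e (fun i => v i * v i ^ q)).trans hv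
    · rw [re_val, ht, map_add, map_one, map_smul]
      rfl

end Cfsg.Agent.H7.SwNgl
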